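import Cfsg.Agent.H9.ChevFix

/-! Abstract Chevalley data in an arbitrary group (root elements, torus, monomial elements). -/

set_option autoImplicit false
set_option linter.unusedSectionVars false
set_option linter.unusedVariables false

namespace Cfsg.Agent.LB

open Subgroup Cfsg.Agent.H9.Chev

structure AD (G : Type*) [Group G] (Φ : Type) (l : ℕ) (F : Type*) [Field F] where
  x : Φ → F → G
  D : AddChar (Fin l → ℤ) Fˣ →* G
  n : Fin l → G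
  rt : Φ → Fin l → ℤ
  neg : Φ → Φ
  sm : Fin l → Φ
  w : Fin l → Φ → Φ
  A : Fin l → Fin l → ℤ

variable {G : Type*} [Group G] {Φ : Type} {l : ℕ} {F : Type*} [Field F]

namespace AD

variable (d : AD G Φ l F)


def pr (p : Fin l) : (Fin l → ℤ) →+ ℤ where
  toFun v := ∑ j, d.A p j * v j
  map_zero' := by simp
  map_add' v w := by simp [mul_add, Finset.sum_add_distrib]

def W (p : Fin l) : (Fin l → ℤ) →+ (Fin l → ℤ) where
  toFun v := v - d.pr p v • Pi.single p 1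
  map_zero' := by simp
  map_add' v w := by rw [map_add, add_smul]; abel

theorem W_apply (p : Fin l) (v : Fin l → ℤ) : d.W p v = v - d.pr p v • Pi.single p 1 := rfl

def US (S : Set Φ) : Subgroup (G) := closure {g | ∃ r ∈ S, ∃ t, g = d.x r t}

def T : Subgroup G := d.D.range

def Sum2 (r s : Φ) : Set Φ := {k | ∃ i j : ℕ, 1 ≤ i ∧ 1 ≤ j ∧ d.rt k = i • d.rt r + j • d.rt s}

def Up (d : AD G Φ l F) (f : (Fin l → ℤ) →+ ℤ) (S : Set Φ) : Prop :=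
  ∀ r ∈ S, 0 < f (d.rt r) ∧ ∀ s, f (d.rt r) < f (d.rt s) → s ∈ S

def Pos (d : AD G Φ l F) (f : (Fin l → ℤ) →+ ℤ) : Set Φ := {r | 0 < f (d.rt r)}

/-- the group generated by all root elements -/
abbrev K : Subgroup G := d.US Set.univ

abbrev U : Subgroup G := d.US (d.Pos (ht l))

abbrev V : Subgroup G := d.US (d.Pos (-ht l))

/-- inner-diagonal group -/
def GH : Subgroup G := d.K ⊔ d.T

/-- Borel subgroup -/
def B : Subgroup G := d.U ⊔ d.T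

/-- `h_p(a)` -/
def hh (p : Fin l) (a : Fˣ) : G := d.D (pc (d.pr p) a)

structure Ax : Prop where
  x_add : ∀ r t u, d.x r (t + u) = d.x r t * d.x r u
  rt_neg : ∀ r, d.rt (d.neg r) = -d.rt r
  rt_sm : ∀ p, d.rt (d.sm p) = Pi.single p 1
  rt_inj : Function.Injective d.rt
  ht_ne : ∀ r, ht l (d.rt r) ≠ 0
  hpos : ∀ r ∈ d.Pos (ht l), ∀ i, 0 ≤ d.rt r i
  D_x : ∀ (χ : AddChar (Fin l → ℤ) Fˣ) (r : Φ) (t : F),
    d.D χ * d.x r t = d.x r (χ (d.rt r) * t) * d.D χ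
  n_D : ∀ (p : Fin l) (χ : AddChar (Fin l → ℤ) Fˣ),
    d.n p * d.D χ = d.D (χ.compAddMonoidHom (d.W p)) * d.n p
  n_gen : ∀ (p : Fin l) (a : Fˣ), d.x (d.sm p) a * d.x (d.neg (d.sm p)) (-(a : F)⁻¹) * d.x (d.sm p) a =
      d.D (pc (d.pr p) a) * d.n p
  n_conj : ∀ p r, ∃ ε : F, (ε = 1 ∨ ε = -1) ∧ ∀ t, d.n p * d.x r t = d.x (d.w p r) (ε * t) * d.n p ∧
    d.n p * d.x (d.neg r) t = d.x (d.w p (d.neg r)) (ε * t) * d.n p
  rt_w : ∀ p r, d.rt (d.w p r) = d.W p (d.rt r)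
  A_self : ∀ p, d.A p p = 2
  w_pos : ∀ p r, 0 < ht l (d.rt r) → r ≠ d.sm p → 0 < ht l (d.rt (d.w p r))
  reach : ∀ P : Φ → Prop, (∀ p, P (d.sm p)) → (∀ p r, P r → P (d.w p r)) → ∀ r, P r
  comm : ∀ r s, s ≠ r → s ≠ d.neg r → ∀ t u,
    (d.x s u)⁻¹ * (d.x r t)⁻¹ * d.x s u * d.x r t ∈ d.US (d.Sum2 r s)
  uniq : ∀ (f : (Fin l → ℤ) →+ ℤ) (r : Φ), 0 < f (d.rt r) → ∀ S : Set Φ,
    (∀ s ∈ S, f (d.rt r) ≤ f (d.rt s)) → r ∉ S → ∀ t, d.x r t ∈ d.US S → t = 0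
  ldu : ∀ {u u' v v' t t' : G}, u ∈ d.US (d.Pos (ht l)) → u' ∈ d.US (d.Pos (ht l)) →
    v ∈ d.US (d.Pos (-ht l)) → v' ∈ d.US (d.Pos (-ht l)) → t ∈ d.T → t' ∈ d.T →
    u * t * v = u' * t' * v' → u = u' ∧ t = t' ∧ v = v'
  root_eq_of_x_eq : ∀ {r s : Φ} {t u : F}, t ≠ 0 → d.x r t = d.x s u → r = s


def nw (d : AD G Φ l F) (L : List (Fin l)) : G := (L.map d.n).prod

def ww (d : AD G Φ l F) (L : List (Fin l)) (r : Φ) : Φ := L.foldr d.w r

def Cell (d : AD G Φ l F) (L : List (Fin l)) (g : G) : Prop :=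
  ∃ u ∈ d.US (d.Pos (ht l)), ∃ t ∈ d.T, ∃ u' ∈ d.US (d.Pos (ht l)), g = u * t * d.nw L * u'

noncomputable def cnt (d : AD G Φ l F) (L : List (Fin l)) : ℕ :=
  {r | r ∈ d.Pos (ht l) ∧ d.ww L r ∉ d.Pos (ht l)}.ncard

def WE (d : AD G Φ l F) (p : Fin l) : AddMonoid.End (Fin l → ℤ) := d.W p

def WL (d : AD G Φ l F) (L : List (Fin l)) : AddMonoid.End (Fin l → ℤ) := (L.map (WE d)).prod

variable {d}

theorem x_mem_US {S : Set Φ} {r : Φ} (hr : r ∈ S) (t : F) : d.x r t ∈ d.US S :=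
  subset_closure ⟨r, hr, t, rfl⟩

theorem US_mono {S S' : Set Φ} (h : S ⊆ S') : d.US S ≤ d.US S' :=
  closure_mono fun _ ⟨r, hr, t, ht⟩ => ⟨r, h hr, t, ht⟩

theorem US_le {S : Set Φ} {H : Subgroup (G)} (h : ∀ r ∈ S, ∀ t, d.x r t ∈ H) : d.US S ≤ H :=
  (closure_le _).2 fun _ ⟨r, hr, t, ht⟩ => ht ▸ h r hr t

theorem conj_US {S S' : Set Φ} {g : G} (h : ∀ r ∈ S, ∀ t, g * d.x r t * g⁻¹ ∈ d.US S')
    {u : G} (hu : u ∈ d.US S) : g * u * g⁻¹ ∈ d.US S' :=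
  US_le (H := (d.US S').comap (MulAut.conj g).toMonoidHom) h hu

theorem D_mem (χ : AddChar (Fin l → ℤ) Fˣ) : d.D χ ∈ d.T := ⟨χ, rfl⟩

theorem up_pos (f : (Fin l → ℤ) →+ ℤ) : d.Up f (d.Pos f) := fun _ hr => ⟨hr, fun _ hs => hr.trans hs⟩

theorem nw_cons (p : Fin l) (L : List (Fin l)) : d.nw (p :: L) = d.n p * d.nw L := by simp [nw]

theorem ww_cons (p : Fin l) (L : List (Fin l)) (r : Φ) : d.ww (p :: L) r = d.w p (d.ww L r) := rfl

theorem nw_append (L L' : List (Fin l)) : d.nw (L ++ L') = d.nw L * d.nw L' := by simp [nw]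

theorem ww_append (L L' : List (Fin l)) (r : Φ) : d.ww (L ++ L') r = d.ww L (d.ww L' r) := by
  simp [ww]

theorem WL_cons (p : Fin l) (L : List (Fin l)) (v : Fin l → ℤ) : WL d (p :: L) v = d.W p (WL d L v) := by
  rfl

theorem WL_append (L L' : List (Fin l)) : WL d (L ++ L') = WL d L * WL d L' := by simp [WL]

theorem T_comm : ∀ x ∈ d.T, ∀ y ∈ d.T, x * y = y * x := by
  rintro _ ⟨χ, rfl⟩ _ ⟨ψ, rfl⟩
  rw [← map_mul, ← map_mul, mul_comm χ ψ]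

theorem exists_pow (L : List (Fin l)) (k : ℕ) : ∃ L', d.nw L' = d.nw L ^ k ∧ WL d L' = WL d L ^ k := by
  induction k with
  | zero => exact ⟨[], by simp [nw], by simp [WL]⟩
  | succ k ih =>
    obtain ⟨L', h1, h2⟩ := ih
    exact ⟨L' ++ L, by rw [nw_append, h1, pow_succ], by rw [WL_append, h2, pow_succ]⟩

theorem WL_inv {β : (Fin l → ℤ) → (Fin l → ℤ) → ℤ} (hβ : ∀ p v w, β (d.W p v) (d.W p w) = β v w)
    (L : List (Fin l)) (v w : Fin l → ℤ) : β (WL d L v) (WL d L w) = β v w := by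
  induction L with
  | nil => rfl
  | cons p L ih => rw [WL_cons, WL_cons, hβ, ih]

theorem up_ind [Finite Φ] {f : (Fin l → ℤ) →+ ℤ} {P : Set Φ → Prop} (h0 : P ∅)
    (h1 : ∀ S r, d.Up f S → r ∈ S → (∀ s ∈ S, f (d.rt r) ≤ f (d.rt s)) → d.Up f (S \ {r}) →
      P (S \ {r}) → P S) (S : Set Φ) (hS : d.Up f S) : P S := by
  induction hn : S.ncard using Nat.strong_induction_on generalizing S with
  | _ n ih =>
    rcases S.eq_empty_or_nonempty with rfl | hne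
    · exact h0
    obtain ⟨r, hr, hmin⟩ := Set.exists_min_image S (fun r => f (d.rt r)) (Set.toFinite S) hne
    have hup : d.Up f (S \ {r}) := fun s hs => ⟨(hS s hs.1).1, fun s' hs' => ⟨(hS s hs.1).2 s' hs', by
      rintro rfl; exact absurd (hmin s hs.1) (not_le.2 hs')⟩⟩
    exact h1 S r hS hr hmin hup
      (ih _ (hn ▸ Set.ncard_sdiff_singleton_lt_of_mem hr (Set.toFinite S)) _ hup rfl)

namespace Ax

variable (h : d.Ax)
include h


theorem x_zero (r : Φ) : d.x r 0 = 1 := by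
  have := h.x_add r 0 0
  rw [add_zero] at this
  exact left_eq_mul.1 this

theorem x_inv (r : Φ) (t : F) : (d.x r t)⁻¹ = d.x r (-t) := by
  rw [inv_eq_iff_mul_eq_one, ← h.x_add, add_neg_cancel, h.x_zero]

theorem US_ind {S : Set Φ} {P : G → Prop} (h1 : P 1)
    (hm : ∀ r ∈ S, ∀ t g, g ∈ d.US S → P g → P (d.x r t * g)) {g : G} (hg : g ∈ d.US S) :
    P g := by
  induction hg using closure_induction_left with
  | one => exact h1
  | mul_left x hx y hy ih => obtain ⟨r, hr, t, rfl⟩ := hx; exact hm r hr t y hy ih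
  | inv_mul_cancel x hx y hy ih =>
    obtain ⟨r, hr, t, rfl⟩ := hx; rw [h.x_inv]; exact hm r hr _ y hy ih

theorem T_conj {S : Set Φ} {t u : G} (ht : t ∈ d.T) (hu : u ∈ d.US S) :
    t * u * t⁻¹ ∈ d.US S := by
  obtain ⟨χ, rfl⟩ := ht
  exact conj_US (fun r hr t => by rw [h.D_x, mul_inv_cancel_right]; exact x_mem_US hr _) hu

theorem pr_single (p : Fin l) : d.pr p (Pi.single p 1) = 2 := by
  change ∑ j, d.A p j * (Pi.single p 1 : Fin l → ℤ) j = 2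
  rw [Finset.sum_eq_single p] <;> simp +contextual [h.A_self, Pi.single_apply]

theorem W_single (p : Fin l) : d.W p (Pi.single p 1) = -Pi.single p 1 := by
  rw [W_apply, h.pr_single, two_smul]; abel

theorem W_W (p : Fin l) (v : Fin l → ℤ) : d.W p (d.W p v) = v := by
  rw [W_apply d p v, map_sub, map_zsmul, h.W_single, W_apply, smul_neg]; abel

theorem neg_neg (r : Φ) : d.neg (d.neg r) = r := h.rt_inj (by rw [h.rt_neg, h.rt_neg, _root_.neg_neg])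

theorem w_w (p : Fin l) (r : Φ) : d.w p (d.w p r) = r := h.rt_inj (by rw [h.rt_w, h.rt_w, h.W_W])

theorem w_inj (p : Fin l) : Function.Injective (d.w p) :=
  Function.LeftInverse.injective (h.w_w p)

theorem w_neg (p : Fin l) (r : Φ) : d.w p (d.neg r) = d.neg (d.w p r) :=
  h.rt_inj (by rw [h.rt_w, h.rt_neg, h.rt_neg, h.rt_w, map_neg])

theorem w_sm (p : Fin l) : d.w p (d.sm p) = d.neg (d.sm p) :=
  h.rt_inj (by rw [h.rt_w, h.rt_neg, h.rt_sm, h.W_single])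

theorem ht_sm (p : Fin l) : ht l (d.rt (d.sm p)) = 1 := by
  rw [h.rt_sm]; simp [ht, Pi.single_apply]

theorem n_def (p : Fin l) :
    d.n p = d.x (d.sm p) 1 * d.x (d.neg (d.sm p)) (-1) * d.x (d.sm p) 1 := by
  have := h.n_gen p 1
  rw [show pc (d.pr p) (1 : Fˣ) = 1 from by ext v; simp [pc_apply], map_one, one_mul] at this
  simpa using this.symm

theorem n_inv (p : Fin l) : (d.n p)⁻¹ = d.D (pc (d.pr p) (-1)) * d.n p := by
  rw [← h.n_gen, h.n_def]; simp [h.x_inv, mul_assoc]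

theorem x_inj (r : Φ) {t u : F} (e : d.x r t = d.x r u) : t = u := by
  have h1 : d.x r (t - u) ∈ d.US ∅ := by
    rw [sub_eq_add_neg, h.x_add, e, ← h.x_add, add_neg_cancel, h.x_zero]; exact one_mem _
  rcases (h.ht_ne r).lt_or_gt with h2 | h2
  · exact sub_eq_zero.1 (h.uniq (-ht l) r (by simpa using h2) ∅ (by simp) (by simp) _ h1)
  · exact sub_eq_zero.1 (h.uniq (ht l) r h2 ∅ (by simp) (by simp) _ h1)


theorem n_sq (p : Fin l) : d.n p * d.n p ∈ d.T := by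
  have : d.n p * d.n p = (d.D (pc (d.pr p) (-1)))⁻¹ := by
    rw [← mul_inv_eq_iff_eq_mul.2 (h.n_inv p)]; simp
  rw [this]; exact inv_mem (D_mem _)

theorem conj_x_mem {f : (Fin l → ℤ) →+ ℤ} {S : Set Φ} (hS : d.Up f S) {r : Φ}
    (hr : 0 < f (d.rt r)) (t : F) {u : G} (hu : u ∈ d.US S) :
    d.x r t * u * (d.x r t)⁻¹ ∈ d.US S := by
  refine conj_US (fun s hs c => ?_) hu
  by_cases e : s = r
  · subst e; rw [h.x_inv, ← h.x_add, ← h.x_add]; exact x_mem_US hs _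
  have h2 : s ≠ d.neg r := by
    rintro rfl
    have := (hS _ hs).1
    rw [h.rt_neg, map_neg] at this; omega
  have := US_mono (S' := S) ?_ (h.comm r s e h2 (-t) c)
  · convert mul_mem (x_mem_US hs c) this using 1
    rw [← h.x_inv]; group
  · rintro k ⟨i, j, hi, hj, hk⟩
    refine (hS s hs).2 k ?_
    have := (hS s hs).1
    rw [hk, map_add, map_nsmul, map_nsmul, nsmul_eq_mul, nsmul_eq_mul]
    have : (1 : ℤ) ≤ j := by exact_mod_cast hj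
    have : (1 : ℤ) ≤ i := by exact_mod_cast hi
    nlinarith

theorem peel {f : (Fin l → ℤ) →+ ℤ} {S : Set Φ} {r : Φ} (hS : d.Up f (S \ {r}))
    (hr : 0 < f (d.rt r)) {u : G} (hu : u ∈ d.US S) :
    ∃ t, ∃ u' ∈ d.US (S \ {r}), u = d.x r t * u' := by
  refine h.US_ind (P := fun u => ∃ t, ∃ u' ∈ d.US (S \ {r}), u = d.x r t * u')
    ⟨0, 1, one_mem _, by simp [h.x_zero]⟩ ?_ hu
  rintro s hs c g - ⟨t, u', hu', rfl⟩
  by_cases e : s = r
  · subst e; exact ⟨c + t, u', hu', by rw [h.x_add, mul_assoc]⟩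
  · refine ⟨t, _, mul_mem (h.conj_x_mem hS hr (-t) (x_mem_US (S := S \ {r}) ⟨hs, e⟩ c)) hu', ?_⟩
    rw [← h.x_inv]; group

variable [Finite Φ]

theorem split {f : (Fin l → ℤ) →+ ℤ} (P : Set Φ) {S : Set Φ} (hS : d.Up f S) :
    ∀ u ∈ d.US S, ∃ a ∈ d.US (S ∩ P), ∃ b ∈ d.US (S \ P), u = a * b := by
  refine up_ind (P := fun S => ∀ u ∈ d.US S, ∃ a ∈ d.US (S ∩ P), ∃ b ∈ d.US (S \ P), u = a * b)
    ?_ ?_ S hS
  · intro u hu
    exact ⟨u, by simpa using hu, 1, one_mem _, by simp⟩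
  intro S r hS hr _ hup ih u hu
  have m1 : d.US ((S \ {r}) ∩ P) ≤ d.US (S ∩ P) := US_mono fun _ hx => ⟨hx.1.1, hx.2⟩
  have m2 : d.US ((S \ {r}) \ P) ≤ d.US (S \ P) := US_mono fun _ hx => ⟨hx.1.1, hx.2⟩
  obtain ⟨t, u', hu', rfl⟩ := h.peel hup (hS r hr).1 hu
  by_cases hP : r ∈ P
  · obtain ⟨a, ha, b, hb, rfl⟩ := ih u' hu'
    exact ⟨_, mul_mem (x_mem_US (S := S ∩ P) ⟨hr, hP⟩ t) (m1 ha), b, m2 hb, by rw [mul_assoc]⟩
  · obtain ⟨a, ha, b, hb, e⟩ := ih _ (h.conj_x_mem hup (hS r hr).1 t hu')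
    exact ⟨a, m1 ha, _, mul_mem (m2 hb) (x_mem_US (S := S \ P) ⟨hr, hP⟩ t), by rw [← mul_assoc, ← e]; group⟩

theorem ww_neg (L : List (Fin l)) (r : Φ) : d.ww L (d.neg r) = d.neg (d.ww L r) := by
  induction L with
  | nil => rfl
  | cons p L ih => rw [ww_cons, ww_cons, ih, h.w_neg]

theorem ww_surj (L : List (Fin l)) : Function.Surjective (d.ww L) := by
  induction L with
  | nil => exact fun r => ⟨r, rfl⟩
  | cons p L ih =>
    intro r
    obtain ⟨s, hs⟩ := ih (d.w p r)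
    exact ⟨s, by rw [ww_cons, hs, h.w_w]⟩

theorem nw_conj (L : List (Fin l)) (r : Φ) : ∃ ε : F, (ε = 1 ∨ ε = -1) ∧ ∀ t,
    d.nw L * d.x r t = d.x (d.ww L r) (ε * t) * d.nw L ∧
    d.nw L * d.x (d.neg r) t = d.x (d.neg (d.ww L r)) (ε * t) * d.nw L := by
  induction L with
  | nil => exact ⟨1, Or.inl rfl, fun t => by simp [nw, ww]⟩
  | cons p L ih =>
    obtain ⟨ε, hε, h1⟩ := ih
    obtain ⟨η, hη, h2⟩ := h.n_conj p (d.ww L r)
    refine ⟨η * ε, by rcases hε with rfl | rfl <;> rcases hη with rfl | rfl <;> simp, fun t => ⟨?_, ?_⟩⟩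
    · rw [nw_cons, mul_assoc, (h1 t).1, ← mul_assoc, (h2 _).1, ww_cons, mul_assoc, mul_assoc]
    · rw [nw_cons, mul_assoc, (h1 t).2, ← mul_assoc, (h2 _).2, ww_cons, mul_assoc, mul_assoc, h.w_neg]

theorem x_nw (L : List (Fin l)) (r : Φ) (t : F) :
    ∃ c, d.x (d.ww L r) t * d.nw L = d.nw L * d.x r c := by
  obtain ⟨ε, hε, h1⟩ := h.nw_conj L r
  exact ⟨ε * t, by rw [(h1 _).1]; rcases hε with rfl | rfl <;> simp⟩

theorem n_T (p : Fin l) {t : G} (ht : t ∈ d.T) : d.n p * t * (d.n p)⁻¹ ∈ d.T := by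
  obtain ⟨χ, rfl⟩ := ht
  rw [h.n_D, mul_inv_cancel_right]; exact D_mem _

theorem nw_T (L : List (Fin l)) {t : G} (ht : t ∈ d.T) : d.nw L * t * (d.nw L)⁻¹ ∈ d.T := by
  induction L with
  | nil => simpa [nw] using ht
  | cons p L ih => convert h.n_T p ih using 1; rw [nw_cons]; group

theorem cell_U {L : List (Fin l)} {g u : G} (hu : u ∈ d.US (d.Pos (ht l))) (hg : d.Cell L g) :
    d.Cell L (u * g) := by
  obtain ⟨a, ha, t, ht, b, hb, rfl⟩ := hg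
  exact ⟨_, mul_mem hu ha, t, ht, b, hb, by group⟩

theorem cell_T {L : List (Fin l)} {g s : G} (hs : s ∈ d.T) (hg : d.Cell L g) :
    d.Cell L (s * g) := by
  obtain ⟨a, ha, t, ht, b, hb, rfl⟩ := hg
  exact ⟨_, h.T_conj hs ha, _, mul_mem hs ht, b, hb, by group⟩

theorem sm_pos (p : Fin l) : d.sm p ∈ d.Pos (ht l) := by
  change 0 < ht l _; rw [h.ht_sm]; exact one_pos

theorem neg_pos {r : Φ} (hr : r ∉ d.Pos (ht l)) : d.neg r ∈ d.Pos (ht l) := by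
  have := h.ht_ne r
  simp only [Pos, Set.mem_ofPred_eq, h.rt_neg, map_neg] at hr ⊢
  omega

theorem cell_n (p : Fin l) {L : List (Fin l)} {g : G} (hg : d.Cell L g) :
    d.Cell (p :: L) (d.n p * g) ∨
      (d.Cell L (d.n p * g) ∧ ∃ r ∉ d.Pos (ht l), d.ww L r = d.sm p) := by
  obtain ⟨u, hu, t, ht, b, hb, rfl⟩ := hg
  obtain ⟨u1, hu1, u2, hu2, rfl⟩ := h.split {d.sm p}ᶜ (up_pos _) u hu
  have hn1 : d.n p * u1 * (d.n p)⁻¹ ∈ d.US (d.Pos (H9.Chev.ht l)) := by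
    refine conj_US (fun r hr c => ?_) hu1
    obtain ⟨ε, -, hε⟩ := h.n_conj p r
    rw [(hε _).1, mul_inv_cancel_right]
    exact x_mem_US (S := d.Pos (H9.Chev.ht l)) (h.w_pos p r hr.1 hr.2) _
  obtain ⟨a, ha⟩ : ∃ a, t⁻¹ * u2 * t⁻¹⁻¹ = d.x (d.sm p) a := by
    refine h.US_ind (P := fun g => ∃ a, g = d.x (d.sm p) a) ⟨0, (h.x_zero _).symm⟩ ?_
      (h.T_conj (inv_mem ht) hu2)
    rintro r hr c g - ⟨a, rfl⟩
    obtain rfl : r = d.sm p := by simpa using hr.2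
    exact ⟨c + a, (h.x_add _ _ _).symm⟩
  have e : d.n p * (u1 * u2 * t * d.nw L * b) = d.n p * u1 * (d.n p)⁻¹ *
      (d.n p * t * (d.n p)⁻¹ * (d.n p * d.x (d.sm p) a * d.nw L * b)) := by rw [← ha]; group
  rw [e]
  suffices d.Cell (p :: L) (d.n p * d.x (d.sm p) a * d.nw L * b) ∨
      (d.Cell L (d.n p * d.x (d.sm p) a * d.nw L * b) ∧ ∃ r ∉ d.Pos (H9.Chev.ht l), d.ww L r = d.sm p) from
    this.imp (fun h' => h.cell_U hn1 (h.cell_T (h.n_T p ht) h'))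
      fun h' => ⟨h.cell_U hn1 (h.cell_T (h.n_T p ht) h'.1), h'.2⟩
  obtain ⟨r, hr⟩ := h.ww_surj L (d.sm p)
  by_cases hpos : r ∈ d.Pos (H9.Chev.ht l)
  · obtain ⟨c, hc⟩ := h.x_nw L r a
    refine Or.inl ⟨1, one_mem _, 1, one_mem _, _, mul_mem (x_mem_US hpos c) hb, ?_⟩
    rw [mul_assoc (d.n p), ← hr, hc, nw_cons]; group
  by_cases ha0 : a = 0
  · exact Or.inl ⟨1, one_mem _, 1, one_mem _, b, hb, by rw [ha0, h.x_zero, nw_cons]; group⟩
  refine Or.inr ⟨?_, r, hpos, hr⟩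
  obtain ⟨ε, hε, h1⟩ := h.n_conj p (d.sm p)
  rw [h.w_sm] at h1
  have hc : -(ε * a)⁻¹ ≠ 0 := by rcases hε with rfl | rfl <;> simpa
  have h2 := h.n_gen p (Units.mk0 _ hc)
  simp only [Units.val_mk0, inv_neg, inv_inv, _root_.neg_neg] at h2
  obtain ⟨s, hs, h2⟩ : ∃ s ∈ d.T, d.x (d.sm p) (-(ε * a)⁻¹) * d.x (d.neg (d.sm p)) (ε * a) *
    d.x (d.sm p) (-(ε * a)⁻¹) = s * d.n p := ⟨_, D_mem _, h2⟩
  generalize -(ε * a)⁻¹ = c at h2
  have h3 : d.x (d.neg (d.sm p)) (ε * a) = d.x (d.sm p) (-c) * s * (d.n p * d.x (d.sm p) (-c)) := by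
    rw [← mul_assoc, mul_assoc _ s, ← h2, ← h.x_inv]; simp [mul_assoc]
  obtain ⟨χ, hχ⟩ := h.n_sq p
  obtain ⟨c', hc'⟩ := h.x_nw L (d.neg r) ((χ (d.rt (d.neg (d.sm p))))⁻¹.1 * (ε * -c))
  rw [h.ww_neg, hr] at hc'
  refine ⟨_, x_mem_US (h.sm_pos p) (-c), _, mul_mem hs (D_mem χ), _,
    mul_mem (x_mem_US (h.neg_pos hpos) c') hb, ?_⟩
  have h4 := h.D_x χ (d.neg (d.sm p)) ((χ (d.rt (d.neg (d.sm p))))⁻¹.1 * (ε * -c))
  rw [Units.mul_inv_cancel_left] at h4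
  rw [(h1 _).1, h3, (h1 _).1]
  simp only [mul_assoc]
  rw [← mul_assoc (d.n p), ← hχ, ← mul_assoc (d.nw L), ← hc', ← mul_assoc _ (d.D χ), ← h4]
  simp only [mul_assoc]

theorem bruhat {g : G} (hg : g ∈ d.US Set.univ) : ∃ L, d.Cell L g := by
  have hn : ∀ p g, (∃ L, d.Cell L g) → ∃ L, d.Cell L (d.n p * g) := fun p g ⟨L, hL⟩ =>
    (h.cell_n p hL).elim (fun h' => ⟨_, h'⟩) fun h' => ⟨_, h'.1⟩
  have hx : ∀ r t g, (∃ L, d.Cell L g) → ∃ L, d.Cell L (d.x r t * g) := by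
    refine h.reach _ (fun p t g ⟨L, hL⟩ => ⟨L, h.cell_U (x_mem_US (h.sm_pos p) t) hL⟩) ?_
    intro p r ih t g hg
    obtain ⟨c, hc⟩ := h.x_nw [p] r t
    have e : d.x (d.w p r) t * g =
        d.n p * (d.x r c * (d.D (pc (d.pr p) (-1)) * (d.n p * g))) := by
      rw [← mul_assoc (d.D _), ← h.n_inv, ← mul_assoc, ← mul_assoc]
      simp only [nw, ww, List.map, List.prod_cons, List.prod_nil, mul_one, List.foldr] at hc
      rw [← hc]; group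
    rw [e]
    obtain ⟨L, hL⟩ := hn p g hg
    exact hn p _ (ih _ _ ⟨L, h.cell_T (D_mem _) hL⟩)
  exact h.US_ind (P := fun g => ∃ L, d.Cell L g)
    ⟨[], 1, one_mem _, 1, one_mem _, 1, one_mem _, by simp [nw]⟩ (fun r _ t g _ ih => hx r t g ih) hg

theorem cell_ldu {L : List (Fin l)} {g : G} (hg : d.Cell L g) :
    ∃ u ∈ d.US (d.Pos (ht l)), ∃ t ∈ d.T, ∃ v ∈ d.US (d.Pos (-ht l)), g = u * t * v * d.nw L ∧
      (d.nw L)⁻¹ * v * d.nw L ∈ d.US (d.Pos (ht l)) := by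
  obtain ⟨u, hu, t, h1, b, hb, rfl⟩ := hg
  obtain ⟨b1, hb1, b2, hb2, rfl⟩ := h.split (d.ww L ⁻¹' d.Pos (ht l)) (up_pos _) b hb
  have h2 : ∀ {S S' : Set Φ}, (∀ r ∈ S, d.ww L r ∈ S') → ∀ b ∈ d.US S,
      d.nw L * b * (d.nw L)⁻¹ ∈ d.US S' := fun hS b hb => conj_US (fun r hr c => by
    obtain ⟨ε, -, hε⟩ := h.nw_conj L r
    rw [(hε _).1, mul_inv_cancel_right]
    exact x_mem_US (hS r hr) _) hb
  refine ⟨_, mul_mem hu (h.T_conj h1 (h2 (fun r hr => hr.2) b1 hb1)), t, h1, _,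
    h2 (fun r hr => ?_) b2 hb2, by group, by
      simpa [mul_assoc] using US_mono (fun _ hx => hx.1) hb2⟩
  have := h.neg_pos hr.2
  simpa [Pos, h.rt_neg] using this

theorem ww_eq_of_nw {L L' : List (Fin l)} {t : G} (h1 : t ∈ d.T) (e : d.nw L = t * d.nw L')
    (r : Φ) : d.ww L r = d.ww L' r := by
  obtain ⟨χ, rfl⟩ := h1
  obtain ⟨ε, hε, a⟩ := h.nw_conj L r
  obtain ⟨η, -, b⟩ := h.nw_conj L' r
  have := (a 1).1
  rw [e, mul_assoc, (b 1).1, ← mul_assoc, h.D_x, mul_assoc, mul_left_inj] at this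
  exact h.root_eq_of_x_eq (by rcases hε with rfl | rfl <;> simp) this.symm

theorem not_pos_neg {r : Φ} (hr : r ∈ d.Pos (ht l)) : d.neg r ∉ d.Pos (ht l) := by
  simp only [Pos, Set.mem_ofPred_eq, h.rt_neg, map_neg] at hr ⊢
  omega

theorem exists_split (L : List (Fin l)) {r : Φ} (hr : r ∈ d.Pos (ht l)) (hL : d.ww L r ∉ d.Pos (ht l)) :
    ∃ A q C, L = A ++ q :: C ∧ d.ww C r = d.sm q := by
  induction L with
  | nil => exact absurd hr hL
  | cons q L ih =>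
    by_cases h1 : d.ww L r ∈ d.Pos (ht l)
    · refine ⟨[], q, L, rfl, ?_⟩
      by_contra h2
      exact hL (h.w_pos q _ h1 h2)
    · obtain ⟨A, q', C, rfl, e⟩ := ih h1
      exact ⟨q :: A, q', C, rfl, e⟩

theorem del (L : List (Fin l)) (hL : ∀ r ∈ d.Pos (ht l), d.ww L r ∈ d.Pos (ht l)) : d.nw L ∈ d.T := by
  induction hn : L.length using Nat.strong_induction_on generalizing L with
  | _ n ih =>
    rcases L.eq_nil_or_concat' with rfl | ⟨L', p, rfl⟩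
    · exact one_mem _
    have h1 := hL _ (h.sm_pos p)
    rw [ww_append, show d.ww [p] (d.sm p) = _ from h.w_sm p, h.ww_neg] at h1
    obtain ⟨A, q, C, rfl, e⟩ := h.exists_split L' (h.sm_pos p) fun h2 => h.not_pos_neg h2 h1
    obtain ⟨ε, hε, a⟩ := h.nw_conj C (d.sm p)
    rw [e] at a
    have h2 : d.nw C * d.n p = d.x (d.sm q) ε * d.x (d.neg (d.sm q)) (-ε) * d.x (d.sm q) ε * d.nw C := by
      rw [h.n_def, ← mul_assoc, ← mul_assoc, (a _).1, mul_assoc _ (d.nw C), (a _).2, mul_assoc, mul_assoc,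
        (a _).1]
      simp [mul_assoc]
    obtain ⟨t, h3, h4⟩ : ∃ t ∈ d.T, d.n q * (d.nw C * d.n p) = t * d.nw C := by
      rcases hε with rfl | rfl
      · exact ⟨_, h.n_sq q, by rw [h2, ← mul_assoc, ← h.n_def]⟩
      · refine ⟨1, one_mem _, ?_⟩
        rw [h2, ← mul_assoc, h.n_def, _root_.neg_neg, ← h.x_inv, ← h.x_inv]; group
    have h5 : d.nw (A ++ q :: C ++ [p]) = d.nw A * t * (d.nw A)⁻¹ * d.nw (A ++ C) := by
      rw [nw_append, nw_append, nw_append, nw_cons, mul_assoc, mul_assoc,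
        show d.nw [p] = d.n p by simp [nw], h4]
      group
    rw [h5]
    refine mul_mem (h.nw_T A h3) (ih _ (by rw [← hn]; simp) _ (fun r hr => ?_) rfl)
    rw [← h.ww_eq_of_nw (h.nw_T A h3) h5]; exact hL r hr

theorem pos_of_ldu {L : List (Fin l)} {u t v : G} (hu : u ∈ d.US (d.Pos (ht l))) (h1 : t ∈ d.T)
    (hv : v ∈ d.US (d.Pos (-ht l))) (e : d.nw L = u * t * v) :
    ∀ r ∈ d.Pos (ht l), d.ww L r ∈ d.Pos (ht l) := by
  intro r hr
  by_contra hn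
  obtain ⟨ε, hε, a⟩ := h.nw_conj L r
  have h2 : d.neg r ∈ d.Pos (-ht l) := by simpa [Pos, h.rt_neg] using hr
  have h3 := (h.ldu (mul_mem (mul_mem (inv_mem hu) (x_mem_US (h.neg_pos hn) (ε * 1))) hu) (one_mem _)
    (one_mem _) (h.T_conj h1 (mul_mem (mul_mem hv (x_mem_US h2 1)) (inv_mem hv))) (one_mem _)
    (one_mem _) (by
      rw [← mul_inv_eq_iff_eq_mul.2 (a 1).2, e]; group)).1
  rw [mul_assoc, inv_mul_eq_one, right_eq_mul, ← h.x_zero] at h3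
  have := h.x_inj _ h3
  rcases hε with rfl | rfl <;> simp at this

theorem nw_rev (L : List (Fin l)) : d.nw L * d.nw L.reverse ∈ d.T := by
  induction L with
  | nil => simp [nw]
  | cons p L ih =>
    convert mul_mem (h.n_T p ih) (h.n_sq p) using 1
    rw [List.reverse_cons, nw_append, nw_cons, show d.nw [p] = d.n p by simp [nw]]; group

theorem cell_uniq {L L' : List (Fin l)} {g : G} (h1 : d.Cell L g) (h2 : d.Cell L' g)
    (r : Φ) : d.ww L' r = d.ww L r := by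
  obtain ⟨u, hu, t, h3, b, hb, e⟩ := h2
  have h4 : d.Cell L (d.nw L') := by
    obtain ⟨u', hu', t', h5, b', hb', e'⟩ := h.cell_T (inv_mem h3) (h.cell_U (inv_mem hu) h1)
    exact ⟨u', hu', t', h5, _, mul_mem hb' (inv_mem hb), by rw [← mul_assoc, ← e', e]; group⟩
  obtain ⟨u', hu', t', h5, v, hv, e', -⟩ := h.cell_ldu h4
  have h6 := h.del _ (h.pos_of_ldu (L := L' ++ L.reverse) hu' (mul_mem h5 (h.nw_rev L))
    (h.T_conj (inv_mem (h.nw_rev L)) hv) (by rw [nw_append, e']; group))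
  exact h.ww_eq_of_nw (mul_mem h6 (inv_mem (h.nw_rev L))) (by rw [nw_append]; group) r

theorem cnt_lt {L : List (Fin l)} {p : Fin l} (hp : d.ww L (d.sm p) ∉ d.Pos (ht l)) :
    d.cnt (L ++ [p]) < d.cnt L := by
  refine lt_of_le_of_lt (Set.ncard_le_ncard_of_injOn (d.w p) ?_ (h.w_inj p).injOn)
    (Set.ncard_sdiff_singleton_lt_of_mem (a := d.sm p) ⟨h.sm_pos p, hp⟩ (Set.toFinite _))
  rintro r ⟨h1, h2⟩
  rw [ww_append] at h2
  have h3 : r ≠ d.sm p := by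
    rintro rfl
    rw [show d.ww [p] (d.sm p) = _ from h.w_sm p, h.ww_neg] at h2
    exact h2 (h.neg_pos hp)
  refine ⟨⟨h.w_pos p r h1 h3, h2⟩, fun e => h.not_pos_neg (h.sm_pos p) ?_⟩
  rwa [← h.w_sm, ← show d.w p r = d.sm p from e, h.w_w]

theorem ww_lin (L : List (Fin l)) :
    ∃ W : (Fin l → ℤ) →+ (Fin l → ℤ), ∀ r, d.rt (d.ww L r) = W (d.rt r) := by
  induction L with
  | nil => exact ⟨AddMonoidHom.id _, fun _ => rfl⟩
  | cons p L ih =>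
    obtain ⟨W, hW⟩ := ih
    exact ⟨(d.W p).comp W, fun r => by rw [ww_cons, h.rt_w, hW]; rfl⟩

theorem pos_of_sm {L : List (Fin l)}
    (hL : ∀ p, d.ww L (d.sm p) ∈ d.Pos (ht l)) : ∀ r ∈ d.Pos (ht l), d.ww L r ∈ d.Pos (ht l) := by
  intro r hr
  obtain ⟨W, hW⟩ := h.ww_lin L
  have h1 : ht l (d.rt (d.ww L r)) = ∑ i, d.rt r i * ht l (d.rt (d.ww L (d.sm i))) := by
    rw [hW, ← Finset.univ_sum_single (d.rt r), map_sum, map_sum, Finset.univ_sum_single]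
    refine Finset.sum_congr rfl fun i _ => ?_
    rw [hW, h.rt_sm, ← smul_eq_mul, ← map_zsmul, ← map_zsmul, ← Pi.single_smul]; simp
  have h2 : 0 ≤ ht l (d.rt (d.ww L r)) :=
    h1 ▸ Finset.sum_nonneg fun i _ => mul_nonneg (h.hpos r hr i) (le_of_lt (hL i))
  exact lt_of_le_of_ne h2 (h.ht_ne _).symm

theorem rt_ww (L : List (Fin l)) (r : Φ) : d.rt (d.ww L r) = WL d L (d.rt r) := by
  induction L with
  | nil => rfl
  | cons p L ih => rw [ww_cons, h.rt_w, ih, WL_cons]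

theorem nw_D (L : List (Fin l)) (χ : AddChar (Fin l → ℤ) Fˣ) :
    d.nw L * d.D (χ.compAddMonoidHom (WL d L)) = d.D χ * d.nw L := by
  induction L generalizing χ with
  | nil => simp only [nw, List.map_nil, List.prod_nil, one_mul, mul_one]; rfl
  | cons p L ih =>
    have e1 : χ.compAddMonoidHom (WL d (p :: L)) =
        (χ.compAddMonoidHom (d.W p)).compAddMonoidHom (WL d L) := by
      rfl
    have e2 : (χ.compAddMonoidHom (d.W p)).compAddMonoidHom (d.W p) = χ := by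
      ext v; simp [h.W_W]
    rw [nw_cons, mul_assoc, e1, ih, ← mul_assoc, h.n_D, e2, mul_assoc]

theorem nw_norm (L : List (Fin l)) : d.nw L ∈ normalizer (d.T : Set (G)) := by
  rw [mem_normalizer_iff]
  intro x
  refine ⟨h.nw_T L, ?_⟩
  rintro ⟨χ, hχ⟩
  refine ⟨χ.compAddMonoidHom (WL d L), mul_left_cancel (a := d.nw L) ?_⟩
  rw [h.nw_D, hχ]; group

theorem cell_GH {g : G} (hg : g ∈ d.GH) : ∃ L, d.Cell L g := by
  have h1 : d.T ≤ normalizer (d.US Set.univ : Set (G)) := fun t ht => by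
    rw [mem_normalizer_iff]
    refine fun x => ⟨h.T_conj ht, fun hx => ?_⟩
    have := h.T_conj (inv_mem ht) hx
    convert this using 1; group
  have h2 : g ∈ ((d.T ⊔ d.US Set.univ : Subgroup (G)) : Set (G)) := by rwa [sup_comm]
  rw [coe_mul_of_left_le_normalizer_right _ _ h1] at h2
  obtain ⟨t, ht, u, hu, rfl⟩ := h2
  obtain ⟨L, hL⟩ := h.bruhat hu
  exact ⟨L, h.cell_T ht hL⟩

theorem fuse {g : G} (hg : g ∈ d.GH) : ∃ L, ∃ u ∈ d.US (d.Pos (ht l)), ∃ t ∈ d.T,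
    ∃ v ∈ d.US (d.Pos (-ht l)), g = u * t * v * d.nw L ∧ ∀ x ∈ d.T, g * x * g⁻¹ ∈ d.T →
      g * x * g⁻¹ = d.nw L * x * (d.nw L)⁻¹ ∧ g * x * g⁻¹ * u = u * (g * x * g⁻¹) ∧
        g * x * g⁻¹ * v = v * (g * x * g⁻¹) := by
  obtain ⟨L, hL⟩ := h.cell_GH hg
  obtain ⟨u, hu, t, ht, v, hv, e, -⟩ := h.cell_ldu hL
  refine ⟨L, u, hu, t, ht, v, hv, e, fun x hx hx' => ?_⟩
  have hy := h.nw_T L hx
  set y := d.nw L * x * (d.nw L)⁻¹ with hyd
  set x' := g * x * g⁻¹ with hxd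
  have e1 : u * (t * y) * (y⁻¹ * v * y⁻¹⁻¹) = (x' * u * x'⁻¹) * (x' * t) * v := by
    rw [hyd, hxd, e]; group
  obtain ⟨h1, h2, h3⟩ := h.ldu hu (h.T_conj hx' hu) (h.T_conj (inv_mem hy) hv) hv (mul_mem ht hy)
    (mul_mem hx' ht) e1
  have h4 : x' = y := by
    rw [T_comm _ hx' _ ht] at h2
    exact (mul_left_cancel h2).symm
  refine ⟨h4, mul_inv_eq_iff_eq_mul.mp h1.symm, ?_⟩
  rw [h4]
  nth_rw 1 [← h3]
  group

theorem conj_x {t : G} (ht : t ∈ d.T) (L : List (Fin l)) (r : Φ) {c : F} (hc : c ≠ 0) :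
    ∃ c' : F, c' ≠ 0 ∧ t * d.nw L * d.x r c * (t * d.nw L)⁻¹ = d.x (d.ww L r) c' := by
  obtain ⟨χ, rfl⟩ := ht
  obtain ⟨ε, hε, H⟩ := h.nw_conj L r
  refine ⟨χ (d.rt (d.ww L r)) * (ε * c), mul_ne_zero (Units.ne_zero _) (mul_ne_zero ?_ hc), ?_⟩
  · rcases hε with rfl | rfl <;> simp
  · rw [mul_inv_eq_iff_eq_mul, mul_assoc, (H c).1, ← mul_assoc, h.D_x, mul_assoc]

end Ax

end AD

end Cfsg.Agent.LB
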