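import Cfsg.Agent.LB.A1

/-! Definitions for the local balance project: ambient group, standard elements, opposite datum. -/

set_option autoImplicit false
set_option linter.unusedSectionVars false
set_option linter.unusedVariables false

namespace Cfsg.Agent.LB

open Subgroup Cfsg.Agent.H9.Chev

variable {G : Type*} [Group G] {Φ : Type} {l : ℕ} {F : Type*} [Field F]

namespace AD

variable (d : AD G Φ l F)

/-- `f` acts as the field automorphism `σ` -/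
def IsFld (σ : F ≃+* F) (f : G) : Prop := ∀ r t, f * d.x r t * f⁻¹ = d.x r (σ t)

/-- `G` acts faithfully on `K`, contains the field automorphisms; the diagram is connected -/
structure Amb : Prop where
  ax : d.Ax
  norm : d.K.Normal
  cent : ∀ g : G, (∀ k ∈ d.K, g * k = k * g) → g = 1
  fld : ∀ σ : F ≃+* F, ∃ f : G, d.IsFld σ f
  offd : ∀ i k, i ≠ k → d.A i k ≤ 0
  symz : ∀ i k, d.A i k = 0 → d.A k i = 0
  adj : ∀ i k, i ≠ k → d.A i k ≠ 0 → d.A i k = -1 ∨ d.A k i = -1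
  conn : ∀ P : Fin l → Prop, ∀ j, P j → (∀ i k, d.A i k ≠ 0 → P k → P i) → ∀ i, P i
  rk : ∃ i k, d.A i k = -1

/-- what is used about `N = O_{p'}(C(β))` -/
structure NH (p : ℕ) (β : G) (N : Subgroup G) : Prop where
  comm : ∀ a ∈ N, a * β = β * a
  norm : ∀ k ∈ d.K, k * β = β * k → ∀ a ∈ N, k * a * k⁻¹ ∈ N
  cop : (Nat.card N).Coprime p

/-- standard elements -/
structure Std (π : Equiv.Perm (Fin l)) (c : Fin l → Fˣ) (σ : Fin l → F ≃+* F) (a : G) : Prop where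
  nU : a ∈ normalizer (d.U : Set G)
  nV : a ∈ normalizer (d.V : Set G)
  xp : ∀ i t, a * d.x (d.sm i) t * a⁻¹ = d.x (d.sm (π i)) (c i * σ i t)
  xn : ∀ i t, a * d.x (d.neg (d.sm i)) t * a⁻¹ = d.x (d.neg (d.sm (π i))) (((c i)⁻¹ : Fˣ) * σ i t)

def Graph (π : Equiv.Perm (Fin l)) : Prop := ∀ i k, d.A (π i) (π k) = 0 ↔ d.A i k = 0

/-- the bilinear form (for symmetric `A`) -/
def Bf (v v' : Fin l → ℤ) : ℤ := ∑ i, v i * d.pr i v'

/-- a positive root orthogonal to its image under `π` -/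
def NF (π : Equiv.Perm (Fin l)) (γ : Φ) : Prop :=
  γ ∈ d.Pos (ht l) ∧ ∃ γ', (∀ i, d.rt γ' (π i) = d.rt γ i) ∧ d.Bf (d.rt γ) (d.rt γ') = 0

/-- graph symmetry of order two of `E₆` or `D₄` -/
structure SLd (π : Equiv.Perm (Fin l)) : Prop where
  sq : π * π = 1
  sym : ∀ i k, d.A i k = d.A k i
  inv : ∀ i k, d.A (π i) (π k) = d.A i k
  orth : ∀ i, π i ≠ i → d.A i (π i) = 0
  fix2 : ∀ i k, π i = i → π k = k → i ≠ k → d.A i k = -1
  fixn : ∀ i, π i = i → ∃ k, π k = k ∧ k ≠ i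
  fixe : ∃ i, π i = i
  bnd : ∀ i r, -2 ≤ d.pr i (d.rt r) ∧ d.pr i (d.rt r) ≤ 2
  frame : ∀ j, π j = j → ∃ γ, ∀ δ, (∀ i, d.rt δ (π i) = d.rt δ i) →
    (∀ k, Even (d.pr k (d.rt δ) - d.A k j)) →
    δ = d.sm j ∨ δ = d.neg (d.sm j) ∨ δ = γ ∨ δ = d.neg γ
  span : ∀ a, ∃ γ, d.NF π γ ∧ (γ = d.sm a ∨ ∃ δ, d.NF π δ ∧ d.rt γ = d.rt δ + Pi.single a 1)
  cen : ∀ π' : Equiv.Perm (Fin l), d.Graph π' → π' * π = π * π' → π' * π' = 1

/-- graph symmetry of `G₂` -/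
structure G2d (π : Equiv.Perm (Fin l)) : Prop where
  sq : π * π = 1
  nf : ∀ i, π i ≠ i
  two : ∀ i k, k = i ∨ k = π i
  len : ∃ f : Φ → ℤ, (∀ p r, f (d.w p r) = f r) ∧ ∀ i, f (d.sm (π i)) ≠ f (d.neg (d.sm i))

/-- graph symmetry of `B₂`, `F₄` -/
def BFd (π : Equiv.Perm (Fin l)) : Prop :=
  π * π = 1 ∧ ∃ i k, d.A i k = -1 ∧ d.A (π i) (π k) = -2

/-- regular unipotent elements -/
def Reg (u : G) : Prop := u ∈ d.U ∧ ∀ j, u ∉ d.US (d.Pos (ht l) \ {d.sm j})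

/-- the opposite datum -/
def opp : AD G Φ l F where
  x r t := d.x (d.neg r) t
  D := ⟨⟨fun χ => (d.D χ)⁻¹, by simp⟩, fun χ ψ => by
    show (d.D (χ * ψ))⁻¹ = (d.D χ)⁻¹ * (d.D ψ)⁻¹
    rw [← mul_inv_rev, T_comm _ (D_mem ψ) _ (D_mem χ), map_mul]⟩
  n p := d.x (d.neg (d.sm p)) 1 * d.x (d.sm p) (-1) * d.x (d.neg (d.sm p)) 1
  rt := d.rt
  neg := d.neg
  sm := d.sm
  w := d.w
  A := d.A

variable {d}

theorem opp_x (r : Φ) (t : F) : d.opp.x r t = d.x (d.neg r) t := rfl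

theorem opp_D (χ : AddChar (Fin l → ℤ) Fˣ) : d.opp.D χ = (d.D χ)⁻¹ := rfl

theorem opp_rt : d.opp.rt = d.rt := rfl
theorem opp_neg : d.opp.neg = d.neg := rfl
theorem opp_sm : d.opp.sm = d.sm := rfl
theorem opp_w : d.opp.w = d.w := rfl
theorem opp_pr : d.opp.pr = d.pr := rfl
theorem opp_W : d.opp.W = d.W := rfl
theorem opp_Pos : d.opp.Pos = d.Pos := rfl
theorem opp_ww : d.opp.ww = d.ww := rfl
theorem opp_hh (p : Fin l) (a : Fˣ) : d.opp.hh p a = (d.hh p a)⁻¹ := rfl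

theorem opp_T : d.opp.T = d.T := by
  ext g
  exact ⟨fun ⟨χ, e⟩ => e ▸ inv_mem (D_mem (d := d) χ), fun ⟨χ, e⟩ => by
    simpa [opp_D, e] using inv_mem (D_mem (d := d.opp) χ)⟩

theorem opp_US' (S : Set Φ) : d.opp.US S = d.US (d.neg '' S) := by
  refine le_antisymm (US_le fun r hr t => x_mem_US (d := d) (Set.mem_image_of_mem _ hr) t) (US_le ?_)
  rintro _ ⟨r, hr, rfl⟩ t
  exact x_mem_US (d := d.opp) hr t

namespace Ax

variable (h : d.Ax)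
include h

theorem D_inv_x (χ : AddChar (Fin l → ℤ) Fˣ) (r : Φ) (t : F) :
    (d.D χ)⁻¹ * d.x r t = d.x r (((χ (d.rt r))⁻¹ : Fˣ) * t) * (d.D χ)⁻¹ := by
  rw [inv_mul_eq_iff_eq_mul, ← mul_assoc, h.D_x, Units.mul_inv_cancel_left, mul_inv_cancel_right]

theorem n_D_inv (p : Fin l) (χ : AddChar (Fin l → ℤ) Fˣ) :
    d.n p * (d.D χ)⁻¹ = (d.D (χ.compAddMonoidHom (d.W p)))⁻¹ * d.n p := by
  rw [eq_inv_mul_iff_mul_eq, ← mul_assoc, ← h.n_D, mul_inv_cancel_right]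

theorem neg_inj : Function.Injective d.neg := Function.LeftInverse.injective h.neg_neg

theorem neg_image_pos (f : (Fin l → ℤ) →+ ℤ) : d.neg '' d.Pos f = d.Pos (-f) := by
  ext r
  constructor
  · rintro ⟨s, hs, rfl⟩; simpa [Pos, h.rt_neg] using hs
  · intro hr; exact ⟨d.neg r, by simpa [Pos, h.rt_neg] using hr, h.neg_neg r⟩

theorem opp_U : d.opp.U = d.V := by
  rw [U, opp_US', show d.opp.Pos (ht l) = d.Pos (ht l) from rfl, h.neg_image_pos]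

theorem opp_V : d.opp.V = d.U := by
  rw [V, opp_US', show d.opp.Pos (-ht l) = d.Pos (-ht l) from rfl, h.neg_image_pos, _root_.neg_neg]

theorem opp_K : d.opp.K = d.K := by
  rw [K, opp_US', Set.image_univ, Set.range_eq_univ.2 fun r => ⟨_, h.neg_neg r⟩]

theorem opp_GH : d.opp.GH = d.GH := by rw [GH, h.opp_K, opp_T]; rfl

theorem opp_B : d.opp.B = d.V ⊔ d.T := by rw [B, h.opp_U, opp_T]

theorem opp_gen (p : Fin l) : ∃ ε : Fˣ, (ε = 1 ∨ ε = -1) ∧ ∀ a : Fˣ,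
    d.x (d.neg (d.sm p)) a * d.x (d.sm p) (-(a : F)⁻¹) * d.x (d.neg (d.sm p)) a =
      (d.D (pc (d.pr p) (ε * a)))⁻¹ * d.n p := by
  obtain ⟨ε, hε, h1⟩ := h.n_conj p (d.sm p)
  rw [h.w_neg, h.w_sm, h.neg_neg] at h1
  obtain ⟨η, hη, rfl⟩ : ∃ η : Fˣ, (η = 1 ∨ η = -1) ∧ (η : F) = ε := by
    rcases hε with rfl | rfl
    exacts [⟨1, Or.inl rfl, rfl⟩, ⟨-1, Or.inr rfl, by simp⟩]
  refine ⟨η, hη, fun a => ?_⟩
  have h3 : ∀ t, d.n p * d.x (d.sm p) t * (d.n p)⁻¹ = d.x (d.neg (d.sm p)) (η * t) := fun t => by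
    rw [(h1 t).1, mul_inv_cancel_right]
  have h4 : ∀ t, d.n p * d.x (d.neg (d.sm p)) t * (d.n p)⁻¹ = d.x (d.sm p) (η * t) := fun t => by
    rw [(h1 t).2, mul_inv_cancel_right]
  have e1 : (η : F) * ((η * a : Fˣ) : F) = a := by rcases hη with rfl | rfl <;> simp
  have e2 : (η : F) * (-((η * a : Fˣ) : F)⁻¹) = -(a : F)⁻¹ := by
    rcases hη with rfl | rfl <;> simp [inv_neg]
  have h5 : (pc (d.pr p) (η * a)).compAddMonoidHom (d.W p) = (pc (d.pr p) (η * a))⁻¹ := by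
    ext v
    simp only [AddChar.compAddMonoidHom_apply, pc_apply, AddChar.inv_apply', W_apply, map_sub,
      map_zsmul, h.pr_single, smul_eq_mul, ← zpow_neg]
    congr 2; ring
  have h6 := h3 ((η * a : Fˣ) : F)
  have h7 := h4 (-((η * a : Fˣ) : F)⁻¹)
  rw [e1] at h6; rw [e2] at h7
  rw [← map_inv, ← h5, ← h.n_D, ← h6, ← h7]
  calc _ = d.n p * (d.x (d.sm p) ↑(η * a) * d.x (d.neg (d.sm p)) (-(↑(η * a))⁻¹) *
      d.x (d.sm p) ↑(η * a)) * (d.n p)⁻¹ := by group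
    _ = _ := by rw [h.n_gen]; group

theorem opp_ax : d.opp.Ax := by
  have hn : ∀ p, ∃ ε : Fˣ, (ε = 1 ∨ ε = -1) ∧ d.opp.n p = (d.D (pc (d.pr p) ε))⁻¹ * d.n p ∧ ∀ a : Fˣ,
      d.x (d.neg (d.sm p)) a * d.x (d.sm p) (-(a : F)⁻¹) * d.x (d.neg (d.sm p)) a =
      (d.D (pc (d.pr p) (ε * a)))⁻¹ * d.n p := fun p => by
    obtain ⟨ε, hε, h1⟩ := h.opp_gen p
    exact ⟨ε, hε, by simpa [opp] using h1 1, h1⟩
  have hS : ∀ r s, d.neg '' d.Sum2 r s = d.Sum2 (d.neg r) (d.neg s) := fun r s => by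
    ext k
    constructor
    · rintro ⟨k, ⟨i, j, hi, hj, e⟩, rfl⟩
      exact ⟨i, j, hi, hj, by simp only [h.rt_neg, e, smul_neg, neg_add]⟩
    · rintro ⟨i, j, hi, hj, e⟩
      exact ⟨d.neg k, ⟨i, j, hi, hj, by simp only [h.rt_neg, e, smul_neg, neg_add, _root_.neg_neg]⟩,
        h.neg_neg k⟩
  refine ⟨fun r => h.x_add _, h.rt_neg, h.rt_sm, h.rt_inj, h.ht_ne, h.hpos, fun χ r t => ?_,
    fun p χ => ?_, fun p a => ?_, fun p r => ?_, h.rt_w, h.A_self, h.w_pos, h.reach,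
    fun r s h1 h2 t u => ?_, fun f r hr S hS hr' t ht => ?_, ?_, fun h0 e => ?_⟩
  · rw [opp_D, opp_x, opp_x, h.D_inv_x, h.rt_neg, AddChar.map_neg_eq_inv, inv_inv]; rfl
  · obtain ⟨ε, -, e, -⟩ := hn p
    rw [e, opp_D, opp_D, opp_W, mul_assoc, h.n_D_inv, ← mul_assoc, ← mul_assoc,
      T_comm _ (inv_mem (D_mem _)) _ (inv_mem (D_mem _))]
  · obtain ⟨ε, -, e, e'⟩ := hn p
    rw [e, opp_D, opp_x, opp_x, opp_neg, opp_sm, opp_pr,
      h.neg_neg, e', ← mul_assoc, ← mul_inv_rev, ← map_mul]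
    congr 3
    ext v; simp [pc_apply, mul_zpow]
  · obtain ⟨ε, hε, e, -⟩ := hn p
    obtain ⟨η, hη, h1⟩ := h.n_conj p (d.neg r)
    refine ⟨(ε ^ d.pr p (d.rt (d.w p r)) : Fˣ) * η, ?_, fun t => ⟨?_, ?_⟩⟩
    · rcases hε with rfl | rfl <;> rcases hη with rfl | rfl <;>
        rcases Int.even_or_odd (d.pr p (d.rt (d.w p r))) with h2 | h2 <;>
        simp [h2.neg_one_zpow]
    · rw [e, opp_x, opp_x, mul_assoc, (h1 t).1, ← mul_assoc, h.D_inv_x, h.w_neg, h.rt_neg,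
        AddChar.map_neg_eq_inv, inv_inv, pc_apply, mul_assoc, mul_assoc]; rfl
    · rw [e, opp_x, opp_x, opp_neg, opp_w, mul_assoc,
        (h1 t).2, ← mul_assoc, h.D_inv_x, h.neg_neg, h.w_neg, h.neg_neg, pc_apply,
        mul_assoc, mul_assoc]
      congr 3
      rcases hε with rfl | rfl
      · simp
      · rcases Int.even_or_odd (d.pr p (d.rt (d.w p r))) with h2 | h2 <;> simp [h2.neg_one_zpow]
  · rw [opp_US', show d.opp.Sum2 r s = d.Sum2 r s from rfl, hS]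
    exact h.comm _ _ (fun e => h1 (by rw [← h.neg_neg s, e, h.neg_neg]))
      (fun e => h2 (by rw [← h.neg_neg s, e, h.neg_neg]; rfl)) t u
  · rw [opp_US'] at ht
    refine h.uniq (-f) (d.neg r) (by simpa [h.rt_neg, opp_rt] using hr) _ ?_ ?_ t ht
    · rintro _ ⟨s, hs, rfl⟩; simpa [h.rt_neg, opp_rt] using hS s hs
    · rintro ⟨s, hs, e⟩; exact hr' (by rwa [← h.neg_neg r, ← e, h.neg_neg])
  · intro u u' v v' t t' hu hu' hv hv' h1 h2 e
    change u ∈ d.opp.U at hu; change u' ∈ d.opp.U at hu'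
    change v ∈ d.opp.V at hv; change v' ∈ d.opp.V at hv'
    rw [h.opp_U] at hu hu'; rw [h.opp_V] at hv hv'; rw [opp_T] at h1 h2
    obtain ⟨e1, e2, e3⟩ := h.ldu (inv_mem hv) (inv_mem hv') (inv_mem hu) (inv_mem hu') (inv_mem h1)
      (inv_mem h2) (by rw [← inv_inj] at e; simpa [mul_assoc] using e)
    exact ⟨inv_injective e3, inv_injective e2, inv_injective e1⟩
  · exact h.neg_inj (h.root_eq_of_x_eq h0 e)

end Ax

theorem Amb.opp (a : d.Amb) : d.opp.Amb :=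
  ⟨a.ax.opp_ax, a.ax.opp_K ▸ a.norm, a.ax.opp_K ▸ a.cent,
    fun σ => (a.fld σ).imp fun f hf r t => hf _ t, a.offd, a.symz, a.adj, a.conn, a.rk⟩

theorem IsFld.opp {σ : F ≃+* F} {f : G} (hf : d.IsFld σ f) : d.opp.IsFld σ f := fun r t => hf _ t

theorem NH.opp (h : d.Ax) {p : ℕ} {β : G} {N : Subgroup G} (hN : d.NH p β N) : d.opp.NH p β N :=
  ⟨hN.comm, h.opp_K ▸ hN.norm, hN.cop⟩

theorem Std.opp (h : d.Ax) {π : Equiv.Perm (Fin l)} {c : Fin l → Fˣ} {σ : Fin l → F ≃+* F} {a : G}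
    (s : d.Std π c σ a) : d.opp.Std π c⁻¹ σ a :=
  ⟨h.opp_U ▸ s.nV, h.opp_V ▸ s.nU, s.xn, fun i t => by
    have := s.xp i t
    simpa [opp_x, opp_neg, opp_sm, h.neg_neg] using this⟩

theorem SLd.opp {π : Equiv.Perm (Fin l)} (s : d.SLd π) : d.opp.SLd π :=
  ⟨s.sq, s.sym, s.inv, s.orth, s.fix2, s.fixn, s.fixe, s.bnd, s.frame, s.span, s.cen⟩

theorem G2d.opp {π : Equiv.Perm (Fin l)} (s : d.G2d π) : d.opp.G2d π := ⟨s.sq, s.nf, s.two, s.len⟩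

theorem NH.conj (hK : d.K.Normal) {p : ℕ} {β : G} {N : Subgroup G} (hN : d.NH p β N) (g : G) :
    d.NH p (g * β * g⁻¹) (N.map (MulAut.conj g).toMonoidHom) := by
  refine ⟨?_, ?_, ?_⟩
  · rintro _ ⟨a, ha, rfl⟩
    have := hN.comm a ha
    simp only [MulEquiv.coe_toMonoidHom, MulAut.conj_apply]
    calc _ = g * (a * β) * g⁻¹ := by group
      _ = _ := by rw [this]; group
  · rintro k hk e _ ⟨a, ha, rfl⟩
    refine ⟨_, hN.norm (g⁻¹ * k * g⁻¹⁻¹) (hK.conj_mem k hk _) ?_ a ha, by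
      simp only [MulEquiv.coe_toMonoidHom, MulAut.conj_apply]; group⟩
    calc _ = g⁻¹ * (k * (g * β * g⁻¹)) * g := by group
      _ = _ := by rw [e]; group
  · rw [card_map_of_injective (MulAut.conj g).injective]; exact hN.cop

end AD

end Cfsg.Agent.LB
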