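import Cfsg.Agent.LB.A2

/-! Basic lemmas on abstract Chevalley data. -/

set_option autoImplicit false
set_option linter.unusedSectionVars false
set_option linter.unusedVariables false

namespace Cfsg.Agent.LB

open Subgroup Cfsg.Agent.H9.Chev

variable {G : Type*} [Group G] {Φ : Type} {l : ℕ} {F : Type*} [Field F]

namespace AD

variable {d : AD G Φ l F}

theorem char_ext {χ : AddChar (Fin l → ℤ) Fˣ} (e : ∀ i, χ (Pi.single i 1) = 1) : χ = 1 := by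
  rw [Dat.eq_prod_pc χ]
  refine Finset.prod_eq_one fun j _ => ?_
  ext v; simp [e, pc_apply]

theorem x_mem_K (r : Φ) (t : F) : d.x r t ∈ d.K := x_mem_US (Set.mem_univ r) t

theorem sup_mem {H T : Subgroup G} (hT : ∀ t ∈ T, ∀ u ∈ H, t * u * t⁻¹ ∈ H) {g : G} :
    g ∈ H ⊔ T ↔ ∃ u ∈ H, ∃ t ∈ T, g = u * t := by
  have h1 : T ≤ normalizer (H : Set G) := fun t ht => by
    rw [mem_normalizer_iff]
    refine fun x => ⟨hT t ht x, fun hx => ?_⟩
    simpa [mul_assoc] using hT _ (inv_mem ht) _ hx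
  constructor
  · intro hg
    have h2 : g ∈ ((H ⊔ T : Subgroup G) : Set G) := hg
    rw [coe_mul_of_right_le_normalizer_left _ _ h1] at h2
    obtain ⟨u, hu, t, ht, rfl⟩ := h2
    exact ⟨u, hu, t, ht, rfl⟩
  · rintro ⟨u, hu, t, ht, rfl⟩
    exact mul_mem (mem_sup_left hu) (mem_sup_right ht)

namespace Ax

variable [Finite Φ] (h : d.Ax)
include h

theorem U_V {u : G} (h1 : u ∈ d.U) (h2 : u ∈ d.V) : u = 1 :=
  (h.ldu h1 (one_mem _) (one_mem _) h2 (one_mem _) (one_mem _) (by simp)).1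

theorem U_T {u : G} (h1 : u ∈ d.U) (h2 : u ∈ d.T) : u = 1 :=
  (h.ldu h1 (one_mem _) (one_mem _) (one_mem _) (one_mem _) h2 (by simp)).1

theorem mem_B {g : G} : g ∈ d.B ↔ ∃ u ∈ d.U, ∃ t ∈ d.T, g = u * t :=
  sup_mem fun _ ht _ hu => h.T_conj ht hu

theorem B_inf {g : G} (h1 : g ∈ d.B) (h2 : g ∈ d.V ⊔ d.T) : g ∈ d.T := by
  obtain ⟨u, hu, t, ht, rfl⟩ := h.mem_B.1 h1
  obtain ⟨v, hv, s, hs, e⟩ := (sup_mem fun _ ht _ hu => h.T_conj ht hu).1 h2
  have := (h.ldu hu (one_mem _) (one_mem _) (h.T_conj (inv_mem hs) hv) ht hs (by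
    rw [mul_one, e]; group)).1
  rw [this, one_mul]; exact ht

theorem B_norm {b : G} (hb : b ∈ d.B) : b ∈ normalizer (d.U : Set G) := by
  refine (sup_le le_normalizer fun t ht => ?_ : d.U ⊔ d.T ≤ _) hb
  rw [mem_normalizer_iff]
  refine fun x => ⟨h.T_conj ht, fun hx => ?_⟩
  simpa [mul_assoc] using h.T_conj (inv_mem ht) hx

theorem mem_GH {g : G} : g ∈ d.GH ↔ ∃ k ∈ d.K, ∃ t ∈ d.T, g = k * t :=
  sup_mem fun _ ht _ hu => h.T_conj ht hu

theorem D_conj (χ : AddChar (Fin l → ℤ) Fˣ) (r : Φ) (t : F) :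
    d.D χ * d.x r t * (d.D χ)⁻¹ = d.x r (χ (d.rt r) * t) := by
  rw [h.D_x, mul_inv_cancel_right]

theorem D_eq_one {χ : AddChar (Fin l → ℤ) Fˣ} (e : d.D χ = 1) : χ = 1 := by
  refine char_ext fun i => ?_
  have := h.D_conj χ (d.sm i) 1
  rw [e, one_mul, inv_one, mul_one, mul_one, h.rt_sm] at this
  exact Units.ext (h.x_inj _ this).symm

theorem neg_sm_mem (p : Fin l) : d.neg (d.sm p) ∈ d.Pos (-ht l) := by
  simp [Pos, h.rt_neg, h.ht_sm]

theorem sm_inj : Function.Injective d.sm := fun i k e => by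
  have := congrFun (congrArg d.rt e) i
  rw [h.rt_sm, h.rt_sm] at this
  by_contra hne
  simp [Pi.single_apply, hne] at this

theorem n_mem_K (p : Fin l) : d.n p ∈ d.K := by
  rw [h.n_def]
  exact mul_mem (mul_mem (x_mem_K _ _) (x_mem_K _ _)) (x_mem_K _ _)

theorem nw_mem_K (L : List (Fin l)) : d.nw L ∈ d.K :=
  list_prod_mem fun _ hx => by obtain ⟨p, -, rfl⟩ := List.mem_map.1 hx; exact h.n_mem_K p

theorem hh_mem_K (p : Fin l) (a : Fˣ) : d.hh p a ∈ d.K := by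
  rw [hh, ← mul_inv_eq_iff_eq_mul.2 (h.n_gen p a)]
  exact mul_mem (mul_mem (mul_mem (x_mem_K _ _) (x_mem_K _ _)) (x_mem_K _ _))
    (inv_mem (h.n_mem_K p))

theorem pr_sm (i k : Fin l) : d.pr i (d.rt (d.sm k)) = d.A i k := by
  rw [h.rt_sm]
  change ∑ j, d.A i j * (Pi.single k 1 : Fin l → ℤ) j = _
  rw [Finset.sum_eq_single k] <;> simp +contextual [Pi.single_apply]

theorem sm_ne_neg (i k : Fin l) : d.sm i ≠ d.neg (d.sm k) := fun e =>
  h.not_pos_neg (h.sm_pos k) (e ▸ h.sm_pos i)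

theorem n_x_aux (p : Fin l) (t : F) :
    d.n p * d.x (d.sm p) t * (d.n p)⁻¹ = d.x (d.neg (d.sm p)) (-t) ∧
    d.n p * d.x (d.neg (d.sm p)) t * (d.n p)⁻¹ = d.x (d.sm p) (-t) := by
  obtain ⟨ε, hε, h1⟩ := h.n_conj p (d.sm p)
  rw [h.w_neg, h.w_sm, h.neg_neg] at h1
  suffices ε = -1 by
    subst this
    exact ⟨by rw [(h1 t).1]; simp, by rw [(h1 t).2]; simp⟩
  rcases hε with rfl | rfl
  swap; · rfl
  simp only [one_mul] at h1
  set x := d.x (d.sm p) with hx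
  set y := d.x (d.neg (d.sm p)) with hy
  have e0 : d.n p = x 1 * y (-1) * x 1 := h.n_def p
  have ix : x (-1) = (x 1)⁻¹ := (h.x_inv _ _).symm
  have iy : y (-1) = (y 1)⁻¹ := (h.x_inv _ _).symm
  have e1 : d.n p * d.n p = y 1 * x (-1) * y 1 * d.n p := by
    nth_rw 2 [e0]
    rw [← mul_assoc, ← mul_assoc, (h1 1).1, mul_assoc (y 1), (h1 (-1)).2, mul_assoc, mul_assoc,
      (h1 1).1]
    group
  have e2 : d.n p = y 1 * x (-1) * y 1 := mul_right_cancel e1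
  have e3 : d.n p * y (-1) = x (-1) * d.n p := (h1 (-1)).2
  have e4 : y 1 * y 1 = x 1 * x 1 := by
    have e5 : y 1 * x (-1) = x (-1) * d.n p := by rw [← e3, e2, iy]; group
    rw [e0, ix, iy] at e5
    calc y 1 * y 1 = y 1 * (y 1 * (x 1)⁻¹) * x 1 := by group
      _ = _ := by rw [e5]; group
  rw [hx, hy, ← h.x_add, ← h.x_add] at e4
  by_contra hne
  exact h.sm_ne_neg p p (h.root_eq_of_x_eq (fun e => hne (by linear_combination e)) e4.symm)

/-- the sign in `n_conj` for the simple root itself -/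
theorem n_x (p : Fin l) (t : F) : d.n p * d.x (d.sm p) t * (d.n p)⁻¹ = d.x (d.neg (d.sm p)) (-t) :=
  (h.n_x_aux p t).1

theorem n_x' (p : Fin l) (t : F) : d.n p * d.x (d.neg (d.sm p)) t * (d.n p)⁻¹ = d.x (d.sm p) (-t) :=
  (h.n_x_aux p t).2

theorem comm_of_sum2 {r s : Φ} (h1 : s ≠ r) (h2 : s ≠ d.neg r) (h3 : d.Sum2 r s = ∅) (t u : F) :
    Commute (d.x r t) (d.x s u) := by
  have := h.comm r s h1 h2 t u
  rw [h3] at this
  have e : (d.x s u)⁻¹ * (d.x r t)⁻¹ * d.x s u * d.x r t = 1 := by simpa [US] using this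
  calc d.x r t * d.x s u = d.x r t * d.x s u * ((d.x s u)⁻¹ * (d.x r t)⁻¹ * d.x s u * d.x r t) := by
        rw [e, mul_one]
    _ = _ := by group

theorem no_mixed (r : Φ) {i k : Fin l} (h1 : 0 < d.rt r i) (h2 : d.rt r k < 0) : False := by
  by_cases hr : r ∈ d.Pos (ht l)
  · exact absurd (h.hpos r hr k) (by omega)
  · have := h.hpos _ (h.neg_pos hr) i
    rw [h.rt_neg, Pi.neg_apply] at this; omega

theorem comm_sm_neg {i k : Fin l} (hik : i ≠ k) (t u : F) :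
    Commute (d.x (d.sm i) t) (d.x (d.neg (d.sm k)) u) := by
  refine h.comm_of_sum2 (h.sm_ne_neg i k).symm (fun e => hik (h.sm_inj (h.neg_inj e)).symm) ?_ t u
  refine Set.eq_empty_of_forall_notMem ?_
  rintro r ⟨a, b, ha, hb, e⟩
  refine h.no_mixed r (i := i) (k := k) ?_ ?_ <;>
    simp [e, h.rt_neg, h.rt_sm, Pi.single_apply, hik, hik.symm] <;> omega

theorem sum2_sm {i k : Fin l} (hA : d.A i k = 0) : d.Sum2 (d.sm i) (d.sm k) = ∅ := by
  have hik : i ≠ k := by rintro rfl; rw [h.A_self] at hA; omega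
  refine Set.eq_empty_of_forall_notMem ?_
  rintro r ⟨a, b, ha, hb, e⟩
  have e2 : d.pr i (d.rt r) = 2 * a := by
    rw [e, map_add, map_nsmul, map_nsmul, h.pr_sm, h.pr_sm, hA, h.A_self]; simp [mul_comm]
  refine h.no_mixed (d.w i r) (i := k) (k := i) ?_ ?_ <;>
    rw [h.rt_w, W_apply, e2] <;> simp [e, h.rt_sm, Pi.single_apply, hik, hik.symm] <;> omega

theorem comm_sm {i k : Fin l} (hA : d.A i k = 0) (t u : F) :
    Commute (d.x (d.sm i) t) (d.x (d.sm k) u) := by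
  have hik : i ≠ k := by rintro rfl; rw [h.A_self] at hA; omega
  exact h.comm_of_sum2 (fun e => hik (h.sm_inj e).symm) (h.sm_ne_neg k i) (h.sum2_sm hA) t u

theorem comm_neg {i k : Fin l} (hA : d.A i k = 0) (t u : F) :
    Commute (d.x (d.neg (d.sm i)) t) (d.x (d.neg (d.sm k)) u) :=
  h.opp_ax.comm_sm (i := i) (k := k) hA t u

theorem K_le {H : Subgroup G} (h1 : ∀ i t, d.x (d.sm i) t ∈ H) (h2 : ∀ i t, d.x (d.neg (d.sm i)) t ∈ H) :
    d.K ≤ H := by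
  have hn : ∀ p, d.n p ∈ H := fun p => by
    rw [h.n_def]; exact mul_mem (mul_mem (h1 _ _) (h2 _ _)) (h1 _ _)
  refine US_le fun r _ => h.reach (fun r => ∀ t, d.x r t ∈ H) h1 (fun p r ih t => ?_) r
  obtain ⟨c, hc⟩ := h.x_nw [p] r t
  simp only [nw, ww, List.map, List.prod_cons, List.prod_nil, mul_one, List.foldr] at hc
  rw [eq_mul_inv_of_mul_eq hc]
  exact mul_mem (mul_mem (hn p) (ih c)) (inv_mem (hn p))

theorem up_sm (j : Fin l) : d.Up (ht l) (d.Pos (ht l) \ {d.sm j}) := fun r hr =>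
  ⟨hr.1, fun s hs => ⟨hr.1.trans hs, by
    rintro rfl
    have : 0 < ht l (d.rt r) := hr.1
    rw [h.ht_sm] at hs; omega⟩⟩

theorem norm_Uj (j : Fin l) {u v : G} (hu : u ∈ d.U) (hv : v ∈ d.US (d.Pos (ht l) \ {d.sm j})) :
    u * v * u⁻¹ ∈ d.US (d.Pos (ht l) \ {d.sm j}) :=
  h.US_ind (P := fun u => u * v * u⁻¹ ∈ d.US (d.Pos (ht l) \ {d.sm j})) (by simpa using hv)
    (fun r hr t g _ ih => by
      simpa [mul_assoc] using h.conj_x_mem (h.up_sm j) hr t ih) hu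

theorem x_mem_Uj {j : Fin l} {t : F} (e : d.x (d.sm j) t ∈ d.US (d.Pos (ht l) \ {d.sm j})) : t = 0 :=
  h.uniq (ht l) _ (h.sm_pos j) _ (fun s hs => by rw [h.ht_sm]; exact hs.1) (by simp) t e

theorem n_Uj (j : Fin l) {v : G} (hv : v ∈ d.US (d.Pos (ht l) \ {d.sm j})) :
    d.n j * v * (d.n j)⁻¹ ∈ d.US (d.Pos (ht l) \ {d.sm j}) := by
  refine conj_US (fun r hr c => ?_) hv
  obtain ⟨ε, -, hε⟩ := h.n_conj j r
  rw [(hε _).1, mul_inv_cancel_right]
  refine x_mem_US (S := d.Pos (ht l) \ {d.sm j}) ⟨h.w_pos j r hr.1 hr.2, fun e => ?_⟩ _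
  have h1 : r = d.neg (d.sm j) := by rw [← h.w_sm, ← show d.w j r = d.sm j from e, h.w_w]
  exact h.not_pos_neg (h.sm_pos j) (h1 ▸ hr.1)

theorem ww_rev (L : List (Fin l)) (r : Φ) : d.ww L.reverse (d.ww L r) = r := by
  induction L generalizing r with
  | nil => rfl
  | cons p L ih =>
    rw [List.reverse_cons, ww_append, ww_cons p L, show d.ww [p] (d.w p _) = _ from h.w_w p _, ih]

theorem ww_inj (L : List (Fin l)) : Function.Injective (d.ww L) :=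
  Function.LeftInverse.injective (h.ww_rev L)

theorem ww_rev' (L : List (Fin l)) (r : Φ) : d.ww L (d.ww L.reverse r) = r := by
  simpa using h.ww_rev L.reverse r

theorem exists_simple {L : List (Fin l)} (hL : d.nw L ∉ d.T) :
    ∃ j, ∃ r ∈ d.Pos (ht l), d.ww L r = d.neg (d.sm j) := by
  by_contra hn
  push Not at hn
  have h1 := h.del _ (h.pos_of_sm (L := L.reverse) fun p => by
    by_contra h2
    exact hn p _ (h.neg_pos h2) (by rw [h.ww_neg, h.ww_rev']))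
  exact hL (by simpa using mul_mem (h.nw_rev L) (inv_mem h1))

theorem n_not_mem (p : Fin l) {u t v : G} (hu : u ∈ d.U) (ht : t ∈ d.T) (hv : v ∈ d.V) :
    d.n p ≠ u * t * v := fun e => by
  have := h.pos_of_ldu (L := [p]) hu ht hv (by simpa [nw] using e) _ (h.sm_pos p)
  rw [show d.ww [p] (d.sm p) = _ from h.w_sm p] at this
  exact h.not_pos_neg (h.sm_pos p) this

theorem mem_neg {r : Φ} (hr : r ∉ d.Pos (ht l)) : r ∈ d.Pos (-ht l) := by
  simpa [Pos, h.rt_neg] using h.neg_pos hr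

theorem pos_of_mem_U {r : Φ} {t : F} (h0 : t ≠ 0) (e : d.x r t ∈ d.U) : r ∈ d.Pos (ht l) := by
  by_contra hr
  exact h0 (h.x_inj r (by rw [h.U_V e (x_mem_US (h.mem_neg hr) t), h.x_zero]))

theorem cnt_cons_sub {L : List (Fin l)} {i : Fin l} (hi : ∀ r ∈ d.Pos (ht l), d.ww L r ≠ d.sm i) :
    {r | r ∈ d.Pos (ht l) ∧ d.ww (i :: L) r ∉ d.Pos (ht l)} ⊆
      {r | r ∈ d.Pos (ht l) ∧ d.ww L r ∉ d.Pos (ht l)} := fun r hr =>
  ⟨hr.1, fun h1 => hr.2 (h.w_pos i _ h1 (hi r hr.1))⟩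

theorem cnt_cons_le {L : List (Fin l)} {i : Fin l} (hi : ∀ r ∈ d.Pos (ht l), d.ww L r ≠ d.sm i) :
    d.cnt (i :: L) ≤ d.cnt L :=
  Set.ncard_le_ncard (h.cnt_cons_sub hi)

theorem cnt_cons_lt {L : List (Fin l)} {i : Fin l} {r : Φ} (hr : r ∈ d.Pos (ht l))
    (hi : d.ww L r = d.neg (d.sm i)) : d.cnt (i :: L) < d.cnt L := by
  refine Set.ncard_lt_ncard ⟨h.cnt_cons_sub fun s hs e => ?_, fun h1 => ?_⟩
  · have : s = d.neg r := h.ww_inj L (by rw [h.ww_neg, hi, h.neg_neg, e])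
    exact h.not_pos_neg hr (this ▸ hs)
  · refine (h1 ⟨hr, hi ▸ h.not_pos_neg (h.sm_pos i)⟩).2 ?_
    rw [ww_cons, hi, h.w_neg, h.w_sm, h.neg_neg]; exact h.sm_pos i

theorem w0 : ∃ L, ∀ r ∈ d.Pos (ht l), d.ww L r ∉ d.Pos (ht l) := by
  have hb : BddAbove (Set.range d.cnt) := ⟨Nat.card Φ, by
    rintro _ ⟨L, rfl⟩; exact Set.ncard_le_card _⟩
  obtain ⟨L, hL⟩ := Nat.sSup_mem (Set.range_nonempty d.cnt) hb
  have h1 : ∀ p, d.ww L (d.sm p) ∉ d.Pos (ht l) := fun p hp => by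
    have h2 := h.cnt_lt (L := L ++ [p]) (p := p) (by
      rw [ww_append, show d.ww [p] (d.sm p) = _ from h.w_sm p, h.ww_neg]; exact h.not_pos_neg hp)
    have h3 : d.cnt (L ++ [p] ++ [p]) = d.cnt L := by
      simp only [cnt, ww_append, show ∀ r, d.ww [p] (d.ww [p] r) = r from h.w_w p]
    have := le_csSup hb ⟨L ++ [p], rfl⟩
    omega
  refine ⟨L, fun r hr hw => ?_⟩
  obtain ⟨W, hW⟩ := h.ww_lin L
  have h2 : ht l (d.rt (d.ww L r)) = ∑ i, d.rt r i * ht l (d.rt (d.ww L (d.sm i))) := by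
    rw [hW, ← Finset.univ_sum_single (d.rt r), map_sum, map_sum, Finset.univ_sum_single]
    refine Finset.sum_congr rfl fun i _ => ?_
    rw [hW, h.rt_sm, ← smul_eq_mul, ← map_zsmul, ← map_zsmul, ← Pi.single_smul]; simp
  have h3 : ht l (d.rt (d.ww L r)) ≤ 0 :=
    h2 ▸ Finset.sum_nonpos fun i _ => mul_nonpos_of_nonneg_of_nonpos (h.hpos r hr i) (not_lt.1 (h1 i))
  exact absurd hw (not_lt.2 h3)

theorem x_pow (s : Φ) (t : F) (n : ℕ) : d.x s t ^ n = d.x s (n * t) := by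
  induction n with
  | zero => simp [h.x_zero]
  | succ n ih => rw [pow_succ, ih, ← h.x_add]; congr 1; push_cast; ring

theorem US_pow (r : ℕ) [CharP F r] {f : (Fin l → ℤ) →+ ℤ} (S : Set Φ) (hS : d.Up f S) :
    ∃ k : ℕ, ∀ u ∈ d.US S, u ^ r ^ k = 1 := by
  refine up_ind (P := fun S => ∃ k : ℕ, ∀ u ∈ d.US S, u ^ r ^ k = 1) ⟨0, by simp [US]⟩ ?_ S hS
  rintro S s hS hs - hup ⟨k, hk⟩
  refine ⟨k + 1, fun u hu => ?_⟩
  obtain ⟨t, u', hu', rfl⟩ := h.peel hup (hS s hs).1 hu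
  have h1 : ∀ n : ℕ, (d.x s t * u') ^ n * (d.x s t ^ n)⁻¹ ∈ d.US (S \ {s}) := fun n => by
    induction n with
    | zero => simp
    | succ n ih =>
      have := h.conj_x_mem hup (hS s hs).1 t (mul_mem hu' ih)
      convert this using 1
      rw [pow_succ', pow_succ']; group
  have h2 := h1 r
  rw [h.x_pow, CharP.cast_eq_zero, zero_mul, h.x_zero, inv_one, mul_one] at h2
  rw [pow_succ', pow_mul, hk _ h2]

theorem U_pgroup (r : ℕ) [Fact r.Prime] [CharP F r] : IsPGroup r d.U := by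
  obtain ⟨k, hk⟩ := h.US_pow r _ (up_pos (ht l))
  exact fun u => ⟨k, Subtype.ext (hk u.1 u.2)⟩

theorem nw_US {L : List (Fin l)} {S S' : Set Φ} (hS : ∀ r ∈ S, d.ww L r ∈ S') {b : G} (hb : b ∈ d.US S) :
    d.nw L * b * (d.nw L)⁻¹ ∈ d.US S' := conj_US (fun r hr c => by
  obtain ⟨ε, -, hε⟩ := h.nw_conj L r
  rw [(hε _).1, mul_inv_cancel_right]
  exact x_mem_US (hS r hr) _) hb

theorem reg {u g : G} (hu : d.Reg u) (hg : g ∈ d.GH) (e : g⁻¹ * u * g ∈ d.U) : g ∈ d.B := by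
  obtain ⟨L, a, ha, t, ht, b, hb, rfl⟩ := h.cell_GH hg
  by_cases hL : d.nw L ∈ d.T
  · exact mul_mem (mul_mem (mul_mem (mem_sup_left ha) (mem_sup_right ht)) (mem_sup_right hL))
      (mem_sup_left hb)
  exfalso
  obtain ⟨j, r, hr, e1⟩ := h.exists_simple hL
  obtain ⟨c1, h1, c2, h2, e2⟩ := h.split (d.ww L ⁻¹' d.Pos (H9.Chev.ht l)) (up_pos _) _
    (mul_mem (mul_mem hb e) (inv_mem hb))
  have h3 := h.nw_US (L := L) (S' := d.Pos (H9.Chev.ht l) \ {d.sm j}) (fun s hs => ⟨hs.2, fun e3 => by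
    have : s = d.neg r := h.ww_inj L (by rw [h.ww_neg, e1, h.neg_neg]; exact e3)
    exact h.not_pos_neg hr (this ▸ hs.1)⟩) h1
  have h4 := h.nw_US (L := L) (S' := d.Pos (-H9.Chev.ht l)) (fun s hs => h.mem_neg hs.2) h2
  have h5 := h.T_conj (inv_mem ht) (mul_mem (mul_mem (inv_mem ha) hu.1) ha)
  have h6 := (h.ldu h5 (US_mono (fun _ hx => hx.1) h3) (one_mem _) h4 (one_mem _) (one_mem _) (by
    rw [mul_one, mul_one, mul_one]
    calc _ = d.nw L * (b * ((a * t * d.nw L * b)⁻¹ * u * (a * t * d.nw L * b)) * b⁻¹) * (d.nw L)⁻¹ := by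
          group
      _ = _ := by rw [e2]; group)).1
  refine hu.2 j ?_
  have := h.norm_Uj j ha (h.T_conj ht (h6 ▸ h3))
  simpa [mul_assoc] using this

theorem reg_T {u t : G} (hu : d.Reg u) (ht : t ∈ d.T) (e : t * u = u * t) : t = 1 := by
  obtain ⟨χ, rfl⟩ := ht
  rw [char_ext (χ := χ) fun j => ?_, map_one]
  obtain ⟨s, u', hu', e1⟩ := h.peel (h.up_sm j) (h.sm_pos j) hu.1
  have h0 : s ≠ 0 := by
    rintro rfl
    exact hu.2 j (by rwa [e1, h.x_zero, one_mul])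
  have h1 : d.x (d.sm j) (-s + χ (d.rt (d.sm j)) * s) ∈ d.US (d.Pos (H9.Chev.ht l) \ {d.sm j}) := by
    have h2 := mul_mem hu' (inv_mem (h.T_conj (D_mem χ) hu'))
    convert h2 using 1
    rw [h.x_add, ← h.x_inv, ← h.D_conj, inv_mul_eq_iff_eq_mul, ← mul_assoc, ← e1, eq_mul_inv_iff_mul_eq,
      ← mul_inv_eq_iff_eq_mul.2 e, e1]
    group
  have := h.x_mem_Uj h1
  rw [h.rt_sm] at this
  exact Units.ext (mul_right_cancel₀ h0 (by simp only [Units.val_one]; linear_combination this))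

theorem reg_exists {H : Subgroup G} (hH : ∀ i, d.x (d.sm i) 1 ∈ H) : ∃ u ∈ H, d.Reg u := by
  classical
  suffices ∀ s : Finset (Fin l), ∃ u ∈ H, u ∈ d.U ∧ ∀ j,
      (j ∈ s → u ∉ d.US (d.Pos (ht l) \ {d.sm j})) ∧ (j ∉ s → u ∈ d.US (d.Pos (ht l) \ {d.sm j})) by
    obtain ⟨u, h1, h2, h3⟩ := this Finset.univ
    exact ⟨u, h1, h2, fun j => (h3 j).1 (Finset.mem_univ j)⟩
  intro s
  induction s using Finset.induction_on with
  | empty => exact ⟨1, one_mem _, one_mem _, fun j => ⟨by simp, fun _ => one_mem _⟩⟩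
  | insert i s hi ih =>
    obtain ⟨u, h1, h2, h3⟩ := ih
    refine ⟨d.x (d.sm i) 1 * u, mul_mem (hH i) h1, mul_mem (x_mem_US (h.sm_pos i) 1) h2, fun j => ?_⟩
    by_cases e : j = i
    · subst e
      refine ⟨fun _ h4 => ?_, by simp⟩
      exact one_ne_zero (h.x_mem_Uj ((mul_mem_cancel_right ((h3 j).2 hi)).1 h4))
    · have h4 : d.x (d.sm i) 1 ∈ d.US (d.Pos (ht l) \ {d.sm j}) :=
        x_mem_US (S := d.Pos (ht l) \ {d.sm j}) ⟨h.sm_pos i, fun e' => e (h.sm_inj e').symm⟩ 1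
      simpa [e, mul_mem_cancel_left h4] using h3 j

theorem norm_U {g : G} (hg : g ∈ d.GH) (e : g ∈ normalizer (d.U : Set G)) : g ∈ d.B := by
  obtain ⟨u, -, hu⟩ := h.reg_exists (H := ⊤) fun _ => mem_top _
  exact h.reg hu hg (by simpa using (mem_normalizer_iff.1 (inv_mem e) u).1 hu.1)

theorem cent_GH {g : G} (hg : g ∈ d.GH) (e : ∀ k ∈ d.K, g * k = k * g) : g = 1 := by
  obtain ⟨u, hK, hu⟩ := h.reg_exists (H := d.K) fun _ => x_mem_K _ _
  obtain ⟨v, hK', hv⟩ := h.opp_ax.reg_exists (H := d.K) fun _ => x_mem_K _ _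
  refine h.reg_T hu (h.B_inf (h.reg hu hg ?_) (h.opp_B ▸ h.opp_ax.reg hv (h.opp_GH ▸ hg) ?_)) (e u hK)
  · rw [mul_assoc, ← e u hK, inv_mul_cancel_left]; exact hu.1
  · rw [mul_assoc, ← e v hK', inv_mul_cancel_left]; exact hv.1

end Ax

end AD

end Cfsg.Agent.LB
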