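import Cfsg.Agent.LB.St

/-! Common steps of the local balance arguments. -/

set_option autoImplicit false
set_option linter.unusedSectionVars false
set_option linter.unusedVariables false

namespace Cfsg.Agent.LB

open Subgroup Cfsg.Agent.H9.Chev

variable {G : Type*} [Group G] {Φ : Type} {l : ℕ} {F : Type*} [Field F]

namespace AD

variable {d : AD G Φ l F}

/-- the group `(N ∩ G̃) C_U(β)` -/
def PP (d : AD G Φ l F) (β : G) (N : Subgroup G) : Subgroup G :=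
  (N ⊓ d.GH) ⊔ (d.U ⊓ centralizer {β})

theorem U_le_K : d.U ≤ d.K := US_mono (Set.subset_univ _)

theorem V_le_K : d.V ≤ d.K := US_mono (Set.subset_univ _)

theorem mem_PP_U {β : G} {N : Subgroup G} {u : G} (h1 : u ∈ d.U) (h2 : u * β = β * u) : u ∈ d.PP β N :=
  mem_sup_right ⟨h1, mem_centralizer_singleton_iff.2 h2⟩

theorem mem_of_pow_mem {g : G} {n : ℕ} (h1 : (orderOf g).Coprime n) {H : Subgroup G} (h2 : g ^ n ∈ H) :
    g ∈ H := by
  obtain ⟨m, hm⟩ := exists_pow_eq_self_of_coprime h1.symm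
  rw [← hm]; exact pow_mem h2 m

namespace NH

variable [Finite Φ] [Finite G] {p : ℕ} {β : G} {N : Subgroup G} (hN : d.NH p β N)
include hN

theorem normM {k m : G} (hk : k ∈ d.K) (e : k * β = β * k) (hm : m ∈ N ⊓ d.GH) :
    k * m * k⁻¹ ∈ N ⊓ d.GH :=
  mem_inf.2 ⟨hN.norm k hk e m (mem_inf.1 hm).1, mul_mem (mul_mem (mem_sup_left hk) (mem_inf.1 hm).2) (inv_mem (mem_sup_left hk))⟩

theorem mem_PP {g : G} : g ∈ d.PP β N ↔
    ∃ m ∈ N ⊓ d.GH, ∃ u ∈ d.U ⊓ centralizer {β}, g = m * u :=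
  sup_mem (H := N ⊓ d.GH) (T := d.U ⊓ centralizer {β}) fun u hu m hm => hN.normM (U_le_K (mem_inf.1 hu).1) (mem_centralizer_singleton_iff.1 (mem_inf.1 hu).2) hm

theorem ord {a : G} (ha : a ∈ N) : (orderOf a).Coprime p :=
  hN.cop.coprime_dvd_left (orderOf_dvd_natCard N ha)

theorem ord_PP (h : d.Ax) (r : ℕ) [Fact r.Prime] [CharP F r] (hp : p.Prime) (hpr : p ≠ r) {g : G}
    (hg : g ∈ d.PP β N) : (orderOf g).Coprime p := by
  obtain ⟨m, hm, u, hu, rfl⟩ := hN.mem_PP.1 hg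
  have h1 : ∀ n : ℕ, (m * u) ^ n * (u ^ n)⁻¹ ∈ N := fun n => by
    induction n with
    | zero => simp
    | succ n ih =>
      convert mul_mem (mem_inf.1 hm).1 (hN.norm u (U_le_K (mem_inf.1 hu).1) (mem_centralizer_singleton_iff.1 (mem_inf.1 hu).2) _ ih) using 1
      rw [pow_succ', pow_succ']; group
  obtain ⟨k, hk⟩ := h.U_pgroup r ⟨u, (mem_inf.1 hu).1⟩
  have h2 := h1 (r ^ k)
  rw [show u ^ r ^ k = 1 from congrArg Subtype.val hk, inv_one, mul_one] at h2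
  refine Nat.Coprime.coprime_dvd_left (orderOf_dvd_of_pow_eq_one (n := r ^ k * Nat.card N) ?_)
    (Nat.Coprime.mul_left (Nat.Coprime.pow_left _ ((Nat.coprime_primes Fact.out hp).2 hpr.symm)) hN.cop)
  rw [pow_mul]
  exact orderOf_dvd_iff_pow_eq_one.1 (orderOf_dvd_natCard N h2)

/-- elements of `K ∩ C(β)` normalising `U` normalise `PP` -/
theorem conj_PP {k g : G} (hk : k ∈ d.K) (e : k * β = β * k) (h1 : k ∈ normalizer (d.U : Set G))
    (hg : g ∈ d.PP β N) : k * g * k⁻¹ ∈ d.PP β N := by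
  obtain ⟨m, hm, u, hu, rfl⟩ := hN.mem_PP.1 hg
  have h2 : Commute u β := mem_centralizer_singleton_iff.1 (mem_inf.1 hu).2
  have h3 : Commute k β := e
  rw [show k * (m * u) * k⁻¹ = k * m * k⁻¹ * (k * u * k⁻¹) by group]
  exact mul_mem (mem_sup_left (hN.normM hk e hm)) (mem_PP_U (N := N)
    ((mem_normalizer_iff.1 h1 u).1 (mem_inf.1 hu).1) ((h3.mul_left h2).mul_left h3.inv_left).eq)

theorem step (am : d.Amb) {π : Equiv.Perm (Fin l)} {c : Fin l → Fˣ} {σ : Fin l → F ≃+* F}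
    (s : d.Std π c σ β) {m : G} (hm : m ∈ N ⊓ d.GH) :
    ∃ t ∈ d.T, ∃ L, t * d.nw L ∈ d.PP β N ∧ t * d.nw L * β = β * (t * d.nw L) ∧ d.Cell L m ∧
      (m ∉ d.B → d.nw L ∉ d.T) := by
  obtain ⟨u, hu, u', hu', t, ht, L, e, h1, h2, h3⟩ := s.fix_bruhat am (mem_inf.1 hm).2 (hN.comm m (mem_inf.1 hm).1)
  refine ⟨t, ht, L, ?_, h3, ⟨u, hu, t, ht, u', hu', by rw [e]; group⟩, fun h4 h5 => h4 ?_⟩
  · convert mul_mem (mul_mem (inv_mem (mem_PP_U (N := N) hu h1)) (mem_sup_left hm))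
      (inv_mem (mem_PP_U (N := N) hu' h2)) using 1
    rw [e]; group
  · rw [e]
    exact mul_mem (mul_mem (mem_sup_left hu) (mem_sup_right (mul_mem ht h5))) (mem_sup_left hu')

theorem cent (am : d.Amb) (h0 : ∀ m ∈ N ⊓ d.GH, m = 1) {a k : G} (ha : a ∈ N) (hk : k ∈ d.K)
    (e : k * β = β * k) : a * k = k * a := by
  have := h0 (k * a * k⁻¹ * a⁻¹) (mem_inf.2 ⟨mul_mem (hN.norm k hk e a ha) (inv_mem ha), mem_sup_left (by
    simpa [mul_assoc] using mul_mem hk (am.norm.conj_mem _ (inv_mem hk) a))⟩)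
  rw [mul_inv_eq_one, mul_inv_eq_iff_eq_mul] at this
  exact this.symm

/-- if `N ∩ G̃ ≤ T` it centralises `C_U(β)` -/
theorem cent_T (h : d.Ax) (h0 : ∀ m ∈ N ⊓ d.GH, m ∈ d.T) {m u : G} (hm : m ∈ N ⊓ d.GH) (hu : u ∈ d.U)
    (e : u * β = β * u) : m * u = u * m := by
  have := h.U_T (u := u * m * u⁻¹ * m⁻¹) (by
    convert mul_mem hu (h.T_conj (h0 m hm) (inv_mem hu)) using 1; group)
    (mul_mem (h0 _ (hN.normM (U_le_K hu) e hm)) (inv_mem (h0 m hm)))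
  rw [mul_inv_eq_one, mul_inv_eq_iff_eq_mul] at this
  exact this.symm

end NH

end AD

end Cfsg.Agent.LB
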