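import Cfsg.Agent.LB.D4a
import Cfsg.Agent.H9.ChevFix
import Cfsg.Agent.H6.Tq8

/-! The Chevalley group of type `D₄` is the plus-type orthogonal group of dimension eight. -/

set_option autoImplicit false
set_option maxRecDepth 100000

namespace Cfsg.Agent.LB.D4

open Cfsg.Lie Cfsg.Agent.H9.Chev Cfsg.Agent.H7 Subgroup QuadraticMap Module Matrix

variable {F : Type*} [Field F]

local notation "Q8" => QP F 4

lemma tab : ∀ r < 24, pI r ≠ wI r ∧ pI r ≠ (wI r).swap ∧ (sg r = 1 ∨ sg r = -1) := by decide +kernel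

lemma exists_root : ∀ p w : J, p = .inl 0 ∨ p = .inr 0 → w ≠ p → w ≠ p.swap →
    ∃ r < 24, pI r = p ∧ wI r = w := by decide +kernel

lemma exists_root' : ∀ i k : J, ∃ r < 24, (pI r = i ∧ wI r ≠ k) ∨ (wI r = i ∧ pI r ≠ k) := by
  decide +kernel

/-- basis vectors -/
abbrev v (i : J) : V8 F := Pi.single i 1

lemma B_v (x : V8 F) (i : J) : polar Q8 x (v i) = x i.swap := by
  rcases i with i | i
  exacts [H6.Tq.B_ea x i, H6.Tq.B_eb x i]

lemma Q_v (i : J) : Q8 (v i) = 0 := by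
  rcases i with i | i
  exacts [(hypSys_QP 4).Qe i, (hypSys_QP 4).Qf i]

lemma dl_cast (i j : J) : (dl i j : F) = (1 : Matrix J J F) i j := by simp [dl, one_apply]

lemma B_pw {r : ℕ} (hr : r < 24) (t : F) : polar Q8 (v (pI r)) ((sg r * t) • v (wI r)) = 0 := by
  rw [B_smul_right, B_v, v, Pi.single_eq_of_ne (tab r hr).2.1.symm, mul_zero]

/-- the root elements -/
def y (r : Fin 24) (t : F) : OG Q8 := siegel _ _ (Q_v _) (B_pw r.2 t)

/-- matrix of an isometry -/
def mt (s : OG Q8) : Matrix J J F := of fun i q => s.1 (v q) i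

lemma mt_mulVec (s : OG Q8) (x : V8 F) : mt s *ᵥ x = s.1 x := by
  have := LinearMap.toMatrix'_mulVec (s.1 : V8 F →ₗ[F] V8 F) x
  rwa [show LinearMap.toMatrix' (s.1 : V8 F →ₗ[F] V8 F) = mt s from
    Matrix.ext fun i j => LinearMap.toMatrix'_apply _ _ _] at this

lemma mt_mul (s s' : OG Q8) : mt (s * s') = mt s * mt s' :=
  Matrix.ext fun i j => (congrFun (mt_mulVec s (s'.1 (v j))) i).symm

lemma mt_one : mt (1 : OG Q8) = 1 := Matrix.ext fun i j => by simp [mt, Pi.single_apply, one_apply]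

lemma y_apply (r : Fin 24) (t : F) (x : V8 F) : (y r t).1 x =
    x + (sg r * t) • (x (wI r).swap • v (pI r) - x (pI r).swap • v (wI r)) := by
  rw [y, siegel_apply, B_smul_right, B_v, B_v, Q_smul, Q_v]; module

lemma mt_y (r : Fin 24) (t : F) (i q : J) : mt (y r t) i q = dl i q + t * nz r i q := by
  simp only [mt, y_apply, nz, dl, v, of_apply, Pi.add_apply, Pi.smul_apply, Pi.sub_apply,
    Pi.single_apply, smul_eq_mul, eq_comm (a := q)]
  push_cast; ring

/-- the bivector of a basis element -/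
def ME (F : Type*) [Field F] (b : ℕ) : Matrix J J F := of fun i j => ((ent (EL b) dl dl i j : ℤ) : F)

lemma ent_cast (L : List (ℤ × J × J)) (f g : J → J → ℤ) (i j : J) :
    ((ent L f g i j : ℤ) : F) = ent L (fun a b => (f a b : F)) (fun a b => (g a b : F)) i j := by
  induction L with
  | nil => simp [ent]
  | cons e L ih =>
    simp only [ent, List.map_cons, List.sum_cons, Int.cast_add] at ih ⊢
    rw [ih]; simp

lemma conj_ME (S : Matrix J J F) (b : ℕ) (i j : J) : (S * ME F b * Sᵀ) i j = ent (EL b) S S i j := by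
  simp only [ME, ent_cast, dl_cast]
  induction EL b with
  | nil => simp [ent, mul_apply]
  | cons e L ih =>
    simp only [ent, List.map_cons, List.sum_cons, ← ih, mul_apply, of_apply, transpose_apply, one_apply,
      mul_add, add_mul, Finset.sum_add_distrib]
    congr 1
    simp [mul_sub, sub_mul, Finset.sum_sub_distrib, Finset.sum_mul]; ring

/-- the map from the Lie algebra to bivectors -/
def EE (F : Type*) [Field F] : (chevD4.Idx → F) →ₗ[F] Matrix J J F :=
  Fintype.linearCombination F fun a => ME F (enc chevD4 a)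

lemma EE_single (b : chevD4.Idx) : EE F (Pi.single b 1) = ME F (enc chevD4 b) := by simp [EE]

lemma sum_evC (t : F) (C : Col) (h : ∀ x ∈ C, x.1 < 28 ∧ (x.2.1 = 1 ∨ x.2.1 = 2)) (i j : J) :
    ∑ a, evC t C (enc chevD4 a) * ME F (enc chevD4 a) i j = t * cf C 1 i j + t ^ 2 * cf C 2 i j := by
  induction C with
  | nil => simp [evC, cf]
  | cons x C ih =>
    obtain ⟨h1, h2⟩ := h x List.mem_cons_self
    have := sum_ite_enc chevD4 x.1 (fun a => (ME F a i j : F)) (x.2.2 * t ^ x.2.1)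
    rw [if_pos (by exact h1)] at this
    simp only [mul_comm (ME F _ i j)] at this
    simp only [evC_cons, add_mul, Finset.sum_add_distrib, ih fun y hy => h y (List.mem_cons_of_mem _ hy),
      this]
    simp only [cf, List.map_cons, List.sum_cons, ME, of_apply, Int.cast_add]
    rcases h2 with h2 | h2 <;> simp [h2] <;> ring

lemma inter_y (r : Fin 24) (t : F) (c : chevD4.Idx → F) :
    EE F (chevD4.xMat F r t *ᵥ c) = mt (y r t) * EE F c * (mt (y r t))ᵀ := by
  induction c using Pi.single_induction with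
  | zero => simp
  | add f g hf hg => simp [mulVec_add, hf, hg, mul_add, add_mul]
  | single b x =>
    rw [← mul_one x, ← smul_eq_mul, Pi.single_smul, mulVec_smul, map_smul, map_smul, Matrix.mul_smul,
      Matrix.smul_mul, EE_single]
    congr 1
    ext i j
    obtain ⟨h1, h2⟩ := chk_all r r.2 _ (enc_lt chevD4 b)
    rw [conj_ME, EE, Fintype.linearCombination_apply, Matrix.sum_apply]
    have hx := Good.xMat_sub (D := chevD4) F r t
    simp only [mulVec_single_one, col_apply, hx, Matrix.smul_apply, smul_eq_mul, add_mul,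
      Finset.sum_add_distrib, sum_evC t _ h1, (h2 i j).1, (h2 i j).2, one_apply, ite_mul, one_mul,
      zero_mul, Finset.sum_ite_eq', Finset.mem_univ, if_true]
    simp only [ME, of_apply, Int.cast_add, ent_cast]
    induction EL (enc chevD4 b) with
    | nil => simp [ent]
    | cons e L ih =>
      simp only [ent, List.map_cons, List.sum_cons, mt_y] at ih ⊢
      linear_combination ih

variable (F) in
/-- the graph of the isomorphism -/
def Γ : Subgroup (GL chevD4.Idx F × OG (QP F 4)) where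
  carrier := {z | ∀ c, EE F (z.1.1 *ᵥ c) = mt z.2 * EE F c * (mt z.2)ᵀ}
  one_mem' c := by simp [mt_one]
  mul_mem' {z z'} h h' c := by
    simp only [Prod.fst_mul, Prod.snd_mul, Units.val_mul, ← mulVec_mulVec, mt_mul, transpose_mul]
    rw [h, h']; simp only [Matrix.mul_assoc]
  inv_mem' {z} h c := by
    have := h (z⁻¹.1.1 *ᵥ c)
    rw [mulVec_mulVec, Prod.fst_inv, Units.mul_inv, one_mulVec] at this
    rw [this, ← Matrix.mul_assoc, ← Matrix.mul_assoc, ← mt_mul, Matrix.mul_assoc, ← transpose_mul,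
      ← mt_mul]
    simp [mt_one]

lemma xy_mem (r : Fin 24) (t : F) : ((goodD4.dat F).x r t, y r t) ∈ Γ F := inter_y r t

lemma y_mem [Finite F] (r : Fin 24) (t : F) : y r t ∈ Om Q8 := siegel_mem_Om (nd_QP 4) (by simp) _ _

lemma exists_snd [Finite F] {g : GL chevD4.Idx F} (hg : g ∈ chevD4.group F) :
    ∃ s ∈ Om Q8, (g, s) ∈ Γ F := by
  rw [goodD4.group_eq] at hg
  refine (goodD4.ax F).US_ind (P := fun g => ∃ s ∈ Om Q8, (g, s) ∈ Γ F) ⟨1, one_mem _, one_mem _⟩ ?_ hg
  rintro r - t g - ⟨s, h1, h2⟩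
  have h3 := mul_mem (xy_mem r t) h2
  rw [Prod.mk_mul_mk] at h3
  exact ⟨_, mul_mem (y_mem r t) h1, h3⟩

lemma gen_Om [Finite F] {S : Subgroup (OG Q8)} (h : ∀ r t, y r t ∈ S) : Om Q8 ≤ S := by
  have a1 : ∀ p : J, p = .inl 0 ∨ p = .inr 0 → ∀ w hw, siegel (v p) w (Q_v p) hw ∈ S := by
    intro p hp w hw
    let W : AddSubgroup (V8 F) :=
      { carrier := {w | ∃ hw, siegel (v p) w (Q_v p) hw ∈ S}
        zero_mem' := ⟨by simp, by rw [siegel_zero]; exact one_mem _⟩
        add_mem' := fun ⟨h1, h2⟩ ⟨h3, h4⟩ => ⟨_, siegel_mul _ h1 h3 ▸ mul_mem h2 h4⟩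
        neg_mem' := fun ⟨h1, h2⟩ => ⟨_, siegel_inv _ h1 ▸ inv_mem h2⟩ }
    suffices w ∈ W from this.2
    rw [pi_eq_sum_univ' w]
    refine W.sum_mem fun q _ => ?_
    by_cases h1 : q = p
    · subst h1
      exact ⟨by simp [B_self, Q_v], by rw [siegel_smul_self]; exact one_mem _⟩
    by_cases h2 : q = p.swap
    · rw [B_comm, B_v] at hw
      rw [h2, hw, zero_smul]; exact zero_mem _
    obtain ⟨r, hr, rfl, rfl⟩ := exists_root p q hp h1 h2
    have h3 : w (wI r) = sg r * (sg r * w (wI r)) := by rcases (tab r hr).2.2 with h3 | h3 <;> simp [h3]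
    rw [h3]
    exact ⟨_, h ⟨r, hr⟩ _⟩
  have a2 : ∀ p, Q8 p = 0 → p (.inl 0) ≠ 0 → ∀ hp w hw, siegel p w hp hw ∈ S := fun p h1 h2 hp w hw => by
    obtain ⟨u, hu, c, hc, h3⟩ := exists_siegel_par (Q_v (.inr 0)) h1 (Q_v (.inl 0))
      (by rwa [B_v]) (by simp [B_v])
    have h4 := a1 _ (Or.inr rfl) u hu
    generalize siegel _ u _ hu = s at h3 h4
    have h5 : polar Q8 (c • v (.inl 0)) (s.1 w) = 0 := by rw [← h3]; simp [hw]
    rw [← mul_mem_cancel_left h4, ← mul_mem_cancel_right (inv_mem h4), siegel_conj,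
      siegel_congr _ _ h3 rfl, siegel_smul_left c (Q_v _) _ _ (by simpa [mul_comm] using h5)]
    exact a1 _ (Or.inl rfl) _ _
  refine (Om_le_sgAll (nd_QP 4) nonExc8 (by simp)).trans ((closure_le _).2 ?_)
  rintro _ ⟨p, w, hp, hw, rfl⟩
  by_cases h0 : p = 0
  · subst h0
    rw [show siegel 0 w hp hw = 1 from OG.ext' fun x => by simp [siegel_apply]]; exact one_mem _
  obtain ⟨u, hu, h1⟩ : ∃ u hu, (siegel (v (.inl 0)) u (Q_v _) hu).1 p (.inl 0) ≠ 0 := by
    by_contra! h1
    have b0 := h1 0 (by simp)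
    have b1 := h1 (v (.inl 1)) (by simp [B_v])
    have b2 := h1 (v (.inl 2)) (by simp [B_v])
    have b3 := h1 (v (.inl 3)) (by simp [B_v])
    have c1 := h1 (v (.inr 1)) (by simp [B_v])
    have c2 := h1 (v (.inr 2)) (by simp [B_v])
    have c3 := h1 (v (.inr 3)) (by simp [B_v])
    have d := h1 (v (.inl 1) + v (.inr 1)) (by simp [B_v])
    simp [siegel_apply, B_v, Q_v, Q_add] at b0 b1 b2 b3 c1 c2 c3 d
    exact h0 (by apply v8_ext <;> simp_all)
  have h4 := a1 _ (Or.inl rfl) u hu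
  rw [SetLike.mem_coe, ← mul_mem_cancel_left h4, ← mul_mem_cancel_right (inv_mem h4), siegel_conj]
  exact a2 _ (by simp [hp]) h1 _ _ _

lemma scalar_of_mem {s : OG Q8} (h : (1, s) ∈ Γ F) : ∃ l : F, ∀ x, s.1 x = l • x := by
  have a : ∀ r < 24, ∀ i j, mt s i (pI r) * mt s j (wI r) - mt s i (wI r) * mt s j (pI r) =
      (1 : Matrix J J F) i (pI r) * (1 : Matrix J J F) j (wI r) -
        (1 : Matrix J J F) i (wI r) * (1 : Matrix J J F) j (pI r) := fun r hr i j => by
    have h1 := congrFun (congrFun (h (Pi.single (.inr ⟨r, hr⟩) 1)) i) j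
    have h2 := conj_ME (1 : Matrix J J F) (enc chevD4 (.inr ⟨r, hr⟩)) i j
    simp only [Prod.fst_one, Units.val_one, one_mulVec, EE_single, conj_ME, transpose_one,
      Matrix.mul_one, Matrix.one_mul] at h1 h2
    have h3 : EL (enc chevD4 (.inr ⟨r, hr⟩)) = [(sg r, pI r, wI r)] := by simp [EL, enc, chevD4]
    rw [h2, h3] at h1
    rcases (tab r hr).2.2 with h4 | h4 <;> simp only [ent, h4] at h1 <;> simp at h1 ⊢ <;>
      first | linear_combination h1 | linear_combination -h1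
  have b : ∀ i k, k ≠ i → mt s k i = 0 := fun i k hk => by
    obtain ⟨r, hr, ⟨rfl, h2⟩ | ⟨rfl, h2⟩⟩ := exists_root' i k
    all_goals
      have c1 := a r hr (pI r) (wI r)
      have c2 := a r hr k (pI r)
      have c3 := a r hr k (wI r)
      simp [hk, h2.symm, (tab r hr).1, (tab r hr).1.symm] at c1 c2 c3
      grind
  have c : ∀ r < 24, mt s (pI r) (pI r) * mt s (wI r) (wI r) = 1 := fun r hr => by
    simpa [(tab r hr).1, (tab r hr).1.symm, b] using a r hr (pI r) (wI r)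
  refine ⟨mt s (.inl 0) (.inl 0), fun x => ?_⟩
  have c1 := c 0 (by omega)
  have c2 := c 1 (by omega)
  have c3 := c 18 (by omega)
  have c4 := c 19 (by omega)
  have c5 := c 20 (by omega)
  have c6 := c 21 (by omega)
  have c7 := c 22 (by omega)
  have c8 := c 23 (by omega)
  have c9 := c 6 (by omega)
  simp [pI, wI] at c1 c2 c3 c4 c5 c6 c7 c8 c9
  rw [← mt_mulVec]
  apply v8_ext <;> simp [mulVec, dotProduct, Fin.sum_univ_four, b] <;> grind

lemma mt_scalar {s : OG Q8} {l : F} (h : ∀ x, s.1 x = l • x) (M : Matrix J J F) :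
    mt s * M * (mt s)ᵀ = M := by
  have h1 : mt s = l • 1 := Matrix.ext fun i j => by simp [mt, h, Pi.single_apply, one_apply]
  have h2 := OG.map_Q s e8
  rw [h, Q_smul, Q_e8, mul_one] at h2
  simp [h1, smul_smul, ← pow_two, h2]

lemma eq_one_of_mem [Finite F] (hK : IsSimpleGroup (chevD4.group F)) {g : chevD4.group F} {s : OG Q8}
    (h : (g.1, s) ∈ Γ F) {l : F} (hl : ∀ x, s.1 x = l • x) : g = 1 := by
  let N : Subgroup (chevD4.group F) := (Γ F).comap ((MonoidHom.inl _ _).comp (chevD4.group F).subtype)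
  have hN : N.Normal := ⟨fun n hn k c => by
    obtain ⟨s, -, hs⟩ := exists_snd k.2
    have := mul_mem (mul_mem hs hn) (inv_mem hs) c
    simpa using this⟩
  rcases hN.eq_bot_or_eq_top with h1 | h1
  · exact mem_bot.1 (h1.le fun c => (h c).trans (by rw [mt_scalar hl]; simp [mt_one]))
  · have h2 := h1.ge (mem_top ⟨_, goodD4.x_mem F (18 : Fin 24) 1⟩)
    rw [mem_comap, MonoidHom.comp_apply, MonoidHom.inl_apply, coe_subtype] at h2
    have h3 := mul_mem (inv_mem h2) (xy_mem 18 (1 : F))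
    rw [Prod.inv_mk, Prod.mk_mul_mk, inv_one, one_mul, inv_mul_cancel] at h3
    obtain ⟨l, hl⟩ := scalar_of_mem h3
    have h4 := congrFun (hl (v (.inl 1))) (.inl 0)
    simp [y_apply, pI, wI, sg] at h4

theorem exists_iso [Finite F] (hK : IsSimpleGroup (chevD4.group F)) :
    ∃ e : chevD4.group F ≃* POm Q8, ∀ (g : chevD4.group F) (s : Om Q8), (g.1, s.1) ∈ Γ F →
      e g = pm Q8 s := by
  let S := (Γ F).comap ((chevD4.group F).subtype.prodMap (Om Q8).subtype)
  let f := ((MonoidHom.id _).prodMap (pm Q8)).comp S.subtype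
  obtain ⟨e, he⟩ := MonoidHom.exists_mulEquiv_range_eq_graph (f := f)
    (fun g => by
      obtain ⟨s, h1, h2⟩ := exists_snd g.2
      exact ⟨⟨(g, ⟨s, h1⟩), h2⟩, rfl⟩)
    (fun x => by
      obtain ⟨s, rfl⟩ := QuotientGroup.mk'_surjective _ x
      obtain ⟨⟨g, s'⟩, h1, h2⟩ := gen_Om (S := S.map ((Om Q8).subtype.comp (MonoidHom.snd _ _)))
        (fun r t => ⟨(⟨_, goodD4.x_mem F r t⟩, ⟨_, y_mem r t⟩), xy_mem r t, rfl⟩) s.2
      exact ⟨⟨_, h1⟩, congrArg (pm Q8) (Subtype.ext h2)⟩)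
    (fun z z' => by
      have h1 : (((z⁻¹ * z').1.1).1, ((z⁻¹ * z').1.2).1) ∈ Γ F := (z⁻¹ * z').2
      change z.1.1 = z'.1.1 ↔ pm Q8 z.1.2 = pm Q8 z'.1.2
      rw [← inv_mul_eq_one, ← inv_mul_eq_one (a := pm Q8 _), ← map_inv, ← map_mul,
        QuotientGroup.mk'_apply, QuotientGroup.eq_one_iff, mem_center_Om_iff (nd_QP 4) (by simp)]
      refine ⟨fun h2 => scalar_of_mem ?_, fun ⟨l, hl⟩ => eq_one_of_mem hK h1 hl⟩
      rwa [show (z⁻¹ * z').1.1 = 1 from h2] at h1)
  exact ⟨e, fun g s h => (he.le ⟨⟨(g, s), h⟩, rfl⟩ : _)⟩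

end Cfsg.Agent.LB.D4
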