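import Cfsg.Agent.H9.ChevD4
import Cfsg.Agent.H9.ChevFix
import Cfsg.Agent.H9.ChevFold
import Cfsg.Prelude.Def_LieTypeDatum
import Cfsg.Agent.LB.D4b

/-! Transport of the local balance criterion from the plus-type orthogonal group of dimension eight. -/

set_option autoImplicit false

namespace Cfsg.Agent.LB

open Cfsg.Lie Cfsg.Agent.H9.Chev

namespace D4

open Cfsg.Agent.H7 Subgroup QuadraticMap Module

variable {F : Type*} [Field F]

lemma unbal_map {A B : Type*} [Group A] [Group B] (c : A ≃* B) {p : ℕ} {I : Subgroup A}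
    {I' : Subgroup B} (hI : ∀ x, c x ∈ I' → x ∈ I) {β : A} (h : H6.Unbal p I β) :
    H6.Unbal p I' (c β) := by
  obtain ⟨N, h0, h1, h2, h3⟩ := h
  refine ⟨N.map c.toMonoidHom, ?_, ?_, ?_, ?_⟩
  · rwa [Ne, map_eq_bot_iff_of_injective _ c.injective]
  · rwa [card_map_of_injective c.injective]
  · rintro _ ⟨n, hn, rfl⟩
    simpa [mem_centralizer_singleton_iff, ← map_mul] using h2 hn
  · rintro x hx _ ⟨n, hn, rfl⟩
    obtain ⟨x, rfl⟩ := c.surjective x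
    exact ⟨_, h3 x ⟨hI x hx.1, by simpa [mem_centralizer_singleton_iff, ← map_mul] using hx.2⟩ n hn,
      by simp⟩

lemma dich_plus [Finite F] (r : ℕ) [Fact r.Prime] [CharP F r] {p : ℕ} [Fact p.Prime] (hpr : p ≠ r)
    {x : MulAut (Cfsg.POmega F ⇑(QP F 4))} (hord : orderOf x = p)
    (hU : H6.Unbal p (Cfsg.Inn (Cfsg.POmega F ⇑(QP F 4))) x) :
    x ∈ (actP (QP F 4)).range ∨ ∃ α σ, α * x * α⁻¹ = actP _ (SS.std σ (std_QP 4 σ)) := by
  have hQ := nd_QP (F := F) 4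
  have ha := ker_actP hQ (by simp)
  obtain ⟨α, γ, hγ⟩ := H6.Tq.exists_conj_of_unbal le_rfl r hpr hord hU
  have ho : orderOf (actP _ γ) = p := by
    rw [← hγ, ← hord]; exact orderOf_injective (MulAut.conj α).toMonoidHom (MulAut.conj α).injective x
  replace hU := hγ ▸ hU.conj α
  by_cases h1 : γ.σ = 1
  · have : ((KS (QP F 4)).map (actP _)).Normal := inn_eq_KS (Q := QP F 4) ▸ inferInstance
    rw [inn_eq_KS] at hU
    have h2 : γ ∈ DS (QP F 4) := by_contra fun h2 => not_unbal_graph ha hQ (finrank_QP F 4) le_rfl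
      (H6.Tq.mem_range_of_comm hQ (by simp)) (fun h2 => absurd h2 (by decide)) r hpr ho h1 h2 hU
    have := (normal_DS_QP le_rfl).conj_mem' _ ⟨γ, h2, rfl⟩ α
    rw [← hγ, mul_assoc, mul_assoc, inv_mul_cancel, mul_one, inv_mul_cancel_left] at this
    exact Or.inl (map_le_range _ _ this)
  · obtain ⟨β, σ, -, h3⟩ := exists_of_fieldClass (std_QP 4) (H6.Tq.fieldClassPlus_of le_rfl r Fact.out
      hpr ho h1 (coprime_of_unbal hQ (by simp) r hpr ho h1 hU))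
    exact Or.inr ⟨β * α, σ, by rw [← h3, ← hγ]; group⟩

lemma eig {r : Fin 24} {t l : F} (ht : t ≠ 0) {x : V8 F} (h : (y r t).1 x = l • x) :
    x (wI r).swap = 0 ∧ x (pI r).swap = 0 := by
  obtain ⟨h1, h2, h3⟩ := tab r r.2
  have h4 : ∀ i : J, i.swap ≠ i := by decide
  have h5 : (pI r).swap ≠ wI r := fun h => h2 (by rw [← h, Sum.swap_swap])
  have a1 := congrFun h (pI r)
  have a2 := congrFun h (wI r)
  have a3 := congrFun h (pI r).swap
  have a4 := congrFun h (wI r).swap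
  have h6 : (sg r : F) * t ≠ 0 := by rcases h3 with h3 | h3 <;> simp [h3, ht]
  simp [y_apply, h1, h1.symm, h2.symm, h4, h5] at a1 a2 a3 a4
  grind

lemma y_fix {r : Fin 24} (h : 6 ≤ r.1 ∧ (r.1 ≤ 23)) (t : F) : (y r t).1 (v (.inl 0)) = v (.inl 0) := by
  obtain ⟨h1, h2⟩ := (by decide : ∀ r : Fin 24, 6 ≤ r.1 → (wI r).swap ≠ .inl 0 ∧ (pI r).swap ≠ .inl 0)
    r h.1
  simp [y_apply, h1, h2]

lemma pos_iff (r : Fin 24) : r ∈ (goodD4.dat F).Pos (ht 4) ↔ 12 ≤ r.1 :=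
  (by decide +kernel : ∀ r : Fin 24, 0 < ht 4 ((goodD4.dat ℚ).rt r) ↔ 12 ≤ r.1) r

lemma neg_sm (j : Fin 4) : ∃ r : Fin 24, (goodD4.dat F).neg ((goodD4.dat F).sm j) = r ∧
    (j = 0 → r = 5) ∧ (j ≠ 0 → 6 ≤ r.1) :=
  have := (by decide +kernel : ∀ j : Fin 4, (j = 0 → ((goodD4.dat ℚ).neg ((goodD4.dat ℚ).sm j)).1 = 5) ∧
    (j ≠ 0 → 6 ≤ ((goodD4.dat ℚ).neg ((goodD4.dat ℚ).sm j)).1)) j
  ⟨_, rfl, fun h => Fin.ext (this.1 h), this.2⟩

lemma std_y (σ : F ≃+* F) (r : Fin 24) (t : F) :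
    SS.actO _ (SS.std σ (std_QP 4 σ)) (y r t) = y r (σ t) := by
  refine (SS.actO_siegel _ _ _).trans (siegel_congr _ _ ?_ ?_)
  · ext i; simp [SS.std_apply, Pi.single_apply]
  · ext i; simp [SS.std_apply, Pi.single_apply, apply_ite σ]

end D4

open D4 H7 in
/-- either `β` fixes the class of the parabolic subgroup of node `0`, or it is conjugate to a field
automorphism, or it is inner-diagonal-free of `p'`-core -/
theorem d4_dich {F : Type*} [Field F] [Fintype F] (r : ℕ) [Fact r.Prime] [CharP F r]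
    (hK : IsSimpleGroup ↥(chevD4.group F)) (𝒢 : Subgroup (MulAut ↥(chevD4.group F)))
    (hinn : ∀ k : ↥(chevD4.group F), MulAut.conj k ∈ 𝒢) (p : ℕ) [Fact p.Prime] (hpr : p ≠ r)
    (β : MulAut ↥(chevD4.group F)) (hβ : β ∈ 𝒢) (hord : orderOf β = p)
    (hN : Cfsg.pPrimeCore p ↥(𝒢 ⊓ Subgroup.centralizer {β}) ≠ ⊥) :
    (∀ (k : ↥(chevD4.group F)) (β₀ : MulAut ↥(chevD4.group F)), β = MulAut.conj k * β₀ →
      (∀ g : ↥(chevD4.group F), g.1 ∈ (goodD4.dat F).US ((goodD4.dat F).Pos (ht 4)) ↔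
        (β₀ g).1 ∈ (goodD4.dat F).US ((goodD4.dat F).Pos (ht 4))) →
      ∀ (j : Fin 4), j ≠ 0 → ∀ (t s : F) (g : ↥(chevD4.group F)),
        g.1 = (goodD4.dat F).x ((goodD4.dat F).neg ((goodD4.dat F).sm j)) t →
        (β₀ g).1 = (goodD4.dat F).x ((goodD4.dat F).neg ((goodD4.dat F).sm (0 : Fin 4))) s → s = 0) ∨
    ∃ (α φ : MulAut ↥(chevD4.group F)) (σ : F ≃+* F),
      IsEntrywiseFieldAutOnOf (chevD4.group F) σ φ ∧ α * β * α⁻¹ = φ := by
  obtain ⟨e₀, he⟩ := exists_iso hK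
  let e := e₀.trans (pomEquiv (QP F 4)).symm
  let c := MulAut.congr e
  have hc : ∀ k, c (MulAut.conj k) = MulAut.conj (e k) := fun k => by ext x; simp [c]
  have hact : ∀ β₀ γ, c β₀ = actP _ γ → ∀ g, e₀ (β₀ g) = act _ γ (e₀ g) := fun β₀ γ h g => by
    have := DFunLike.congr_fun h (e g)
    simpa [c, e, actP_apply] using this
  rcases dich_plus r hpr (x := c β) (hord ▸ orderOf_injective c.toMonoidHom c.injective β)
    (unbal_map c (I := Cfsg.Inn _) (I' := Cfsg.Inn _) (fun x ⟨k, hk⟩ => by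
      obtain ⟨k, rfl⟩ := e.surjective k
      exact ⟨k, c.injective ((hc k).trans hk)⟩)
    (H6.unbal_of_core (by rintro _ ⟨k, rfl⟩; exact hinn k) hN)) with h1 | ⟨α, σ, h1⟩
  · left
    rintro k β₀ rfl hU j hj t s g h2 h3
    have h4 : c (MulAut.conj k) ∈ (actP (QP F 4)).range :=
      Subgroup.map_le_range _ _ ((inn_eq_KS (Q := QP F 4)).le ⟨e k, (hc k).symm⟩)
    rw [map_mul, mul_mem_cancel_left h4] at h1
    obtain ⟨γ, hγ⟩ := h1
    have key : ∀ (g : chevD4.group F) (s s' : Om (QP F 4)), (g.1, s.1) ∈ Γ F → ((β₀ g).1, s'.1) ∈ Γ F →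
        s.1.1 (v (.inl 0)) = v (.inl 0) → ∃ l : F, s'.1.1 (γ.γ (v (.inl 0))) = l • γ.γ (v (.inl 0)) :=
      fun g s s' a1 a2 a3 => by
        have a4 := hact _ _ hγ.symm g
        rw [he _ _ a1, he _ _ a2, act_pm, eq_comm, ← inv_mul_eq_one, ← map_inv, ← map_mul,
          QuotientGroup.mk'_apply, QuotientGroup.eq_one_iff,
          mem_center_Om_iff (nd_QP 4) (by simp)] at a4
        obtain ⟨l, hl⟩ := a4
        refine ⟨l, (OG.inv_apply_eq.1 (hl _)).trans ?_⟩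
        rw [map_smul, actOm_coe, SS.actO_apply', a3]
    have a1 : ∀ r : Fin 24, 12 ≤ r.1 → γ.γ (v (.inl 0)) (wI r).swap = 0 ∧
        γ.γ (v (.inl 0)) (pI r).swap = 0 := fun r hr => by
      have b1 := (hU (β₀⁻¹ ⟨_, goodD4.x_mem F r 1⟩)).2 (by
        rw [MulAut.apply_inv_self]; exact Dat.x_mem_US ((pos_iff r).2 hr) _)
      obtain ⟨s, b2, b3, b4⟩ := (goodD4.ax F).US_ind (P := fun g => ∃ s ∈ Om (QP F 4), (g, s) ∈ Γ F ∧
          s.1 (v (.inl 0)) = v (.inl 0)) ⟨1, one_mem _, one_mem _, rfl⟩ (by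
        rintro r hr t g - ⟨s, h1, h2, h5⟩
        have h3 := mul_mem (xy_mem r t) h2
        rw [Prod.mk_mul_mk] at h3
        exact ⟨_, mul_mem (y_mem r t) h1, h3, by
          rw [OG.mul_apply, h5, y_fix ⟨by have := (pos_iff r).1 hr; omega, Nat.le_of_lt_succ r.2⟩]⟩) b1
      obtain ⟨l, hl⟩ := key _ ⟨s, b2⟩ ⟨_, y_mem r 1⟩ b3
        (by rw [MulAut.apply_inv_self]; exact xy_mem r 1) b4
      exact eig one_ne_zero hl
    obtain ⟨r, b1, -, b2⟩ := neg_sm (F := F) j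
    obtain ⟨r', b3, b4, -⟩ := neg_sm (F := F) 0
    rw [b1] at h2
    rw [b3, b4 rfl] at h3
    obtain ⟨l, hl⟩ := key g ⟨_, y_mem r t⟩ ⟨_, y_mem 5 s⟩ (h2 ▸ xy_mem r t) (h3 ▸ xy_mem 5 s)
      (y_fix ⟨b2 hj, Nat.le_of_lt_succ r.2⟩ t)
    by_contra hs
    refine γ.apply_ne_zero (x := v (.inl 0)) (by simp) (v8_ext (eig hs hl).2 (a1 18 (by decide)).1
      (a1 19 (by decide)).1 (a1 21 (by decide)).1 (a1 18 (by decide)).2 (a1 23 (by decide)).1
      (a1 22 (by decide)).1 (a1 20 (by decide)).1)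
  · refine Or.inr ⟨c.symm α, c.symm (actP _ (SS.std σ (std_QP 4 σ))), σ, fun g => ?_,
      c.injective (by simp [h1])⟩
    have h2 := hact _ _ (c.apply_symm_apply (actP _ (SS.std σ (std_QP 4 σ))))
    generalize c.symm _ = φ at h2 ⊢
    have h3 : ∀ (r : Fin 24) t, φ ⟨_, goodD4.x_mem F r t⟩ = ⟨_, goodD4.x_mem F r (σ t)⟩ := fun r t =>
      e₀.injective (by
        rw [h2, he ⟨_, goodD4.x_mem F r t⟩ ⟨_, y_mem r t⟩ (xy_mem r t),
          he ⟨_, goodD4.x_mem F r (σ t)⟩ ⟨_, y_mem r (σ t)⟩ (xy_mem r _), act_pm]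
        exact congrArg _ (Subtype.ext (std_y σ r t)))
    have := goodD4.hom_ext ((chevD4.group F).subtype.comp φ.toMonoidHom)
      ((Matrix.GeneralLinearGroup.map (σ : F →+* F)).comp (chevD4.group F).subtype) fun r t =>
        (congrArg Subtype.val (h3 r t)).trans (goodD4.map_x (σ : F →+* F) r t).symm
    exact congrArg Units.val (DFunLike.congr_fun this g)

end Cfsg.Agent.LB
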