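import Cfsg.Agent.LB.Cm

/-! The field case. -/

set_option autoImplicit false
set_option linter.unusedSectionVars false
set_option linter.unusedVariables false

namespace Cfsg.Agent.LB

open Subgroup Cfsg.Agent.H9.Chev

variable {G : Type*} [Group G] {Φ : Type} {l : ℕ} {F : Type*} [Field F]

namespace AD

variable {d : AD G Φ l F}

namespace FC

variable [Finite G] [Finite Φ] [Finite F] (am : d.Amb) {p : ℕ} {σ : F ≃+* F} {β : G}
  (hf : d.IsFld σ β) {N : Subgroup G}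
include am hf

theorem x_comm {ρ : Φ} {t : F} : Commute (d.x ρ t) β ↔ σ t = t := by
  rw [Commute, SemiconjBy, eq_comm, ← mul_inv_eq_iff_eq_mul, hf]
  exact ⟨am.ax.x_inj _, fun e => by rw [e]⟩

theorem n_comm (i : Fin l) : Commute (d.n i) β := by
  rw [am.ax.n_def]
  exact (((x_comm am hf).2 (map_one _)).mul_left ((x_comm am hf).2 (by simp))).mul_left
    ((x_comm am hf).2 (map_one _))

theorem star {t : G} (ht : t ∈ d.T) {L : List (Fin l)} (h1 : t * d.nw L ∈ d.PP β N)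
    (h2 : Commute (t * d.nw L) β) {ρ : Φ} (hρ : ρ ∈ d.Pos (H9.Chev.ht l)) {z : F} (hz : σ z = z) :
    d.x (d.ww L ρ) z ∈ d.PP β N := by
  obtain ⟨e, h0, h3⟩ := am.ax.conj_x' ht L ρ
  have h4 : σ e = e := (x_comm am hf).1 (by
    rw [← mul_one e, ← (h3 1).1]
    exact (h2.mul_left ((x_comm am hf).2 (map_one _))).mul_left h2.inv_left)
  rw [← mul_inv_cancel_left₀ h0 z, ← (h3 _).1]
  exact mul_mem (mul_mem h1 (mem_PP_U (x_mem_US hρ _) ((x_comm am hf).2 (by simp [h4, hz])))) (inv_mem h1)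

variable (hN : d.NH p β N)
include hN

theorem tits {i k : Fin l} (hA : d.A i k ≠ 0) (hk : d.x (d.neg (d.sm k)) (-1) ∈ d.PP β N)
    (hik : i ≠ k) {z : F} (hz : σ z = z) : d.x (d.neg (d.sm i)) z ∈ d.PP β N := by
  have h := am.ax
  obtain ⟨m, hm, u, hu, e⟩ := hN.mem_PP.1 hk
  obtain ⟨t, ht, L, h1, h2, h3, -⟩ := hN.step am (Std.of_fld h hf)
    (hN.normM (h.n_mem_K i) (n_comm am hf i) hm)
  have h4 : d.ww [i, k] (d.sm i) ∈ d.Pos (H9.Chev.ht l) :=
    h.w_pos _ _ (h.w_pos _ _ (h.sm_pos i) fun e => hik (h.sm_inj e)) fun e => by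
      have := congrFun (congrArg d.rt e) k
      rw [show List.foldr d.w (d.sm i) [k] = d.w k (d.sm i) from rfl, h.rt_w, W_apply, h.pr_sm] at this
      exact hA (am.symz _ _ (by simpa using this))
  obtain ⟨c, u', hu', e'⟩ := h.peel (h.up_sm i) (h.sm_pos i)
    (mul_mem (inv_mem (x_mem_US (h.sm_pos k) 1)) (inv_mem (mem_inf.1 hu).1))
  have h5 : d.Cell [i, k, i] (d.n i * m * (d.n i)⁻¹) := by
    have a1 := h.n_Uj i (inv_mem (x_mem_US
      (S := d.Pos (H9.Chev.ht l) \ {d.sm i}) ⟨h.sm_pos k, fun e => hik (h.sm_inj e).symm⟩ 1))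
    have a2 := h.nw_US (L := [i, k]) (S := {d.sm i}) (S' := d.Pos (H9.Chev.ht l))
      (fun _ e => e ▸ h4) (x_mem_US (S := {d.sm i}) rfl c)
    refine ⟨_, mul_mem (US_mono Set.sdiff_subset a1) a2, _,
      h.nw_T [i, k] (D_mem (pc (d.pr i) (-1))), _, US_mono Set.sdiff_subset (h.n_Uj i hu'), ?_⟩
    have h6 := h.n_def k
    rw [e] at h6
    simp only [nw, List.map, List.prod_cons, List.prod_nil, mul_one]
    rw [← mul_inv_eq_iff_eq_mul.2 (h.n_inv i), ← inv_mul_eq_iff_eq_mul.2 e', h6]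
    group
  have := star am hf ht h1 h2 h4 hz
  rwa [h.cell_uniq h5 h3, show d.ww [i, k, i] (d.ww [i, k] (d.sm i)) =
    d.w i (d.w k (d.w i (d.w i (d.w k (d.sm i))))) from rfl, h.w_w, h.w_w, h.w_sm] at this

theorem le_B (r : ℕ) [Fact r.Prime] [CharP F r] (hp : p.Prime) (hpr : p ≠ r)
    (hd : p ∣ Nat.card ↥(d.K ⊓ centralizer {β})) {m : G} (hm : m ∈ N ⊓ d.GH) : m ∈ d.B := by
  have h := am.ax
  by_contra hB
  obtain ⟨t, ht, L, h1, h2, -, h3⟩ := hN.step am (Std.of_fld h hf) hm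
  obtain ⟨j, ρ, hρ, e⟩ := h.exists_simple (h3 hB)
  have a1 := am.conn (fun i => ∀ z, σ z = z → d.x (d.neg (d.sm i)) z ∈ d.PP β N) j
    (fun z hz => e ▸ star am hf ht h1 h2 hρ hz) fun i k hA hk z hz => by
      by_cases hik : i = k
      · exact hik ▸ hk z hz
      · exact tits am hf hN hA (hk _ (by simp)) hik hz
  have a2 : ∀ i z, σ z = z → d.x (d.sm i) z ∈ d.PP β N := fun i z hz =>
    mem_PP_U (x_mem_US (h.sm_pos i) z) ((x_comm am hf).2 hz)
  have a3 : ∀ i, d.n i ∈ d.PP β N := fun i => by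
    rw [h.n_def]; exact mul_mem (mul_mem (a2 _ _ (by simp)) (a1 _ _ (by simp))) (a2 _ _ (by simp))
  have a4 : ∀ g ∈ d.PP β N, orderOf g ≠ p := fun g hg e => by
    have := hN.ord_PP h r hp hpr hg
    rw [e, Nat.coprime_self] at this
    exact hp.one_lt.ne' this
  haveI := Fact.mk hp
  obtain ⟨⟨g, hg, hg'⟩, ho⟩ := exists_prime_orderOf_dvd_card' p hd
  rw [← orderOf_coe] at ho
  obtain ⟨u, hu, u', hu', t, ht, L, rfl, b1, b2, b3⟩ := (Std.of_fld h hf).fix_bruhat am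
    (mem_sup_left hg) (mem_centralizer_singleton_iff.1 hg')
  have b4 : d.nw L ∈ d.PP β N ⊓ centralizer {β} := list_prod_mem fun _ hx => by
    obtain ⟨i, -, rfl⟩ := List.mem_map.1 hx
    exact ⟨a3 i, mem_centralizer_singleton_iff.2 (n_comm am hf i)⟩
  have b5 : Commute t β := by
    simpa using (show Commute _ β from b3).mul_left
      (show Commute _ β from mem_centralizer_singleton_iff.1 b4.2).inv_left
  by_cases hpt : p ∣ orderOf t
  · have c1 := orderOf_pow_orderOf_div (orderOf_pos t).ne' hpt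
    have c2 := b5.pow_left (orderOf t / p)
    obtain ⟨χ, hχ⟩ := pow_mem ht (orderOf t / p)
    rw [← hχ] at c1 c2
    obtain ⟨i, hi⟩ : ∃ i, χ (Pi.single i 1) ≠ 1 := by
      by_contra! c3
      rw [char_ext c3, map_one, orderOf_one] at c1
      exact hp.one_lt.ne c1
    have c3 := congrArg (fun ψ : AddChar (Fin l → ℤ) Fˣ => ψ (Pi.single i 1))
      (h.D_eq_one (χ := χ ^ p) (by rw [map_pow, ← c1, pow_orderOf_eq_one]))
    have c4 : σ (χ (Pi.single i 1)) = χ (Pi.single i 1) := (x_comm am hf (ρ := d.sm i)).1 (by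
      rw [← mul_one (χ _ : F), ← h.rt_sm, ← h.D_conj]
      exact (c2.mul_left ((x_comm am hf).2 (map_one _))).mul_left c2.inv_left)
    simp only [AddChar.pow_apply, AddChar.one_apply] at c3
    generalize χ (Pi.single i 1) = ζ at hi c3 c4
    obtain ⟨a, k, hak⟩ := am.rk
    refine a4 (d.hh a ζ) ?_ (orderOf_eq_prime ?_ fun c5 => hi ?_)
    · rw [← mul_mem_cancel_right (a3 a), h.hh_n]
      exact mul_mem (mul_mem (a2 _ _ c4) (a1 _ _ (by simp [c4]))) (a2 _ _ c4)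
    · have : ∀ n : ℕ, d.hh a ζ ^ n = d.hh a (ζ ^ n) := fun n => by
        induction n with
        | zero => simp [hh_one]
        | succ n ih => rw [pow_succ, pow_succ, ih, hh_mul]
      rw [this, c3, hh_one]
    · have := h.hh_conj a ζ (d.sm k) 1
      rw [c5, one_mul, inv_one, mul_one, h.pr_sm, hak] at this
      simpa [eq_comm] using h.x_inj _ this
  have c1 : t ∈ d.K := by
    simpa [mul_assoc] using mul_mem (mul_mem (mul_mem (inv_mem (U_le_K hu)) hg) (inv_mem (U_le_K hu')))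
      (inv_mem (h.nw_mem_K L))
  have c2 := fun g => hN.conj_PP (g := g) c1 b5 (h.B_norm (mem_sup_right ht))
  have c3 : ∀ n : ℕ, (u * (t * d.nw L) * u') ^ n * (t ^ n)⁻¹ ∈ d.PP β N := fun n => by
    induction n with
    | zero => simp
    | succ n ih =>
      convert mul_mem (mul_mem (mem_PP_U hu b1) (c2 _ (mul_mem b4.1 (mem_PP_U hu' b2)))) (c2 _ ih) using 1
      rw [pow_succ', pow_succ']
      generalize (u * (t * d.nw L) * u') ^ n = y
      group
  have c4 := c3 (orderOf t)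
  rw [pow_orderOf_eq_one, inv_one, mul_one] at c4
  exact a4 _ (mem_of_pow_mem (ho ▸ hp.coprime_iff_not_dvd.2 hpt) c4) ho

end FC

theorem field_case [Finite G] [Finite Φ] [Finite F] (am : d.Amb) (r : ℕ) [Fact r.Prime] [CharP F r]
    {p : ℕ} (hp : p.Prime) (hpr : p ≠ r) {σ : F ≃+* F} {β : G} (hf : d.IsFld σ β)
    (ho : orderOf β = p) {N : Subgroup G} (hN : d.NH p β N)
    (hd : p ∣ Nat.card ↥(d.K ⊓ centralizer {β})) : N = ⊥ := by
  have h := am.ax
  have h1 : ∀ m ∈ N ⊓ d.GH, m ∈ d.T := fun m hm => h.B_inf (FC.le_B am hf hN r hp hpr hd hm)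
    (h.opp_B ▸ FC.le_B am.opp hf.opp (hN.opp h) r hp hpr (h.opp_K ▸ hd) (h.opp_GH ▸ hm))
  have hx : ∀ ρ, d.x ρ 1 ∈ centralizer {β} := fun ρ =>
    mem_centralizer_singleton_iff.2 ((FC.x_comm am hf).2 (map_one _))
  obtain ⟨u, hu, hu'⟩ := h.reg_exists fun i => hx (d.sm i)
  obtain ⟨v, hv, hv'⟩ := h.opp_ax.reg_exists (H := centralizer {β}) fun i => hx _
  rw [mem_centralizer_singleton_iff] at hu hv
  have h2 : ∀ m ∈ N ⊓ d.GH, m = 1 := fun m hm => h.reg_T hu' (h1 m hm) (hN.cent_T h h1 hm hu'.1 hu)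
  refine eq_bot_iff.2 fun α hα => ?_
  obtain ⟨π, c, τ, s⟩ := am.st_std r (am.norm_of_reg r hu' (hN.cent am h2 hα (U_le_K hu'.1) hu))
    (h.opp_U ▸ am.opp.norm_of_reg r hv' (hN.cent am h2 hα (V_le_K (h.opp_U ▸ hv'.1)) hv))
  have h3 : ∀ i z, σ z = z → d.x (d.sm i) z = d.x (d.sm (π i)) (c i * τ i z) := fun i z hz => by
    rw [← s.xp, hN.cent am h2 hα (x_mem_K _ _) ((FC.x_comm am hf).2 hz), mul_inv_cancel_right]
  obtain rfl : π = 1 := Equiv.ext fun i =>
    (h.sm_inj (h.root_eq_of_x_eq one_ne_zero (h3 i 1 (map_one _)))).symm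
  have h4 : ∀ i, c i = 1 := fun i => Units.ext (by simpa [eq_comm] using h.x_inj _ (h3 i 1 (map_one _)))
  obtain ⟨k, -, -⟩ := am.rk
  haveI : Finite (RingAut F) := Finite.of_injective _ DFunLike.coe_injective
  obtain ⟨n, hn⟩ := mem_powers_iff_mem_zpowers.2 (mem_zpowers_of_fix (σ := σ) (τ := τ k) fun z hz => by
    simpa [h4, eq_comm] using h.x_inj _ (h3 k z hz))
  have h5 : α = β ^ n := Std.ext am (s.congr rfl h4 fun i t => by
    rw [s.sig_eq am (fun _ _ => rfl) i k, ← hn]) (Std.of_fld h (hf.pow n))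
  have := (hN.ord hα).eq_one_of_dvd (by rw [h5, ← ho]; exact orderOf_pow_dvd n)
  exact mem_bot.2 (orderOf_eq_one_iff.1 this)

end AD

end Cfsg.Agent.LB
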