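import Cfsg.Agent.LB.GS

/-! Graph involutions of type G2. -/

set_option autoImplicit false
set_option linter.unusedSectionVars false
set_option linter.unusedVariables false

namespace Cfsg.Agent.LB

open Subgroup Cfsg.Agent.H9.Chev

variable {G : Type*} [Group G] {Φ : Type} {l : ℕ} {F : Type*} [Field F]

namespace AD

variable {d : AD G Φ l F}

variable [Finite Φ]

theorem Ax.neg_of_sm (h : d.Ax) {L : List (Fin l)} (h1 : ∀ p, d.ww L (d.sm p) ∉ d.Pos (ht l)) :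
    ∀ r ∈ d.Pos (ht l), d.ww L r ∉ d.Pos (ht l) := fun r hr hw => by
  obtain ⟨W, hW⟩ := h.ww_lin L
  have h2 : ht l (d.rt (d.ww L r)) = ∑ i, d.rt r i * ht l (d.rt (d.ww L (d.sm i))) := by
    rw [hW, ← Finset.univ_sum_single (d.rt r), map_sum, map_sum, Finset.univ_sum_single]
    refine Finset.sum_congr rfl fun i _ => ?_
    rw [hW, h.rt_sm, ← smul_eq_mul, ← map_zsmul, ← map_zsmul, ← Pi.single_smul]; simp
  have h3 : ht l (d.rt (d.ww L r)) ≤ 0 :=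
    h2 ▸ Finset.sum_nonpos fun i _ => mul_nonpos_of_nonneg_of_nonpos (h.hpos r hr i) (not_lt.1 (h1 i))
  exact absurd hw (not_lt.2 h3)

theorem Std.conj_Uj (h : d.Ax) {π : Equiv.Perm (Fin l)} {c : Fin l → Fˣ} {σ : Fin l → F ≃+* F} {a : G}
    (s : d.Std π c σ a) (k : Fin l) {u : G} (hu : u ∈ d.US (d.Pos (ht l) \ {d.sm k})) :
    a * u * a⁻¹ ∈ d.US (d.Pos (ht l) \ {d.sm (π k)}) := by
  refine conj_US (fun r hr t => ?_) hu
  obtain ⟨r', h1⟩ := s.root h r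
  obtain ⟨t1, h2⟩ := h1 1
  obtain ⟨t', h3⟩ := h1 t
  have h4 : t1 ≠ 0 := by
    rintro rfl
    rw [h.x_zero, mul_inv_eq_one, mul_eq_left, ← h.x_zero r] at h2
    exact one_ne_zero (h.x_inj _ h2)
  rw [h3]
  refine x_mem_US (S := d.Pos (ht l) \ {d.sm (π k)}) ⟨h.pos_of_mem_U h4
    (h2 ▸ (mem_normalizer_iff.1 s.nU _).1 (x_mem_US hr.1 1)), ?_⟩ _
  rintro rfl
  obtain ⟨t2, h5⟩ := s.xp_surj k t1
  exact hr.2 (h.root_eq_of_x_eq one_ne_zero (by simpa using h2.trans h5.symm))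

section

variable [Finite G] [Finite F] (am : d.Amb) (r : ℕ) [Fact r.Prime] [CharP F r]
    (hr : r ≠ 2) {π : Equiv.Perm (Fin l)} (hπ : d.G2d π) {c : Fin l → Fˣ}
    {σ : Fin l → F ≃+* F} {β : G} (s : d.Std π c σ β) (h2 : β ^ 2 = 1)
include am r hr hπ s h2

theorem g2_B {N : Subgroup G} (hN : d.NH 2 β N) {m : G} (hm : m ∈ N ⊓ d.GH) : m ∈ d.B := by
  have h := am.ax
  by_contra hB
  obtain ⟨t, ht, L, hP, hc, -, hL⟩ := hN.step am s hm
  obtain ⟨j, r0, hr0, e0⟩ := h.exists_simple (hL hB)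
  have hω := fun r => (h.conj_x' ht L r).imp fun e he => And.intro he.1 fun c => (he.2 c).1
  have h1 : ∀ y, (t * d.nw L)⁻¹ * d.x (d.neg (d.sm j)) y * (t * d.nw L) ∈ d.U := fun y => by
    obtain ⟨e, he, h3⟩ := hω r0
    rw [← mul_inv_cancel_left₀ he y, ← e0, ← h3]
    simpa [mul_assoc] using x_mem_US (d := d) hr0 (e⁻¹ * y)
  have h3 : ∀ k y, (t * d.nw L)⁻¹ * d.x (d.neg (d.sm k)) y * (t * d.nw L) ∈ d.U := fun k y => by
    rcases hπ.two j k with rfl | rfl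
    · exact h1 y
    · have := (mem_normalizer_iff.1 s.nU _).1 (h1 ((σ j).symm (c j * y)))
      rw [← inv_inv (t * d.nw L), inv_inv, ← conj_swap (Commute.inv_left hc), s.xn] at this
      simpa using this
  have h4 := h.neg_of_sm (L := L.reverse) fun k hk => by
    obtain ⟨e, he, h5⟩ := hω (d.neg (d.ww L.reverse (d.sm k)))
    have := h3 k (e * 1)
    rw [h.ww_neg, h.ww_rev'] at h5
    rw [← h5] at this
    exact h.not_pos_neg hk (h.pos_of_mem_U one_ne_zero (by simpa [mul_assoc] using this))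
  have h5 : ∀ r ∈ d.Pos (H9.Chev.ht l), d.ww L r ∉ d.Pos (H9.Chev.ht l) := fun r hr hw =>
    h4 _ hw (by rwa [h.ww_rev])
  have h6 := h.del (L ++ L) fun r hr => by
    have := h.neg_pos (h5 _ (h.neg_pos (h5 r hr)))
    rwa [h.ww_neg, h.neg_neg, ← ww_append] at this
  have h7 := mem_of_pow_mem (hN.ord_PP h r Nat.prime_two hr.symm hP) (H := d.T) (by
    convert mul_mem (mul_mem ht (h.nw_T L ht)) h6 using 1
    rw [nw_append, sq]; group)
  exact hL hB ((mul_mem_cancel_left ht).1 h7)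

theorem g2_fix (i : Fin l) (t : F) : ∃ u ∈ d.U, u * β = β * u ∧
    (d.x (d.sm i) t)⁻¹ * u ∈ d.US (d.Pos (ht l) \ {d.sm i}) ∧ (t ≠ 0 → d.Reg u) := by
  have h := am.ax
  have ha : d.x (d.sm i) t ∈ d.US (d.Pos (ht l) \ {d.sm (π i)}) :=
    x_mem_US (S := d.Pos (ht l) \ {d.sm (π i)}) ⟨h.sm_pos i, fun e => hπ.nf i (h.sm_inj e).symm⟩ _
  have hb : β * d.x (d.sm i) t * β⁻¹ ∈ d.US (d.Pos (ht l) \ {d.sm i}) := by
    rw [s.xp]
    exact x_mem_US (S := d.Pos (ht l) \ {d.sm i}) ⟨h.sm_pos _, fun e => hπ.nf i (h.sm_inj e)⟩ _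
  have hb' := s.xp i t
  have ha' : d.x (d.sm i) t = d.x (d.sm i) t := rfl
  generalize hx : d.x (d.sm i) t = a at ha hb hb' ⊢
  have e1 : β * (β * a * β⁻¹) * β⁻¹ = a := by
    calc _ = β ^ 2 * a * (β ^ 2)⁻¹ := by rw [sq]; group
      _ = _ := by rw [h2]; group
  generalize hy : β * a * β⁻¹ = b at hb hb' e1
  have m : ∀ k, d.US (d.Pos (ht l) \ {d.sm k}) ≤ d.U := fun k => US_mono fun _ hx => hx.1
  have v1 : b⁻¹ * a⁻¹ * b * a ∈ d.US (d.Pos (ht l) \ {d.sm i}) := by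
    simpa [mul_assoc] using mul_mem (inv_mem hb) (h.norm_Uj i (inv_mem (m _ ha)) hb)
  have v2 : b⁻¹ * a⁻¹ * b * a ∈ d.US (d.Pos (ht l) \ {d.sm (π i)}) := by
    simpa [mul_assoc] using mul_mem (h.norm_Uj _ (inv_mem (m _ hb)) (inv_mem ha)) ha
  have v3 : β * (b⁻¹ * a⁻¹ * b * a) * β⁻¹ = (b⁻¹ * a⁻¹ * b * a)⁻¹ := by
    calc _ = (β * b * β⁻¹)⁻¹ * (β * a * β⁻¹)⁻¹ * (β * b * β⁻¹) * (β * a * β⁻¹) := by group
      _ = _ := by rw [e1, hy]; group
  have v4 : β * (a * b) * β⁻¹ = a * b * (b⁻¹ * a⁻¹ * b * a) := by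
    calc _ = (β * a * β⁻¹) * (β * b * β⁻¹) := by group
      _ = _ := by rw [e1, hy]; group
  generalize b⁻¹ * a⁻¹ * b * a = v at v1 v2 v3 v4
  obtain ⟨k, hk⟩ := h.U_pgroup r ⟨v, m _ v1⟩
  obtain ⟨n, hn⟩ := ((Fact.out : r.Prime).odd_of_ne_two hr).pow (n := k)
  have v5 : v ^ (2 * n + 1) = 1 := hn ▸ congrArg Subtype.val hk
  refine ⟨a * b * v ^ (n + 1), mul_mem (mul_mem (m _ ha) (m _ hb)) (pow_mem (m _ v1) _), ?_, ?_,
    fun h0 => ⟨mul_mem (mul_mem (m _ ha) (m _ hb)) (pow_mem (m _ v1) _), fun j hj => ?_⟩⟩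
  · symm
    rw [← mul_inv_eq_iff_eq_mul]
    calc _ = β * (a * b) * β⁻¹ * (β * v * β⁻¹) ^ (n + 1) * 1 := by rw [conj_pow]; group
      _ = _ := by rw [v3, v4, ← v5]; group
  · simpa [mul_assoc] using mul_mem hb (pow_mem v1 (n + 1))
  · rcases hπ.two i j with rfl | rfl
    · rw [mul_assoc, mul_mem_cancel_right (mul_mem hb (pow_mem v1 _)), ← hx] at hj
      exact h0 (h.x_mem_Uj hj)
    · rw [mul_mem_cancel_right (pow_mem v2 _), mul_mem_cancel_left ha, hb'] at hj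
      simpa [h0] using h.x_mem_Uj hj

end

theorem graph_g2 [Finite G] [Finite F] (am : d.Amb) (r : ℕ) [Fact r.Prime] [CharP F r]
    (hr : r ≠ 2) {π : Equiv.Perm (Fin l)} (hπ : d.G2d π) {c : Fin l → Fˣ}
    {σ : Fin l → F ≃+* F} {β : G} (s : d.Std π c σ β) (h2 : β ^ 2 = 1) {N : Subgroup G}
    (hN : d.NH 2 β N) : N = ⊥ := by
  have h := am.ax
  have h0 : ∀ m ∈ N ⊓ d.GH, m ∈ d.T := fun m hm => h.B_inf (g2_B am r hr hπ s h2 hN hm)
    (h.opp_B ▸ g2_B am.opp r hr hπ.opp (s.opp h) h2 (hN.opp h) (h.opp_GH ▸ hm))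
  obtain ⟨i, -, -⟩ := am.rk
  obtain ⟨u, hu, e1, -, hu'⟩ := g2_fix am r hr hπ s h2 i 1
  obtain ⟨v, hv, e2, -, hv'⟩ := g2_fix am.opp r hr hπ.opp (s.opp h) h2 i 1
  have h1 : ∀ m ∈ N ⊓ d.GH, m = 1 := fun m hm =>
    h.reg_T (hu' one_ne_zero) (h0 m hm) (hN.cent_T h h0 hm hu e1)
  refine (eq_bot_iff_forall _).2 fun α hα => ?_
  obtain ⟨π', c', σ', s'⟩ := am.st_std r
    (am.norm_of_reg r (hu' one_ne_zero) (hN.cent am h1 hα (U_le_K hu) e1))
    (h.opp_U ▸ am.opp.norm_of_reg r (hv' one_ne_zero) (hN.cent am h1 hα (V_le_K (h.opp_U ▸ hv)) e2))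
  obtain ⟨ρ, hρ⟩ := am.rho r
  have r1 : ρ α = π' := by simpa using hρ 1 (one_mem _) _ _ _ _ s'
  obtain rfl : π' = 1 := by
    have := mem_of_pow_mem (hN.ord hα) (H := ρ.ker) (by
      rw [MonoidHom.mem_ker, map_pow, r1, sq]
      ext1 k
      change π' (π' k) = k
      rcases hπ.two k (π' k) with e | e
      · rw [e, e]
      · rcases hπ.two k (π' (π' k)) with e' | e'
        · exact e'
        · exact absurd (e.symm.trans (π'.injective (e'.trans e.symm))) (hπ.nf k))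
    rw [← r1]; exact this
  have h3 : ∀ k t, (c' k : F) * σ' k t = t := fun k t => by
    obtain ⟨u, hu, e1, e3, -⟩ := g2_fix am r hr hπ s h2 k t
    have e4 := hN.cent am h1 hα (U_le_K hu) e1
    have h4 := mul_mem e3 (inv_mem (s'.conj_Uj h k e3))
    have h5 : (d.x (d.sm k) t)⁻¹ * u * (α * ((d.x (d.sm k) t)⁻¹ * u) * α⁻¹)⁻¹ =
        d.x (d.sm k) (-t + c' k * σ' k t) := by
      rw [h.x_add, ← h.x_inv, ← show _ = d.x (d.sm k) _ from s'.xp k t]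
      nth_rw 1 [← mul_inv_eq_iff_eq_mul.2 e4]
      group
    rw [h5] at h4
    linear_combination h.x_mem_Uj h4
  have h4 : ∀ k, c' k = 1 := fun k => Units.ext (by simpa using h3 k 1)
  rw [Std.ext am s' ((Std.of_D h 1).congr rfl (by simp [h4]) fun k t => by simpa [h4] using (h3 k t).symm),
    map_one]

end AD

end Cfsg.Agent.LB
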