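import Cfsg.Agent.LB.Cm

/-! Graph involutions of types E6 and D4. -/

set_option autoImplicit false
set_option linter.unusedSectionVars false
set_option linter.unusedVariables false

namespace Cfsg.Agent.LB

open Subgroup Cfsg.Agent.H9.Chev

variable {G : Type*} [Group G] {Φ : Type} {l : ℕ} {F : Type*} [Field F]

namespace AD

variable {d : AD G Φ l F}

theorem conj_swap {a b : G} (hc : Commute a b) (y : G) :
    a * (b * y * b⁻¹) * a⁻¹ = b * (a * y * a⁻¹) * b⁻¹ := by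
  calc _ = a * b * y * (a * b)⁻¹ := by group
    _ = _ := by rw [hc.eq]; group

theorem Bf_comm (hs : ∀ i k, d.A i k = d.A k i) (v v' : Fin l → ℤ) : d.Bf v v' = d.Bf v' v := by
  change ∑ i, v i * ∑ j, d.A i j * v' j = ∑ i, v' i * ∑ j, d.A i j * v j
  simp only [Finset.mul_sum]
  rw [Finset.sum_comm]
  exact Finset.sum_congr rfl fun i _ => Finset.sum_congr rfl fun j _ => by rw [hs]; ring

theorem Bf_single (k : Fin l) (v : Fin l → ℤ) : d.Bf (Pi.single k 1) v = d.pr k v := by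
  rw [Bf, Finset.sum_eq_single k] <;> simp +contextual [Pi.single_apply]

theorem Bf_add (u v w : Fin l → ℤ) : d.Bf (u + v) w = d.Bf u w + d.Bf v w := by
  simp [Bf, add_mul, Finset.sum_add_distrib]

theorem Bf_smul (a : ℤ) (v w : Fin l → ℤ) : d.Bf (a • v) w = a * d.Bf v w := by
  simp [Bf, Finset.mul_sum, mul_assoc]

theorem Bf_W (h : d.Ax) (hs : ∀ i k, d.A i k = d.A k i) (p : Fin l) (v v' : Fin l → ℤ) :
    d.Bf (d.W p v) (d.W p v') = d.Bf v v' := by
  have e : ∀ u w, d.Bf (d.W p u) w = d.Bf u w - d.pr p u * d.pr p w := fun u w => by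
    rw [W_apply, sub_eq_add_neg, ← neg_smul, Bf_add, Bf_smul, Bf_single]; ring
  rw [e, Bf_comm hs, e, Bf_comm hs, W_apply, map_sub, map_zsmul, h.pr_single, smul_eq_mul]; ring

variable [Finite Φ]

theorem Bf_ww (h : d.Ax) (hs : ∀ i k, d.A i k = d.A k i) (L : List (Fin l)) (r s : Φ) :
    d.Bf (d.rt (d.ww L r)) (d.rt (d.ww L s)) = d.Bf (d.rt r) (d.rt s) := by
  rw [h.rt_ww, h.rt_ww, WL_inv (Bf_W h hs)]

theorem Bf_self (h : d.Ax) (hs : ∀ i k, d.A i k = d.A k i) (r : Φ) : d.Bf (d.rt r) (d.rt r) = 2 :=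
  h.reach (fun r => d.Bf (d.rt r) (d.rt r) = 2) (fun p => by rw [h.rt_sm, Bf_single, h.pr_single])
    (fun p r ih => by rw [h.rt_w, Bf_W h hs, ih]) r

theorem comm_of_Bf (h : d.Ax) (hs : ∀ i k, d.A i k = d.A k i) {r s : Φ}
    (e : d.Bf (d.rt r) (d.rt s) = 0) : s ≠ r ∧ ∀ t u, Commute (d.x r t) (d.x s u) := by
  have h1 : s ≠ r := by rintro rfl; rw [Bf_self h hs] at e; omega
  refine ⟨h1, h.comm_of_sum2 h1 ?_ (Set.eq_empty_of_forall_notMem ?_)⟩
  · rintro rfl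
    rw [Bf_comm hs, h.rt_neg, ← neg_one_smul ℤ, Bf_smul, Bf_self h hs] at e; omega
  · rintro k ⟨i, j, hi, hj, e1⟩
    have := Bf_self h hs k
    rw [e1, ← natCast_zsmul, ← natCast_zsmul, Bf_add, Bf_smul, Bf_smul, Bf_comm hs (d.rt r),
      Bf_comm hs (d.rt s), Bf_add, Bf_add, Bf_smul, Bf_smul, Bf_smul, Bf_smul, Bf_self h hs,
      Bf_self h hs, e, Bf_comm hs (d.rt s), e] at this
    have : (1 : ℤ) ≤ i := by exact_mod_cast hi
    have : (1 : ℤ) ≤ j := by exact_mod_cast hj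
    nlinarith

theorem neg_one_zpow_inj (h2 : (2 : F) ≠ 0) {a b : ℤ} (e : (-1 : F) ^ a = (-1) ^ b) : Even (a - b) := by
  have h1 : (-1 : F) ≠ 1 := fun e => h2 (by linear_combination -e)
  rcases Int.even_or_odd a with ha | ha <;> rcases Int.even_or_odd b with hb | hb <;>
    simp only [ha.neg_one_zpow, hb.neg_one_zpow] at e
  · exact ha.sub hb
  · exact absurd e.symm h1
  · exact absurd e h1
  · exact ha.sub_odd hb

theorem fix_of_odd (h : d.Ax) {ν : G} {ω : Φ → Φ}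
    (hω : ∀ r, ∃ e : F, e ≠ 0 ∧ ∀ c, ν * d.x r c * ν⁻¹ = d.x (ω r) (e * c)) {n : ℕ}
    (hn : (orderOf ν).Coprime n) {r : Φ} (e : ω^[n] r = r) : ω r = r := by
  have h1 : ∀ k : ℕ, ∃ e : F, e ≠ 0 ∧ ν ^ k * d.x r 1 * (ν ^ k)⁻¹ = d.x (ω^[k] r) e := fun k => by
    induction k with
    | zero => exact ⟨1, one_ne_zero, by simp⟩
    | succ k ih =>
      obtain ⟨e, h0, h1⟩ := ih
      obtain ⟨e', h0', h2⟩ := hω (ω^[k] r)
      exact ⟨e' * e, mul_ne_zero h0' h0, by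
        rw [Function.iterate_succ_apply', ← h2, ← h1, pow_succ']; group⟩
  obtain ⟨e', -, h2⟩ := h1 (orderOf ν)
  rw [pow_orderOf_eq_one, one_mul, inv_one, mul_one] at h2
  have := Function.IsPeriodicPt.gcd (f := ω) (x := r) (h.root_eq_of_x_eq one_ne_zero h2).symm e
  rwa [hn] at this

section

variable [Finite G] [Finite F] (am : d.Amb) (r : ℕ) [Fact r.Prime] [CharP F r]
    (hr : r ≠ 2) {π : Equiv.Perm (Fin l)} (hπ : d.SLd π) {c : Fin l → Fˣ}
    {σ : Fin l → F ≃+* F} {β : G} (s : d.Std π c σ β) (h2 : β ^ 2 = 1) {N : Subgroup G}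
    (hN : d.NH 2 β N)

theorem two_ne (r : ℕ) [Fact r.Prime] [CharP F r] (hr : r ≠ 2) : (2 : F) ≠ 0 := fun e =>
  hr ((Nat.prime_dvd_prime_iff_eq Fact.out Nat.prime_two).1
    ((CharP.cast_eq_zero_iff F r 2).1 (by simpa using e)))

omit [Finite Φ] in
theorem tr_comm {β y : G} (h2 : β ^ 2 = 1) (h1 : Commute y (β * y * β⁻¹)) :
    y * (β * y * β⁻¹) * β = β * (y * (β * y * β⁻¹)) := by
  rw [h1.eq]
  calc _ = β * y * β⁻¹ * (β ^ 2 * y * (β ^ 2)⁻¹) * β := by rw [h2]; group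
    _ = _ := by rw [← h1.eq]; group

include am r hr hπ s h2 hN

theorem sl_B {m : G} (hm : m ∈ N ⊓ d.GH) : m ∈ d.B := by
  have h := am.ax
  by_contra hB
  obtain ⟨t, ht, L, hP, hc, -, hL⟩ := hN.step am s hm
  obtain ⟨j, r0, hr0, e0⟩ := h.exists_simple (hL hB)
  have od := fun g hg => hN.ord_PP h r Nat.prime_two hr.symm (g := g) hg
  have hω := fun r => (h.conj_x' ht L r).imp fun e he => And.intro he.1 fun c => (he.2 c).1
  have hT : ∀ y ∈ d.T, t * d.nw L * y * (t * d.nw L)⁻¹ ∈ d.T := fun y hy => by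
    simpa [mul_assoc] using mul_mem (mul_mem ht (h.nw_T L hy)) (inv_mem ht)
  generalize t * d.nw L = ν at hP hc hω hT
  replace hc : Commute ν β := hc
  have cU := fun y (hy : y ∈ d.U) => (mem_normalizer_iff.1 s.nU y).1 hy
  by_cases hj : π j = j
  swap
  · have hA := hπ.orth j hj
    have c1 : ∀ a b, Commute (d.x (d.sm j) a) (β * d.x (d.sm j) b * β⁻¹) := fun a b => by
      rw [s.xp]; exact h.comm_sm hA _ _
    have c2 : ∀ a b, Commute (d.x (d.sm j) a) (β * d.x (d.neg (d.sm j)) b * β⁻¹) := fun a b => by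
      rw [s.xn]; exact h.comm_sm_neg (Ne.symm hj) _ _
    have c3 : ∀ a b, Commute (d.x (d.neg (d.sm j)) a) (β * d.x (d.sm j) b * β⁻¹) := fun a b => by
      rw [s.xp]; exact (h.comm_sm_neg hj _ _).symm
    have c4 : ∀ a b, Commute (d.x (d.neg (d.sm j)) a) (β * d.x (d.neg (d.sm j)) b * β⁻¹) :=
      fun a b => by rw [s.xn]; exact h.comm_neg hA _ _
    have e1 : β * d.n j * β⁻¹ = (β * d.x (d.sm j) 1 * β⁻¹) * (β * d.x (d.neg (d.sm j)) (-1) * β⁻¹) *
        (β * d.x (d.sm j) 1 * β⁻¹) := by rw [h.n_def]; group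
    have c5 : Commute (d.x (d.sm j) 1) (β * d.n j * β⁻¹) := by
      rw [e1]; exact ((c1 _ _).mul_right (c2 _ _)).mul_right (c1 _ _)
    have c6 : Commute (d.n j) (β * d.n j * β⁻¹) := by
      nth_rw 1 [h.n_def]
      exact (c5.mul_left (by
        rw [e1]; exact ((c3 _ _).mul_right (c4 _ _)).mul_right (c3 _ _))).mul_left c5
    have p1 := mem_PP_U (N := N) (mul_mem (x_mem_US (h.sm_pos j) 1) (cU _ (x_mem_US (h.sm_pos j) 1)))
      (tr_comm h2 (c1 1 1))
    have p2 : d.x (d.neg (d.sm j)) (-1) * (β * d.x (d.neg (d.sm j)) (-1) * β⁻¹) ∈ d.PP β N := by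
      obtain ⟨e, he, h3⟩ := hω r0
      have h4 := h3 (e⁻¹ * -1)
      rw [e0, mul_inv_cancel_left₀ he] at h4
      have h5 := x_mem_US (d := d) hr0 (e⁻¹ * -1)
      have h6 : Commute (d.x (d.neg (d.sm j)) (-1) * (β * d.x (d.neg (d.sm j)) (-1) * β⁻¹)) β :=
        tr_comm h2 (c4 _ _)
      have h7 : ν⁻¹ * (d.x (d.neg (d.sm j)) (-1) * (β * d.x (d.neg (d.sm j)) (-1) * β⁻¹)) * ν ∈ d.U := by
        convert mul_mem h5 (cU _ h5) using 1
        rw [← h4, ← conj_swap hc]; group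
      simpa [mul_assoc] using mul_mem (mul_mem hP (mem_PP_U (N := N) h7
        ((hc.inv_left.mul_left h6).mul_left hc).eq)) (inv_mem hP)
    have p3 : d.n j * (β * d.n j * β⁻¹) ∈ d.PP β N := by
      convert mul_mem (mul_mem p1 p2) p1 using 1
      have d1 := c1 1 1
      have d2 := c2 1 (-1)
      have d3 := c3 (-1) 1
      rw [e1, h.n_def]
      generalize β * d.x (d.sm j) 1 * β⁻¹ = b1 at d1 d3
      generalize β * d.x (d.neg (d.sm j)) (-1) * β⁻¹ = b2 at d2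
      simp only [mul_assoc]
      rw [d1.left_comm, d2.left_comm, d3.left_comm]
    have p4 := mem_of_pow_mem (od _ p3) (H := d.T) (by
      rw [c6.mul_pow, conj_pow, sq]; exact mul_mem (h.n_sq j) (s.T_conj am (h.n_sq j)))
    have p5 := h.T_conj p4 (x_mem_US (h.sm_pos j) 1)
    rw [mul_assoc (d.n j), ← c5.eq, mul_inv_rev, mul_assoc, mul_assoc, mul_inv_cancel_left, ← mul_assoc,
      h.n_x] at p5
    exact h.not_pos_neg (h.sm_pos j) (h.pos_of_mem_U (by simp) p5)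
  -- fixed node
  have b1 : Commute (d.hh j (-1)) β := by
    have := s.hh_conj h j (-1)
    rw [hj, show Units.map (σ j : F →* F) (-1) = -1 from Units.ext (by simp)] at this
    exact (mul_inv_eq_iff_eq_mul.1 this).symm
  have b2 : d.hh j (-1) * d.hh j (-1) = 1 := by rw [← hh_mul]; simp [hh_one]
  have b3 : Commute (d.hh j (-1)) ν := by
    have q1 := od _ (mul_mem (hN.conj_PP (h.hh_mem_K j (-1)) b1.eq
      (h.B_norm (mem_sup_right (hh_mem_T j (-1)))) hP) (inv_mem hP))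
    have q2 : Commute (d.hh j (-1)) (ν * (d.hh j (-1))⁻¹ * ν⁻¹) :=
      T_comm _ (hh_mem_T _ _) _ (hT _ (inv_mem (hh_mem_T _ _)))
    have := mem_of_pow_mem q1 (H := ⊥) (by
      rw [mul_assoc, mul_assoc, ← mul_assoc ν, q2.mul_pow, conj_pow, inv_pow, sq, b2]; simp)
    rw [mem_bot, mul_inv_eq_one, mul_inv_eq_iff_eq_mul] at this
    exact this
  have b4 : ∀ δ, Even (d.pr j (d.rt (d.ww L δ)) - d.pr j (d.rt δ)) := fun δ => by
    obtain ⟨e, he, h3⟩ := hω δ
    refine neg_one_zpow_inj (two_ne r hr) (mul_right_cancel₀ he (h.x_inj (d.ww L δ) ?_))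
    have h4 := h.hh_conj j (-1) (d.ww L δ) (e * 1)
    have h5 := h.hh_conj j (-1) δ 1
    simp only [Units.val_neg, Units.val_one, mul_one] at h4 h5
    rw [← h4, mul_comm _ e, ← h3, ← h5, ← mul_one e, ← h3, conj_swap b3]
  obtain ⟨γ, hγ⟩ := hπ.frame j hj
  let S : Φ → Prop := fun δ => (∀ i, d.rt δ (π i) = d.rt δ i) ∧ ∀ k, Even (d.pr k (d.rt δ) - d.A k j)
  have s1 : ∀ δ, S δ → S (d.ww L δ) := fun δ hδ => by
    constructor
    · obtain ⟨δ1, h3, h4⟩ := s.lin h hπ.inv δ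
      obtain ⟨δ2, h5, h6⟩ := s.lin h hπ.inv (d.ww L δ)
      obtain rfl : δ1 = δ := h.rt_inj (funext fun i => by
        obtain ⟨i, rfl⟩ := π.surjective i; rw [h3, hδ.1])
      obtain ⟨e, he, h7⟩ := hω δ1
      obtain ⟨t1, h8⟩ := h4 1
      obtain ⟨t2, h9⟩ := h6 (e * 1)
      have h10 : d.x (d.ww L δ1) (e * t1) = d.x δ2 t2 := by
        rw [← h9, ← h7, ← h7, ← h8, conj_swap hc]
      have h11 : t1 ≠ 0 := by
        rintro rfl
        rw [h.x_zero, mul_inv_eq_one, mul_eq_left, ← h.x_zero δ1] at h8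
        exact one_ne_zero (h.x_inj _ h8)
      rw [← h.root_eq_of_x_eq (mul_ne_zero he h11) h10] at h5
      exact h5
    · intro k
      have h3 := b4 (d.ww L.reverse (d.sm k))
      rw [h.ww_rev', h.pr_sm, hπ.sym] at h3
      have h4 : Even (d.Bf (d.rt (d.ww L.reverse (d.sm k))) (d.rt δ) -
          d.pr j (d.rt (d.ww L.reverse (d.sm k)))) := by
        rw [← Bf_single j, Bf_comm hπ.sym (Pi.single j 1), Bf, Bf, ← Finset.sum_sub_distrib]
        refine Finset.even_sum _ fun i _ => ?_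
        rw [← mul_sub, ← h.rt_sm, h.pr_sm]
        exact (hδ.2 i).mul_left _
      rw [← Bf_ww h hπ.sym L, h.ww_rev', h.rt_sm, Bf_single] at h4
      simpa using h4.sub h3
  have s0 : S (d.sm j) := ⟨fun i => by
    have : π i = j ↔ i = j := by nth_rw 1 [← hj]; exact π.injective.eq_iff
    simp only [h.rt_sm, Pi.single_apply, this], fun k => by simp [h.pr_sm]⟩
  have s2 : d.ww L (d.sm j) ≠ d.sm j := fun e => by
    have : r0 = d.neg (d.sm j) := h.ww_inj L (by rw [e0, h.ww_neg, e])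
    exact h.not_pos_neg (h.sm_pos j) (this ▸ hr0)
  refine s2 (fix_of_odd h hω ((od ν hP).pow_right 2) ?_)
  change d.ww L (d.ww L (d.ww L (d.ww L (d.sm j)))) = d.sm j
  have i1 := h.ww_inj L
  have n1 := h.ww_neg L
  have n2 := h.neg_neg
  have s3 := hγ _ (s1 _ s0).1 (s1 _ s0).2
  have s4 := hγ _ (s1 _ (s1 _ s0)).1 (s1 _ (s1 _ s0)).2
  have s5 : d.ww L (d.ww L (d.sm j)) = d.sm j ∨ d.ww L (d.ww L (d.sm j)) = d.neg (d.sm j) := by
    by_cases s6 : d.ww L (d.sm j) = d.neg (d.sm j)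
    · left; rw [s6, n1, s6, n2]
    rcases s4 with e | e | e | e
    · exact Or.inl e
    · exact Or.inr e
    all_goals rcases s3 with e' | e' | e' | e'
    · exact absurd e' s2
    · exact absurd e' s6
    · exact absurd (i1 (e.trans e'.symm)) s2
    · exact absurd (i1 (by rw [e, n1, e', n2])) s6
    · exact absurd e' s2
    · exact absurd e' s6
    · exact absurd (i1 (by rw [e, n1, e'])) s6
    · exact absurd (i1 (e.trans e'.symm)) s2
  rcases s5 with e | e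
  · rw [e, e]
  · rw [e, n1, n1, e, n2]

theorem sl_M {m : G} (hm : m ∈ N ⊓ d.GH) : m = 1 := by
  have h := am.ax
  have h0 : ∀ m ∈ N ⊓ d.GH, m ∈ d.T := fun m hm => h.B_inf (sl_B am r hr hπ s h2 hN hm)
    (h.opp_B ▸ sl_B am.opp r hr hπ.opp (s.opp h) h2 (hN.opp h) (h.opp_GH ▸ hm))
  obtain ⟨χ, rfl⟩ := h0 m hm
  have h1 : ∀ γ, d.NF π γ → χ (d.rt γ) = 1 := by
    rintro γ ⟨hγ, γ', h3, h4⟩
    obtain ⟨δ, h5, h6⟩ := s.lin h hπ.inv γ
    obtain rfl : δ = γ' := h.rt_inj (funext fun i => by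
      obtain ⟨i, rfl⟩ := π.surjective i; rw [h3, h5])
    obtain ⟨t, h7⟩ := h6 1
    obtain ⟨h8, h9⟩ := comm_of_Bf h hπ.sym h4
    have h10 := hN.cent_T h h0 hm (mul_mem (x_mem_US hγ 1)
      ((mem_normalizer_iff.1 s.nU _).1 (x_mem_US hγ 1))) (tr_comm h2 (h7 ▸ h9 1 t))
    rw [h7, ← mul_assoc, h.D_x, mul_assoc, h.D_x, ← mul_assoc, mul_left_inj, mul_one] at h10
    by_contra hne
    refine h8 (h.root_eq_of_x_eq (t := -1 + χ (d.rt γ)) (u := t + -(χ (d.rt δ) * t))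
      (fun e => hne (Units.ext (by simp only [Units.val_one]; linear_combination e))) ?_).symm
    rw [h.x_add, h.x_add, ← h.x_inv, ← h.x_inv, inv_mul_eq_iff_eq_mul, ← mul_assoc, ← h10]; group
  rw [char_ext (χ := χ) fun a => ?_, map_one]
  obtain ⟨γ, h3, rfl | ⟨δ, h4, h5⟩⟩ := hπ.span a
  · rw [← h.rt_sm, h1 _ h3]
  · have := h1 _ h3
    rwa [h5, AddChar.map_add_eq_mul, h1 _ h4, one_mul] at this

end

theorem graph_sl [Finite G] [Finite F] (am : d.Amb) (r : ℕ) [Fact r.Prime] [CharP F r]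
    (hr : r ≠ 2) {π : Equiv.Perm (Fin l)} (hπ : d.SLd π) {c : Fin l → Fˣ}
    {σ : Fin l → F ≃+* F} {β : G} (s : d.Std π c σ β) (h2 : β ^ 2 = 1) {N : Subgroup G}
    (hN : d.NH 2 β N) : N = ⊥ := by
  have h := am.ax
  have h0 := fun m hm => sl_M am r hr hπ s h2 hN (m := m) hm
  refine (eq_bot_iff_forall _).2 fun α hα => h0 α (mem_inf.2 ⟨hα, ?_⟩)
  have od := hN.ord hα
  obtain ⟨k, hk, π', c', σ', a, s', e⟩ := am.steinberg r α
  obtain ⟨ρ, hρ⟩ := am.rho r
  have r1 : ρ α = π' := e ▸ hρ k (mem_sup_left hk) _ _ _ _ s'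
  have r2 : ρ β = π := by simpa using hρ 1 (one_mem _) _ _ _ _ s
  obtain rfl : π' = 1 := by
    have := mem_of_pow_mem od (H := ρ.ker) (by
      rw [MonoidHom.mem_ker, map_pow, r1, sq]
      exact hπ.cen _ (s'.graph h) (by rw [← r1, ← r2, ← map_mul, ← map_mul, hN.comm α hα]))
    rw [← r1]; exact this
  obtain ⟨t, ht, τ, f, hf, rfl, -⟩ := s'.eq_T_fld am
  have hg : k * t ∈ d.GH := mul_mem (mem_sup_left hk) (mem_sup_right ht)
  rw [← mul_assoc] at e
  generalize k * t = g at e hg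
  suffices τ = 1 by
    subst this
    rwa [e, hf.eq_one am, mul_one]
  haveI := am.GH_normal r
  have t1 : τ ^ orderOf α = 1 := (hf.pow _).of_mem_GH am (by
    rw [← QuotientGroup.eq_one_iff, QuotientGroup.mk_pow,
      show (f : G ⧸ d.GH) = α by rw [e, QuotientGroup.mk_mul, (QuotientGroup.eq_one_iff g).2 hg, one_mul],
      ← QuotientGroup.mk_pow, pow_orderOf_eq_one, QuotientGroup.mk_one])
  obtain ⟨j, hj⟩ := hπ.fixe
  obtain ⟨i, hi, hij⟩ := hπ.fixn j hj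
  have hA := hπ.fix2 j i hj hi hij.symm
  have t2 : σ j ^ 2 = 1 := by
    have h3 := s.mul s
    rw [← sq β, h2, ← map_one d.D] at h3
    have := congrFun (h3.uniq h (Std.of_D h 1)).2.2 j
    rw [hj] at this
    exact this
  obtain ⟨L, _, _, _, _, _, _, _, hL⟩ := h.fuse hg
  obtain ⟨ε, hε, h3⟩ := h.conj_x' (one_mem _) L (d.ww L.reverse (d.sm i))
  simp only [one_mul, h.ww_rev'] at h3
  have t3 : ∀ z : F, z ≠ 0 → σ j z = z → z⁻¹ = τ z ^ d.pr j (d.rt (d.ww L.reverse (d.sm i))) := by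
    intro z h4 h5
    obtain ⟨z, rfl⟩ : ∃ y : Fˣ, (y : F) = z := ⟨Units.mk0 z h4, rfl⟩
    have h6 := s.hh_conj h j z
    rw [hj, show Units.map (σ j : F →* F) z = z from Units.ext h5] at h6
    have h7 := hN.cent am h0 hα (h.hh_mem_K j z) (mul_inv_eq_iff_eq_mul.1 h6).symm
    have h8 := (Std.of_fld h hf).hh_conj h j z
    have h9 : g * d.hh j (Units.map (τ : F →* F) z) * g⁻¹ = d.hh j z := by
      rw [← mul_inv_eq_iff_eq_mul.2 h7, e]
      exact (congrArg (fun y => g * y * g⁻¹) h8).symm.trans (by group)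
    have h10 := (hL _ (hh_mem_T _ _) (h9 ▸ hh_mem_T _ _)).1
    rw [h9] at h10
    have h11 := h.hh_conj j z (d.sm i) (ε * 1)
    rw [h.pr_sm, hA, h10, ← (h3 1).1, show ∀ n y w : G, n * y * n⁻¹ * (n * w * n⁻¹) * (n * y * n⁻¹)⁻¹ =
      n * (y * w * y⁻¹) * n⁻¹ from fun n y w => by group, h.hh_conj, (h3 _).1] at h11
    have := h.x_inj _ h11
    simp only [mul_one, zpow_neg, zpow_one, Units.coe_map, MonoidHom.coe_coe] at this
    exact mul_left_cancel₀ hε (by rw [this, mul_comm])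
  have t4 : ∀ z, σ j z = z → τ (τ z) = z := fun z hz => by
    by_cases h4 : z = 0
    · simp [h4]
    have h5 := t3 z h4 hz
    have h6 := t3 (-1) (by simp) (by simp)
    have h7 := hπ.bnd j (d.ww L.reverse (d.sm i))
    generalize d.pr j (d.rt (d.ww L.reverse (d.sm i))) = κ at h5 h6 h7
    have h8 := neg_one_zpow_inj (two_ne r hr) (a := 1) (b := κ) (by simpa using h6)
    obtain rfl | rfl : κ = 1 ∨ κ = -1 := by obtain ⟨m, hm⟩ := h8; omega
    · rw [zpow_one] at h5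
      rw [← h5, map_inv₀, ← h5, inv_inv]
    · rw [zpow_neg_one, inv_inj] at h5
      rw [← h5, ← h5]
  have od' : (orderOf τ).Coprime 2 := od.coprime_dvd_left (orderOf_dvd_of_pow_eq_one t1)
  have t5 : τ ^ 2 ∈ zpowers (σ j) := mem_zpowers_of_fix t4
  obtain ⟨n, hn⟩ := mem_of_pow_mem od' t5
  exact mem_of_pow_mem od' (H := ⊥) (by
    rw [mem_bot, ← hn]
    change (σ j ^ n) ^ 2 = 1
    rw [← zpow_natCast, ← zpow_mul, mul_comm, zpow_mul, zpow_natCast, t2, one_zpow])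

end AD

end Cfsg.Agent.LB
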