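import Cfsg.Agent.LB.A3

/-! Steinberg's theorem on automorphisms, abstract form. -/

set_option autoImplicit false
set_option linter.unusedSectionVars false
set_option linter.unusedVariables false

namespace Cfsg.Agent.LB

open Subgroup Cfsg.Agent.H9.Chev

variable {G : Type*} [Group G] {Φ : Type} {l : ℕ} {F : Type*} [Field F]

namespace AD

variable {d : AD G Φ l F}

variable [Finite Φ] {π : Equiv.Perm (Fin l)} {c : Fin l → Fˣ} {σ : Fin l → F ≃+* F} {a : G}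

theorem hh_mul (p : Fin l) (y z : Fˣ) : d.hh p (y * z) = d.hh p y * d.hh p z := by
  rw [hh, hh, hh, ← map_mul]; congr 1; ext v; simp [pc_apply, mul_zpow]

theorem hh_one (p : Fin l) : d.hh p 1 = 1 := by
  have := hh_mul (d := d) p 1 1
  rw [mul_one] at this; exact left_eq_mul.1 this

theorem hh_inv (p : Fin l) (y : Fˣ) : d.hh p y⁻¹ = (d.hh p y)⁻¹ := by
  rw [eq_inv_iff_mul_eq_one, ← hh_mul, inv_mul_cancel, hh_one]

theorem hh_mem_T (p : Fin l) (y : Fˣ) : d.hh p y ∈ d.T := D_mem _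

theorem exists_char (v : Fin l → Fˣ) :
    ∃ χ : AddChar (Fin l → ℤ) Fˣ, ∀ i, χ (Pi.single i 1) = v i := by
  refine ⟨∏ j, pc (co j) (v j), fun i => ?_⟩
  rw [AddChar.prod_apply, Finset.prod_eq_single i] <;> simp +contextual [pc_apply, co, Pi.single_apply]

namespace Ax

variable (h : d.Ax)
include h

theorem hh_conj (p : Fin l) (y : Fˣ) (r : Φ) (t : F) :
    d.hh p y * d.x r t * (d.hh p y)⁻¹ = d.x r ((y : F) ^ d.pr p (d.rt r) * t) := by
  rw [hh, h.D_conj, pc_apply, Units.val_zpow_eq_zpow_val]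

theorem hh_n (p : Fin l) (z : Fˣ) : d.hh p z * d.n p =
    d.x (d.sm p) z * d.x (d.neg (d.sm p)) (-(z : F)⁻¹) * d.x (d.sm p) z := (h.n_gen p z).symm

theorem conj_x' {t : G} (ht : t ∈ d.T) (L : List (Fin l)) (r : Φ) : ∃ e : F, e ≠ 0 ∧ ∀ c,
    t * d.nw L * d.x r c * (t * d.nw L)⁻¹ = d.x (d.ww L r) (e * c) ∧
    t * d.nw L * d.x (d.neg r) c * (t * d.nw L)⁻¹ = d.x (d.neg (d.ww L r)) (e⁻¹ * c) := by
  obtain ⟨χ, rfl⟩ := ht
  obtain ⟨ε, hε, H⟩ := h.nw_conj L r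
  refine ⟨χ (d.rt (d.ww L r)) * ε, mul_ne_zero (Units.ne_zero _) ?_, fun c => ⟨?_, ?_⟩⟩
  · rcases hε with rfl | rfl <;> simp
  · rw [mul_inv_eq_iff_eq_mul, mul_assoc, (H c).1, ← mul_assoc, h.D_x, mul_assoc, mul_assoc]
  · rw [mul_inv_eq_iff_eq_mul, mul_assoc, (H c).2, ← mul_assoc, h.D_x, mul_assoc, h.rt_neg,
      AddChar.map_neg_eq_inv]
    congr 2
    rcases hε with rfl | rfl <;> simp [inv_neg]

theorem A_eq_zero {i k : Fin l} (hik : i ≠ k) (e : ∀ t u, Commute (d.x (d.sm i) t) (d.x (d.sm k) u)) :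
    d.A i k = 0 := by
  have h1 : Commute (d.n i) (d.x (d.sm k) 1) := by
    rw [h.n_def]
    exact ((e _ _).mul_left (h.comm_sm_neg hik.symm _ _).symm).mul_left (e _ _)
  obtain ⟨ε, -, h2⟩ := h.n_conj i (d.sm k)
  have h3 := h.root_eq_of_x_eq one_ne_zero (mul_right_cancel (h1.eq.symm.trans (h2 1).1))
  have h4 := congrFun (congrArg d.rt h3) i
  rw [h.rt_w, W_apply, h.pr_sm] at h4
  simp only [Pi.sub_apply, Pi.smul_apply, Pi.single_eq_same, smul_eq_mul, mul_one] at h4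
  omega

theorem T_norm_V {t : G} (ht : t ∈ d.T) : t ∈ normalizer (d.V : Set G) :=
  h.opp_U ▸ h.opp_ax.B_norm (mem_sup_right (opp_T (d := d) ▸ ht))

theorem V_T {u : G} (h1 : u ∈ d.V) (h2 : u ∈ d.T) : u = 1 :=
  h.opp_ax.U_T (h.opp_U ▸ h1) (opp_T (d := d) ▸ h2)

theorem B_V {u : G} (h1 : u ∈ d.B) (h2 : u ∈ d.V) : u = 1 := h.V_T h2 (h.B_inf h1 (mem_sup_left h2))

theorem mem_T_of_norm {g : G} (hg : g ∈ d.GH) (h1 : g ∈ normalizer (d.U : Set G))
    (h2 : g ∈ normalizer (d.V : Set G)) : g ∈ d.T :=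
  h.B_inf (h.norm_U hg h1) (h.opp_B ▸ h.opp_ax.norm_U (h.opp_GH ▸ hg) (h.opp_U ▸ h2))

theorem tn_ne (j : Fin l) {t v u : G} (ht : t ∈ d.T) (hv : v ∈ d.V) (hu : u ∈ d.U) :
    t * d.n j ≠ v * u := fun e => by
  have hD := D_mem (d := d) (pc (d.pr j) (-1))
  refine h.n_not_mem j (h.T_conj (inv_mem hD) (inv_mem hu)) (mul_mem (inv_mem hD) ht)
    (h.T_conj (inv_mem ht) (inv_mem hv)) ?_
  rw [← inv_mul_eq_iff_eq_mul.2 (h.n_inv j), ← inv_mul_eq_iff_eq_mul.2 e.symm]; group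

theorem QV (i : Fin l) {v : G} (h1 : v ∈ d.U ⊔ d.US {d.neg (d.sm i)}) (h2 : v ∈ d.V) :
    ∃ t, v = d.x (d.neg (d.sm i)) t := by
  let P : G → Prop := fun g => d.Cell [] g ∨ d.Cell [i] g
  have pU : ∀ u ∈ d.U, ∀ y, P y → P (u * y) := fun u hu y hy => hy.imp (h.cell_U hu) (h.cell_U hu)
  have pT : ∀ u ∈ d.T, ∀ y, P y → P (u * y) := fun u hu y hy => hy.imp (h.cell_T hu) (h.cell_T hu)
  have pn : ∀ y, P y → P (d.n i * y) := by
    rintro y (hy | hy)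
    · exact (h.cell_n i hy).elim Or.inr fun h' => Or.inl h'.1
    · refine (h.cell_n i hy).elim (fun ⟨u, hu, t, ht, u', hu', e⟩ => Or.inl
        ⟨u, hu, _, mul_mem ht (h.n_sq i), u', hu', by rw [e]; simp [nw, mul_assoc]⟩) fun h' => Or.inr h'.1
  have px : ∀ t y, P y → P (d.x (d.neg (d.sm i)) t * y) := fun t y hy => by
    have := pn _ (pU _ (x_mem_US (h.sm_pos i) (-t)) _ (pT _ (D_mem (pc (d.pr i) (-1))) _ (pn y hy)))
    rwa [← mul_assoc (d.D _), ← h.n_inv, ← mul_assoc, ← mul_assoc, h.n_x, _root_.neg_neg] at this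
  let H : Subgroup G :=
    { carrier := {g | (∀ y, P y → P (g * y)) ∧ ∀ y, P y → P (g⁻¹ * y)}
      one_mem' := by simp
      mul_mem' := fun {a b} ha hb => ⟨fun y hy => by rw [mul_assoc]; exact ha.1 _ (hb.1 y hy),
        fun y hy => by rw [mul_inv_rev, mul_assoc]; exact hb.2 _ (ha.2 y hy)⟩
      inv_mem' := fun {a} ha => ⟨ha.2, by simpa using ha.1⟩ }
  have h3 : v ∈ H := (sup_le (fun u hu => ⟨pU u hu, pU _ (inv_mem hu)⟩) (US_le (by
    rintro _ rfl t; exact ⟨px t, by rw [h.x_inv]; exact px _⟩)) : _ ≤ H) h1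
  have h4 := h3.1 1 (Or.inl ⟨1, one_mem _, 1, one_mem _, 1, one_mem _, by simp [nw]⟩)
  rw [mul_one] at h4
  rcases h4 with ⟨u, hu, t, ht, u', hu', e⟩ | ⟨u, hu, t, ht, u', hu', e⟩
  · refine ⟨0, by
      rw [h.x_zero]
      refine h.B_V ?_ h2
      rw [e, show d.nw [] = 1 from rfl, mul_one]
      exact mul_mem (mul_mem (mem_sup_left hu) (mem_sup_right ht)) (mem_sup_left hu')⟩
  obtain ⟨s, u2, hu2, e2⟩ := h.peel (h.up_sm i) (h.sm_pos i) (inv_mem hu')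
  have h5 : d.n i * u2⁻¹ * (d.n i)⁻¹ ∈ d.U := US_mono (fun _ hx => hx.1) (h.n_Uj i (inv_mem hu2))
  rw [show d.nw [i] = d.n i by simp [nw], ← inv_inv u', e2] at e
  by_cases h0 : s = 0
  · exfalso
    refine h.n_not_mem i (mul_mem (inv_mem h5) (h.T_conj (inv_mem ht) (inv_mem hu))) (inv_mem ht) h2 ?_
    rw [e, h0, h.x_zero]; group
  refine ⟨-s⁻¹, (mul_inv_eq_one.1 (h.B_V ?_ (mul_mem h2 (inv_mem (x_mem_US (h.neg_sm_mem i) _)))))⟩
  have h6 := h.hh_n i (Units.mk0 s h0)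
  rw [Units.val_mk0] at h6
  have h7 : v * (d.x (d.neg (d.sm i)) (-s⁻¹))⁻¹ = u * t * (d.n i * u2⁻¹ * (d.n i)⁻¹) *
      (d.hh i (Units.mk0 s h0))⁻¹ * d.x (d.sm i) s := by
    rw [e, ← inv_mul_eq_iff_eq_mul.2 h6.symm]; group
  rw [h7]
  exact mul_mem (mul_mem (mul_mem (mul_mem (mem_sup_left hu) (mem_sup_right ht)) (mem_sup_left h5))
    (mem_sup_right (inv_mem (hh_mem_T _ _)))) (mem_sup_left (x_mem_US (h.sm_pos i) s))

theorem over_U {H : Subgroup G} (hH : d.U ≤ H) {g : G} (h1 : g ∈ H) (h2 : g ∈ d.GH) (h3 : g ∉ d.B) :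
    ∃ j, ∀ s, d.x (d.neg (d.sm j)) s ∈ H := by
  obtain ⟨L, u, hu, t, ht, u', hu', rfl⟩ := h.cell_GH h2
  have hL : d.nw L ∉ d.T := fun hL => h3 (mul_mem (mul_mem (mul_mem (mem_sup_left hu)
    (mem_sup_right ht)) (mem_sup_right hL)) (mem_sup_left hu'))
  obtain ⟨j, r, hr, e⟩ := h.exists_simple hL
  have h4 : t * d.nw L ∈ H := by
    simpa [mul_assoc] using mul_mem (mul_mem (inv_mem (hH hu)) h1) (inv_mem (hH hu'))
  obtain ⟨ε, h0, h5⟩ := h.conj_x' ht L r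
  refine ⟨j, fun s => ?_⟩
  rw [← mul_inv_cancel_left₀ h0 s, ← e, ← (h5 _).1]
  exact mul_mem (mul_mem h4 (hH (x_mem_US hr _))) (inv_mem h4)

end Ax

namespace Std

theorem hn_conj (h : d.Ax) (s : d.Std π c σ a) (i : Fin l) (z : Fˣ) :
    a * (d.hh i z * d.n i) * a⁻¹ = d.hh (π i) (c i * Units.map (σ i : F →* F) z) * d.n (π i) := by
  rw [h.hh_n, h.hh_n]
  calc _ = (a * d.x (d.sm i) z * a⁻¹) * (a * d.x (d.neg (d.sm i)) (-(z : F)⁻¹) * a⁻¹) *
      (a * d.x (d.sm i) z * a⁻¹) := by group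
    _ = _ := by rw [s.xp, s.xn]; simp [mul_comm]

theorem n_conj (h : d.Ax) (s : d.Std π c σ a) (i : Fin l) :
    a * d.n i * a⁻¹ = d.hh (π i) (c i) * d.n (π i) := by
  simpa [hh_one] using s.hn_conj h i 1

theorem hh_conj (h : d.Ax) (s : d.Std π c σ a) (i : Fin l) (z : Fˣ) :
    a * d.hh i z * a⁻¹ = d.hh (π i) (Units.map (σ i : F →* F) z) := by
  calc _ = a * (d.hh i z * d.n i) * a⁻¹ * (a * d.n i * a⁻¹)⁻¹ := by group
    _ = _ := by rw [s.hn_conj h, s.n_conj h, mul_comm (c i), hh_mul]; group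

theorem rel (h : d.Ax) (s : d.Std π c σ a) (i k : Fin l) (z : Fˣ) :
    σ k ((z : F) ^ d.A i k) = σ i z ^ d.A (π i) (π k) := by
  have h1 := s.xp k ((z : F) ^ d.A i k * 1)
  rw [← h.pr_sm, ← h.hh_conj, show ∀ y w : G, a * (y * w * y⁻¹) * a⁻¹ =
    (a * y * a⁻¹) * (a * w * a⁻¹) * (a * y * a⁻¹)⁻¹ from fun y w => by group, s.hh_conj h, s.xp,
    h.hh_conj, h.pr_sm, h.pr_sm] at h1
  have h2 := h.x_inj _ h1
  simp only [map_one, mul_one, Units.coe_map, MonoidHom.coe_coe] at h2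
  exact (mul_left_cancel₀ (c k).ne_zero (by rw [← h2, mul_comm])).symm

theorem xp_surj (s : d.Std π c σ a) (i : Fin l) (u : F) :
    ∃ t, a * d.x (d.sm i) t * a⁻¹ = d.x (d.sm (π i)) u :=
  ⟨(σ i).symm ((c i)⁻¹ * u), by rw [s.xp]; simp⟩

theorem graph (h : d.Ax) (s : d.Std π c σ a) : d.Graph π := by
  intro i k
  by_cases hik : i = k
  · subst hik; simp [h.A_self]
  refine ⟨fun e => h.A_eq_zero hik fun t u => ?_, fun e => h.A_eq_zero (π.injective.ne hik) fun t u => ?_⟩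
  · have := (h.comm_sm e (c i * σ i t) (c k * σ k u)).map (MulAut.conj a⁻¹)
    rw [← s.xp, ← s.xp] at this
    simpa [mul_assoc] using this
  · obtain ⟨t, e1⟩ := s.xp_surj i t
    obtain ⟨u, e2⟩ := s.xp_surj k u
    rw [← e1, ← e2]
    exact (h.comm_sm e t u).map (MulAut.conj a)

theorem mul {π' : Equiv.Perm (Fin l)} {c' : Fin l → Fˣ} {σ' : Fin l → F ≃+* F} {a' : G}
    (s : d.Std π c σ a) (s' : d.Std π' c' σ' a') :
    d.Std (π * π') (fun i => c (π' i) * Units.map (σ (π' i) : F →* F) (c' i))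
      (fun i => (σ' i).trans (σ (π' i))) (a * a') := by
  have e : ∀ y, a * a' * y * (a * a')⁻¹ = a * (a' * y * a'⁻¹) * a⁻¹ := fun y => by group
  refine ⟨mul_mem s.nU s'.nU, mul_mem s.nV s'.nV, fun i t => ?_, fun i t => ?_⟩
  · rw [e, s'.xp, s.xp]; simp [mul_assoc]
  · rw [e, s'.xn, s.xn]; simp [mul_assoc, mul_left_comm]

theorem of_D (h : d.Ax) (χ : AddChar (Fin l → ℤ) Fˣ) :
    d.Std 1 (fun i => χ (Pi.single i 1)) (fun _ => RingEquiv.refl F) (d.D χ) :=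
  ⟨h.B_norm (mem_sup_right (D_mem χ)), h.T_norm_V (D_mem χ), fun i t => by simp [h.D_conj, h.rt_sm],
    fun i t => by simp [h.D_conj, h.rt_sm, h.rt_neg, AddChar.map_neg_eq_inv]⟩

theorem _root_.Cfsg.Agent.LB.AD.IsFld.inv {τ : F ≃+* F} {f : G} (hf : d.IsFld τ f) :
    d.IsFld τ.symm f⁻¹ := fun r t => by
  conv_lhs => rw [← τ.apply_symm_apply t, ← hf]
  group

theorem _root_.Cfsg.Agent.LB.AD.IsFld.norm {τ : F ≃+* F} {f : G} (hf : d.IsFld τ f) (S : Set Φ) :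
    f ∈ normalizer (d.US S : Set G) := by
  have h1 : ∀ {τ : F ≃+* F} {f : G}, d.IsFld τ f → ∀ u ∈ d.US S, f * u * f⁻¹ ∈ d.US S :=
    fun hf u hu => conj_US (fun r hr t => by rw [hf]; exact x_mem_US hr _) hu
  rw [mem_normalizer_iff]
  exact fun u => ⟨h1 hf u, fun hu => by simpa [mul_assoc] using h1 hf.inv _ hu⟩

theorem of_fld (h : d.Ax) {τ : F ≃+* F} {f : G} (hf : d.IsFld τ f) :
    d.Std 1 (fun _ => 1) (fun _ => τ) f :=
  ⟨hf.norm _, hf.norm _, fun i t => by simp [hf _ t], fun i t => by simp [hf _ t]⟩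

theorem uniq (h : d.Ax) {π' : Equiv.Perm (Fin l)} {c' : Fin l → Fˣ} {σ' : Fin l → F ≃+* F}
    (s : d.Std π c σ a) (s' : d.Std π' c' σ' a) : π = π' ∧ c = c' ∧ σ = σ' := by
  have h1 : ∀ i t, d.x (d.sm (π i)) (c i * σ i t) = d.x (d.sm (π' i)) (c' i * σ' i t) :=
    fun i t => by rw [← s.xp, s'.xp]
  obtain rfl : π = π' := Equiv.ext fun i => h.sm_inj (h.root_eq_of_x_eq (by simp) (h1 i 1))
  obtain rfl : c = c' := funext fun i => Units.ext (by simpa using h.x_inj _ (h1 i 1))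
  exact ⟨rfl, rfl, funext fun i => RingEquiv.ext fun t =>
    mul_left_cancel₀ (c i).ne_zero (h.x_inj _ (h1 i t))⟩

theorem ext (am : d.Amb) {a' : G} (s : d.Std π c σ a) (s' : d.Std π c σ a') : a = a' := by
  have h1 : ∀ y, a * y * a⁻¹ = a' * y * a'⁻¹ → y ∈ centralizer {a'⁻¹ * a} := fun y e => by
    rw [mem_centralizer_singleton_iff]
    calc _ = a'⁻¹ * (a' * y * a'⁻¹) * a := by group
      _ = _ := by rw [← e]; group
  have := am.cent (a'⁻¹ * a) fun k hk => (mem_centralizer_singleton_iff.1 (am.ax.K_le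
    (fun i t => h1 _ (by rw [s.xp, s'.xp])) (fun i t => h1 _ (by rw [s.xn, s'.xn])) hk)).symm
  exact (inv_mul_eq_one.1 this).symm

theorem congr {π' : Equiv.Perm (Fin l)} {c' : Fin l → Fˣ} {σ' : Fin l → F ≃+* F} (s : d.Std π c σ a)
    (h1 : π = π') (h2 : ∀ i, c i = c' i) (h3 : ∀ i t, σ i t = σ' i t) : d.Std π' c' σ' a := by
  obtain rfl : c = c' := funext h2
  obtain rfl : σ = σ' := funext fun i => RingEquiv.ext (h3 i)
  exact h1 ▸ s

theorem T_conj (am : d.Amb) (s : d.Std π c σ a) {t : G} (ht : t ∈ d.T) : a * t * a⁻¹ ∈ d.T := by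
  obtain ⟨χ, rfl⟩ := ht
  obtain ⟨ψ, hψ⟩ := exists_char fun j => Units.map (σ (π⁻¹ j) : F →* F) (χ (Pi.single (π⁻¹ j) 1))
  have h1 := s.mul (of_D am.ax χ)
  have h2 := (of_D am.ax ψ).mul s
  rw [mul_inv_eq_iff_eq_mul.2 (ext am h1 (h2.congr (by simp) (fun i => Units.ext (by
    simp [hψ, mul_comm])) fun _ _ => rfl))]
  exact D_mem ψ

theorem nw_conj (am : d.Amb) (s : d.Std π c σ a) (L : List (Fin l)) :
    ∃ t ∈ d.T, a * d.nw L * a⁻¹ = t * d.nw (L.map π) := by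
  induction L with
  | nil => exact ⟨1, one_mem _, by simp [nw]⟩
  | cons p L ih =>
    obtain ⟨t, ht, e⟩ := ih
    refine ⟨_, mul_mem (hh_mem_T (π p) (c p)) (am.ax.n_T (π p) ht), ?_⟩
    calc _ = (a * d.n p * a⁻¹) * (a * d.nw L * a⁻¹) := by rw [nw_cons]; group
      _ = _ := by rw [e, s.n_conj am.ax, List.map_cons, nw_cons]; group

theorem root_ind (h : d.Ax) (s : d.Std π c σ a) (Q : Φ → Φ → Prop) (h1 : ∀ i, Q (d.sm i) (d.sm (π i)))
    (h2 : ∀ p r r', Q r r' → Q (d.w p r) (d.w (π p) r')) (r : Φ) :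
    ∃ r', Q r r' ∧ ∀ t, ∃ t', a * d.x r t * a⁻¹ = d.x r' t' := by
  refine h.reach (fun r => ∃ r', Q r r' ∧ ∀ t, ∃ t', a * d.x r t * a⁻¹ = d.x r' t')
    (fun i => ⟨_, h1 i, fun t => ⟨_, s.xp i t⟩⟩) ?_ r
  rintro p r ⟨r', h3, h4⟩
  refine ⟨_, h2 p r r' h3, fun t => ?_⟩
  obtain ⟨u, hu⟩ := h.x_nw [p] r t
  obtain ⟨u', hu'⟩ := h4 u
  obtain ⟨e, -, he⟩ := h.conj_x' (hh_mem_T (π p) (c p)) [π p] r'
  simp only [nw, ww, List.map, List.prod_cons, List.prod_nil, mul_one, List.foldr] at hu he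
  refine ⟨e * u', ?_⟩
  rw [← (he u').1, ← s.n_conj h, ← hu', eq_mul_inv_of_mul_eq hu]; group

theorem root (h : d.Ax) (s : d.Std π c σ a) (r : Φ) :
    ∃ r', ∀ t, ∃ t', a * d.x r t * a⁻¹ = d.x r' t' :=
  (s.root_ind h (fun _ _ => True) (fun _ => trivial) (fun _ _ _ _ => trivial) r).imp fun _ h => h.2

theorem lin (h : d.Ax) (s : d.Std π c σ a) (hA : ∀ i k, d.A (π i) (π k) = d.A i k) (r : Φ) :
    ∃ r', (∀ i, d.rt r' (π i) = d.rt r i) ∧ ∀ t, ∃ t', a * d.x r t * a⁻¹ = d.x r' t' := by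
  refine s.root_ind h (fun r r' => ∀ i, d.rt r' (π i) = d.rt r i)
    (fun i k => by simp [h.rt_sm, Pi.single_apply]) (fun p r r' e i => ?_) r
  have h1 : d.pr (π p) (d.rt r') = d.pr p (d.rt r) := by
    change ∑ j, d.A (π p) j * d.rt r' j = ∑ j, d.A p j * d.rt r j
    rw [← Equiv.sum_comp π]; simp only [hA, e]
  simp [h.rt_w, W_apply, h1, e, Pi.single_apply]

theorem sig_eq (am : d.Amb) (s : d.Std π c σ a) (hA : ∀ i k, d.A (π i) (π k) = d.A i k) (i k : Fin l) :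
    σ i = σ k := by
  have h1 : ∀ i k, d.A i k = -1 → σ i = σ k := fun i k e => RingEquiv.ext fun t => by
    by_cases h0 : t = 0
    · simp [h0]
    · have := s.rel am.ax i k (Units.mk0 t h0)
      rw [hA, e] at this
      simpa using this.symm
  refine am.conn (fun j => σ j = σ k) k rfl (fun i j e hj => ?_) i
  by_cases hij : i = j
  · rwa [hij]
  · rcases am.adj i j hij e with e' | e'
    exacts [(h1 _ _ e').trans hj, (h1 _ _ e').symm.trans hj]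

theorem mem_T (h : d.Ax) (s : d.Std π c σ a) (ha : a ∈ d.GH) : a ∈ d.T :=
  h.mem_T_of_norm ha s.nU s.nV

/-- a standard element with trivial graph part -/
theorem eq_T_fld (am : d.Amb) (s : d.Std 1 c σ a) :
    ∃ t ∈ d.T, ∃ τ f, d.IsFld τ f ∧ a = t * f ∧ ∀ i, σ i = τ := by
  obtain ⟨k, -, -⟩ := am.rk
  obtain ⟨f, hf⟩ := am.fld (σ k)
  obtain ⟨χ, hχ⟩ := exists_char c
  have h1 := fun i => s.sig_eq am (fun _ _ => rfl) i k
  refine ⟨_, D_mem χ, σ k, f, hf, ext am s ?_, h1⟩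
  exact ((of_D am.ax χ).mul (of_fld am.ax hf)).congr (by simp) (by simp [hχ]) fun i t => by
    rw [h1 i]; rfl

/-- Bruhat decomposition in the centraliser of a standard element -/
theorem fix_bruhat (am : d.Amb) (s : d.Std π c σ a) {m : G} (hm : m ∈ d.GH) (e : m * a = a * m) :
    ∃ u ∈ d.U, ∃ u' ∈ d.U, ∃ t ∈ d.T, ∃ L, m = u * (t * d.nw L) * u' ∧ u * a = a * u ∧
      u' * a = a * u' ∧ t * d.nw L * a = a * (t * d.nw L) := by
  have h := am.ax
  obtain ⟨L, hL⟩ := h.cell_GH hm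
  obtain ⟨u, hu, t, ht, v, hv, e1, hu'⟩ := h.cell_ldu hL
  obtain ⟨t1, ht1, e2⟩ := s.nw_conj am L
  have cU := fun y (hy : y ∈ d.U) => (mem_normalizer_iff.1 s.nU y).1 hy
  have cV := fun y (hy : y ∈ d.V) => (mem_normalizer_iff.1 s.nV y).1 hy
  have e3 : m = a * m * a⁻¹ := by rw [← e]; group
  have h1 : d.Cell (L.map π) m := ⟨_, cU u hu, _, mul_mem (s.T_conj am ht) ht1, _, cU _ hu', by
    rw [e3, ← inv_mul_eq_iff_eq_mul.2 e2, e1]; group⟩
  have h2 : d.nw (L.map π) * (d.nw L)⁻¹ ∈ d.T := by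
    have := mul_mem (h.del (L.map π ++ L.reverse) fun r hr => by
      rwa [ww_append, h.cell_uniq hL h1, h.ww_rev']) (inv_mem (h.nw_rev L))
    convert this using 1
    rw [nw_append]; group
  obtain ⟨t2, ht2, e4⟩ : ∃ t2 ∈ d.T, a * d.nw L * a⁻¹ = t2 * d.nw L :=
    ⟨_, mul_mem ht1 h2, by rw [e2]; group⟩
  obtain ⟨f1, f2, f3⟩ := h.ldu hu (cU u hu) hv (h.T_conj (inv_mem ht2) (cV v hv)) ht
    (mul_mem (s.T_conj am ht) ht2) (by
      refine mul_right_cancel (b := d.nw L) ?_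
      rw [← e1, e3, e1, eq_mul_inv_of_mul_eq e4.symm]; group)
  refine ⟨u, hu, _, hu', t, ht, L, by rw [e1]; group, by nth_rw 1 [f1]; group, ?_, ?_⟩
  · nth_rw 1 [f3]; rw [eq_mul_inv_of_mul_eq e4.symm]; group
  · nth_rw 1 [f2]; rw [eq_mul_inv_of_mul_eq e4.symm]; group

end Std

theorem IsFld.ext {τ : F ≃+* F} {f f' : G} (am : d.Amb) (hf : d.IsFld τ f) (hf' : d.IsFld τ f') :
    f = f' := Std.ext am (Std.of_fld am.ax hf) (Std.of_fld am.ax hf')

theorem IsFld.eq_one {f : G} (am : d.Amb) (hf : d.IsFld 1 f) : f = 1 :=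
  hf.ext am fun r t => by simp

theorem IsFld.mul {τ τ' : F ≃+* F} {f f' : G} (hf : d.IsFld τ f) (hf' : d.IsFld τ' f') :
    d.IsFld (τ * τ') (f * f') := fun r t => by
  rw [RingAut.mul_apply, ← hf, ← hf']; group

theorem IsFld.pow {τ : F ≃+* F} {f : G} (hf : d.IsFld τ f) (n : ℕ) : d.IsFld (τ ^ n) (f ^ n) := by
  induction n with
  | zero => intro r t; simp
  | succ n ih => rw [pow_succ, pow_succ]; exact ih.mul hf

theorem IsFld.uniq (h : d.Ax) {τ τ' : F ≃+* F} {f : G} (hf : d.IsFld τ f) (hf' : d.IsFld τ' f)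
    (i : Fin l) : τ = τ' :=
  congrFun ((Std.of_fld h hf).uniq h (Std.of_fld h hf')).2.2 i

theorem IsFld.of_mem_GH {τ : F ≃+* F} {f : G} (am : d.Amb) (hf : d.IsFld τ f) (h1 : f ∈ d.GH) :
    τ = 1 := by
  obtain ⟨χ, rfl⟩ := (Std.of_fld am.ax hf).mem_T am.ax h1
  obtain ⟨k, -, -⟩ := am.rk
  exact congrFun ((Std.of_fld am.ax hf).uniq am.ax (Std.of_D am.ax χ)).2.2 k

/-- an automorphism fixing the fixed field of `σ` is a power of `σ` -/
theorem mem_zpowers_of_fix [Finite F] {σ τ : F ≃+* F} (e : ∀ z, σ z = z → τ z = z) :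
    τ ∈ zpowers σ := by
  haveI : Finite (RingAut F) := Finite.of_injective _ DFunLike.coe_injective
  obtain ⟨g, hg⟩ := FixedPoints.toAlgAut_surjective (zpowers (σ : RingAut F)) F
    (AlgEquiv.ofRingEquiv (f := τ) fun x => e x.1 (x.2 ⟨σ, mem_zpowers σ⟩))
  convert g.2 using 1
  ext z
  exact (congrArg (fun f => f z) hg).symm

theorem exists_ringEquiv [Finite F] (f : F → F) (h1 : ∀ t u, f (t + u) = f t + f u)
    (h2 : Function.Injective f) (h3 : f 1 = 1) (h4 : ∀ z t, f (z ^ 2 * t) = f z ^ 2 * f t) :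
    ∃ σ : F ≃+* F, ∀ t, σ t = f t := by
  have h5 : ∀ z, f (z ^ 2) = f z ^ 2 := fun z => by simpa [h3] using h4 z 1
  have h6 : ∀ t u, f (t * u) = f t * f u := fun t u => by
    by_cases hc : ringChar F = 2
    · obtain ⟨z, rfl⟩ := FiniteField.isSquare_of_char_two hc t
      rw [← sq, h4, h5]
    · have := h5 (t + u)
      rw [show (t + u) ^ 2 = t ^ 2 + (t * u + t * u) + u ^ 2 by ring, h1, h1, h1, h1, h5, h5] at this
      exact mul_left_cancel₀ (Ring.two_ne_zero hc) (by linear_combination this)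
  exact ⟨{ Equiv.ofBijective f (Finite.injective_iff_bijective.1 h2) with
    map_mul' := h6, map_add' := h1 }, fun _ => rfl⟩

namespace Amb

variable [Finite G] [Finite F] (am : d.Amb) (r : ℕ) [Fact r.Prime] [CharP F r]
include am r

theorem U_max {Q : Subgroup G} (hQ : IsPGroup r Q) (h1 : d.U ≤ Q) (h2 : Q ≤ d.GH) : Q ≤ d.U := by
  have h := am.ax
  by_contra hn
  haveI := hQ.isNilpotent
  obtain ⟨g, hg, hg'⟩ := SetLike.exists_of_lt (Group.normalizerCondition_of_isNilpotent (d.U.subgroupOf Q)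
    (lt_top_iff_ne_top.2 fun e => hn (subgroupOf_eq_top.1 e)))
  rw [← subgroupOf_normalizer_eq h1, mem_subgroupOf] at hg
  obtain ⟨u, hu, t, ⟨χ, rfl⟩, e⟩ := h.mem_B.1 (h.norm_U (h2 g.2) hg)
  have h3 : d.D χ ∈ Q := by simpa [e] using mul_mem (inv_mem (h1 hu)) g.2
  obtain ⟨k, hk⟩ := hQ ⟨_, h3⟩
  have h4 := h.D_eq_one (χ := χ ^ r ^ k) (by rw [map_pow]; exact congrArg Subtype.val hk)
  have h5 : χ = 1 := char_ext fun i => by
    have h6 := congrArg (fun ψ : AddChar (Fin l → ℤ) Fˣ => (ψ (Pi.single i 1) : F)) h4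
    simp only [AddChar.pow_apply, Units.val_pow_eq_pow_val, AddChar.one_apply, Units.val_one] at h6
    refine Units.ext (sub_eq_zero.1 (pow_eq_zero_iff (n := r ^ k) ?_ |>.1 ?_))
    · exact pow_ne_zero _ (Fact.out : r.Prime).ne_zero
    · rw [sub_pow_char_pow, h6]; simp
  exact hg' (by rw [mem_subgroupOf, e, h5, map_one, mul_one]; exact hu)

theorem st_U (α : G) : ∃ k ∈ d.K, k⁻¹ * α ∈ normalizer (d.U : Set G) := by
  haveI := am.norm
  have hUK : d.U ≤ d.K := US_mono (Set.subset_univ _)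
  let S : Sylow r d.K := ⟨d.U.subgroupOf d.K, (am.ax.U_pgroup r).comap_subtype, fun {Q} hQ hle => by
    refine le_antisymm (fun g hg => am.U_max r (hQ.map d.K.subtype) ?_ ?_ ⟨g, hg, rfl⟩) hle
    · exact fun u hu => ⟨⟨u, hUK hu⟩, hle hu, rfl⟩
    · exact (map_subtype_le Q).trans le_sup_left⟩
  have h1 := Sylow.normalizer_sup_eq_top S
  rw [show (S : Subgroup d.K).map d.K.subtype = d.U from map_subgroupOf_eq_of_le hUK, sup_comm] at h1
  obtain ⟨k, hk, b, hb, rfl⟩ := mem_sup_of_normal_left.1 (h1 ▸ mem_top α)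
  exact ⟨k, hk, by simpa using hb⟩

theorem st_exists (α : G) :
    ∃ k ∈ d.K, k⁻¹ * α ∈ normalizer (d.U : Set G) ∧ k⁻¹ * α ∈ normalizer (d.V : Set G) := by
  have h := am.ax
  obtain ⟨k, hk, ha⟩ := am.st_U r α
  set a := k⁻¹ * α with had
  obtain ⟨L0, h0⟩ := h.w0
  have c1 := fun y (hy : y ∈ d.U) => h.nw_US (L := L0) (fun r hr => h.mem_neg (h0 r hr)) hy
  have c2 : ∀ v ∈ d.V, (d.nw L0)⁻¹ * v * (d.nw L0)⁻¹⁻¹ ∈ d.U := fun v hv => conj_US (fun s hs t => by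
    obtain ⟨e, he⟩ := h.x_nw L0 (d.ww L0.reverse s) t
    rw [h.ww_rev'] at he
    rw [inv_inv, mul_assoc, he, inv_mul_cancel_left]
    refine x_mem_US (by_contra fun h1 => h0 _ (h.neg_pos h1) ?_) _
    rw [h.ww_neg, h.ww_rev']
    simpa [Pos, h.rt_neg] using hs) hv
  have cU := fun y (hy : y ∈ d.U) => (mem_normalizer_iff.1 ha y).1 hy
  have cU' := fun y (hy : y ∈ d.U) => (mem_normalizer_iff.1 (inv_mem ha) y).1 hy
  obtain ⟨L, u, hu, t, ht, u', hu', e⟩ := h.bruhat (am.norm.conj_mem _ (h.nw_mem_K L0) a)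
  have h1 : ∀ s ∈ d.Pos (H9.Chev.ht l), d.ww L s ∈ d.Pos (-H9.Chev.ht l) := fun s hs => h.mem_neg fun h2 => by
    obtain ⟨ε, hε, h3⟩ := h.conj_x' ht L s
    have h4 := h.U_V (cU' _ (mul_mem (mul_mem hu (x_mem_US h2 (ε * 1))) (inv_mem hu))) (by
      convert c1 _ (cU' _ (mul_mem (mul_mem (inv_mem hu') (x_mem_US hs 1)) hu')) using 1
      rw [← (h3 1).1, show d.nw L0 = a⁻¹ * (u * t * d.nw L * u') * a by rw [← e]; group]; group)
    refine hε (h.x_inj (d.ww L s) ?_)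
    rw [h.x_zero, ← mul_one ε]
    calc _ = u⁻¹ * (a * (a⁻¹ * (u * d.x (d.ww L s) (ε * 1) * u⁻¹) * a⁻¹⁻¹) * a⁻¹) * u := by group
      _ = _ := by rw [h4]; group
  refine ⟨k * u, mul_mem hk (US_mono (Set.subset_univ _) hu), ?_, ?_⟩
  · rw [mul_inv_rev, mul_assoc]; exact mul_mem (inv_mem (le_normalizer hu)) ha
  · refine mem_normalizer_fintype fun v hv => ?_
    change _ ∈ d.US (d.Pos (-H9.Chev.ht l))
    convert h.T_conj ht (h.nw_US h1 (mul_mem (mul_mem hu' (cU _ (c2 v hv))) (inv_mem hu'))) using 1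
    rw [mul_inv_rev k, mul_assoc u⁻¹, ← had, show d.nw L0 = a⁻¹ * (u * t * d.nw L * u') * a by
      rw [← e]; group]
    group

theorem neg_root (h1 : a ∈ normalizer (d.U : Set G)) (h2 : a ∈ normalizer (d.V : Set G)) (i : Fin l) :
    ∃ j, ∀ t, ∃ s, a * d.x (d.neg (d.sm i)) t * a⁻¹ = d.x (d.neg (d.sm j)) s := by
  have h := am.ax
  have cV := (mem_normalizer_iff.1 h2 _).1 (x_mem_US (h.neg_sm_mem i) 1)
  obtain ⟨j, hj⟩ := h.over_U (H := (d.U ⊔ d.US {d.neg (d.sm i)}).comap (MulAut.conj a⁻¹).toMonoidHom)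
    (fun u hu => mem_sup_left ((mem_normalizer_iff.1 (inv_mem h1) u).1 hu))
    (g := a * d.x (d.neg (d.sm i)) 1 * a⁻¹)
    (by simpa [mem_comap, mul_assoc] using mem_sup_right (x_mem_US (S := {d.neg (d.sm i)}) rfl 1))
    (mem_sup_left (am.norm.conj_mem _ (x_mem_K _ _) a)) fun h3 => by
      have := h.B_V h3 cV
      rw [mul_inv_eq_one, mul_eq_left, ← h.x_zero (d.neg (d.sm i))] at this
      exact one_ne_zero (h.x_inj _ this)
  choose g hg using fun s => h.QV i (hj s)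
    ((mem_normalizer_iff.1 (inv_mem h2) _).1 (x_mem_US (h.neg_sm_mem j) s))
  simp only [MulEquiv.coe_toMonoidHom, MulAut.conj_apply] at hg
  have h3 : Function.Injective g := fun s s' e => h.x_inj _ (by
    have := hg s; rw [e, ← hg s'] at this; simpa using this)
  refine ⟨j, fun t => ?_⟩
  obtain ⟨s, rfl⟩ := Finite.injective_iff_surjective.1 h3 t
  exact ⟨s, by rw [← hg]; group⟩

theorem st_node (h1 : a ∈ normalizer (d.U : Set G)) (h2 : a ∈ normalizer (d.V : Set G)) (i : Fin l) :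
    ∃ (j : Fin l) (c : Fˣ) (σ : F ≃+* F), ∀ t, a * d.x (d.sm i) t * a⁻¹ = d.x (d.sm j) (c * σ t) ∧
      a * d.x (d.neg (d.sm i)) t * a⁻¹ = d.x (d.neg (d.sm j)) ((c⁻¹ : Fˣ) * σ t) := by
  have h := am.ax
  obtain ⟨j, hg⟩ := am.neg_root r h1 h2 i
  obtain ⟨j', hf⟩ := am.opp.neg_root r (a := a) (h.opp_U ▸ h2) (h.opp_V ▸ h1) i
  simp only [opp_x, opp_neg, opp_sm, h.neg_neg] at hf
  choose f hf using hf
  choose g hg using hg
  obtain rfl : j' = j := by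
    by_contra hne
    have := (h.comm_sm_neg hne (f 1) (g (-1))).map (MulAut.conj a⁻¹)
    rw [← hf, ← hg] at this
    simp only [MulAut.conj_apply, mul_assoc, inv_mul_cancel_left, inv_inv, inv_mul_cancel, mul_one] at this
    refine h.n_not_mem i (mul_mem (x_mem_US (h.sm_pos i) 1) (x_mem_US (h.sm_pos i) 1)) (one_mem _)
      (x_mem_US (h.neg_sm_mem i) (-1)) ?_
    rw [h.n_def, mul_one, mul_assoc, ← this.eq, mul_assoc]
  have fi : Function.Injective f := fun s t e => h.x_inj _ (by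
    have := hf s; rw [e, ← hf t] at this; simpa using this)
  have gi : Function.Injective g := fun s t e => h.x_inj _ (by
    have := hg s; rw [e, ← hg t] at this; simpa using this)
  have f0 : f 0 = 0 := h.x_inj _ (by rw [← hf, h.x_zero, h.x_zero]; group)
  have g0 : g 0 = 0 := h.x_inj _ (by rw [← hg, h.x_zero, h.x_zero]; group)
  have fa : ∀ t u, f (t + u) = f t + f u := fun t u => h.x_inj _ (by
    rw [h.x_add, ← hf, ← hf, ← hf, h.x_add]; group)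
  have fz : ∀ z : Fˣ, f z ≠ 0 := fun z e => z.ne_zero (fi (e.trans f0.symm))
  have m1 : ∀ z : Fˣ, a * (d.hh i z * d.n i) * a⁻¹ =
      d.x (d.sm j') (f z) * d.x (d.neg (d.sm j')) (g (-(z : F)⁻¹)) * d.x (d.sm j') (f z) := fun z => by
    rw [h.hh_n, ← hf, ← hg]; group
  have key : ∀ z : Fˣ, g (-(z : F)⁻¹) = -(f z)⁻¹ := fun z => by
    have e0 : g (-(z : F)⁻¹) ≠ 0 := fun e => by simpa using gi (e.trans g0.symm)
    have m2 := m1 z
    generalize g (-(z : F)⁻¹) = e at e0 m2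
    have m3 := h.hh_n j' (Units.mk0 (-e⁻¹) (by simpa))
    simp only [Units.val_mk0, inv_neg, inv_inv, _root_.neg_neg] at m3
    obtain ⟨ε, hε, m4⟩ := h.conj_x' (hh_mem_T j' (Units.mk0 (-e⁻¹) (by simpa))) [j'] (d.sm j')
    obtain ⟨η, -, m5⟩ := h.conj_x' (hh_mem_T i z) [i] (d.sm i)
    simp only [nw, ww, List.map, List.prod_cons, List.prod_nil, mul_one, List.foldr, h.w_sm] at m4 m5
    by_contra hne
    have hs : f z + e⁻¹ ≠ 0 := fun e' => hne (by rw [eq_neg_of_add_eq_zero_left e']; simp)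
    obtain ⟨t, ht⟩ := Finite.injective_iff_surjective.1 fi (ε⁻¹ * -(f z + e⁻¹)⁻¹)
    have m6 := h.hh_n j' (Units.mk0 _ hs)
    rw [Units.val_mk0] at m6
    have m7 : a * (d.hh i z * d.n i) * a⁻¹ = d.x (d.sm j') (f z + e⁻¹) *
        (d.hh j' (Units.mk0 (-e⁻¹) (by simpa)) * d.n j') * d.x (d.sm j') (f z + e⁻¹) := by
      rw [m2, m3, ← h.x_inv]
      nth_rw 2 [add_comm]
      rw [h.x_add, h.x_add]; group
    refine h.tn_ne j' (hh_mem_T j' (Units.mk0 _ hs)) (x_mem_US (h.neg_sm_mem j') (g (η * t)))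
      (mul_mem (x_mem_US (h.sm_pos j') (f z + e⁻¹)) (x_mem_US (h.sm_pos j') (f z + e⁻¹))) ?_
    rw [m6, ← mul_inv_cancel_left₀ hε (-(f z + e⁻¹)⁻¹), ← ht, ← (m4 _).1, ← hg, ← (m5 _).1]
    have m8 : Commute (d.x (d.sm j') (f t)) (d.x (d.sm j') (f z + e⁻¹)) := by
      rw [Commute, SemiconjBy, ← h.x_add, ← h.x_add, add_comm]
    calc _ = d.x (d.sm j') (f z + e⁻¹) * (d.hh j' (Units.mk0 (-e⁻¹) (by simpa)) * d.n j') *
          (d.x (d.sm j') (f t) * d.x (d.sm j') (f z + e⁻¹)) * (d.x (d.sm j') (f z + e⁻¹) *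
          (d.hh j' (Units.mk0 (-e⁻¹) (by simpa)) * d.n j') * d.x (d.sm j') (f z + e⁻¹))⁻¹ *
          (d.x (d.sm j') (f z + e⁻¹) * d.x (d.sm j') (f z + e⁻¹)) := by group
      _ = _ := by rw [m8.eq, ← mul_assoc _ _ (d.x _ (f t)), ← m7, ← hf]; group
  have m2 : ∀ z : Fˣ, a * (d.hh i z * d.n i) * a⁻¹ = d.hh j' (Units.mk0 _ (fz z)) * d.n j' := fun z => by
    rw [m1, key, h.hh_n, Units.val_mk0]
  have m3 : ∀ z : Fˣ, a * d.hh i z * a⁻¹ = d.hh j' (Units.mk0 _ (fz z) * (Units.mk0 _ (fz 1))⁻¹) :=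
    fun z => by
    calc _ = a * (d.hh i z * d.n i) * a⁻¹ * (a * (d.hh i 1 * d.n i) * a⁻¹)⁻¹ := by rw [hh_one]; group
      _ = _ := by rw [m2, m2, hh_mul, hh_inv]; group
  have f1 : f 1 ≠ 0 := fz 1
  obtain ⟨σ, hσ⟩ := exists_ringEquiv (fun t => f t * (f 1)⁻¹) (fun t u => by rw [fa, add_mul])
    (fun s t e => fi (mul_right_cancel₀ (inv_ne_zero f1) e)) (mul_inv_cancel₀ f1) fun z t => by
      by_cases h0 : z = 0
      · simp [h0, f0]
      have := hf (((Units.mk0 z h0 : Fˣ) : F) ^ d.pr i (d.rt (d.sm i)) * t)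
      rw [← h.hh_conj, show ∀ y w : G, a * (y * w * y⁻¹) * a⁻¹ =
        (a * y * a⁻¹) * (a * w * a⁻¹) * (a * y * a⁻¹)⁻¹ from fun y w => by group, m3, hf,
        h.hh_conj, h.pr_sm, h.pr_sm, h.A_self, h.A_self] at this
      have := h.x_inj _ this
      simp only [Units.val_mul, Units.val_mk0, Units.val_inv_eq_inv_val, Units.val_one, zpow_ofNat] at this
      rw [← this, mul_assoc]
  refine ⟨j', Units.mk0 _ f1, σ, fun t => ⟨by rw [hf, hσ, Units.val_mk0]; congr 1; field_simp, ?_⟩⟩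
  rw [hg]
  congr 1
  by_cases h0 : t = 0
  · simp [h0, g0]
  have := key (Units.mk0 (-t⁻¹) (by simpa))
  simp only [Units.val_mk0, inv_neg, inv_inv, _root_.neg_neg] at this
  have h3 := hσ (-t⁻¹)
  rw [this, ← eq_mul_inv_iff_mul_eq₀ f1 |>.1 h3, map_neg, map_inv₀]
  simp [mul_comm, inv_neg]

theorem st_std (h1 : a ∈ normalizer (d.U : Set G)) (h2 : a ∈ normalizer (d.V : Set G)) :
    ∃ π c σ, d.Std π c σ a := by
  have h := am.ax
  choose j c σ H using am.st_node r h1 h2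
  have hj : Function.Injective j := fun i k e => by
    have h3 := (H i 1).1
    have h4 := (H k ((σ k).symm ((c k)⁻¹ * (c i * σ i 1)))).1
    simp only [RingEquiv.apply_symm_apply, ← e] at h4
    rw [Units.mul_inv_cancel_left, ← h3] at h4
    exact h.sm_inj (h.root_eq_of_x_eq one_ne_zero (by simpa using h4.symm))
  exact ⟨Equiv.ofBijective j (Finite.injective_iff_bijective.1 hj), c, σ, h1, h2,
    fun i t => (H i t).1, fun i t => (H i t).2⟩

theorem steinberg (α : G) : ∃ k ∈ d.K, ∃ π c σ a, d.Std π c σ a ∧ α = k * a := by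
  obtain ⟨k, hk, h1, h2⟩ := am.st_exists r α
  obtain ⟨π, c, σ, s⟩ := am.st_std r h1 h2
  exact ⟨k, hk, π, c, σ, _, s, by group⟩

theorem GH_normal : d.GH.Normal := ⟨fun g hg α => by
  obtain ⟨k, hk, t, ht, rfl⟩ := am.ax.mem_GH.1 hg
  obtain ⟨k', hk', π, c, σ, a, s, rfl⟩ := am.steinberg r α
  rw [show k' * a * (k * t) * (k' * a)⁻¹ = k' * a * k * (k' * a)⁻¹ * (k' * (a * t * a⁻¹) * k'⁻¹) by
    simp [mul_assoc]]
  exact mul_mem (mem_sup_left (am.norm.conj_mem k hk (k' * a))) (mul_mem (mul_mem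
    (mem_sup_left hk') (mem_sup_right (s.T_conj am ht))) (inv_mem (mem_sup_left hk')))⟩

theorem rho : ∃ ρ : G →* Equiv.Perm (Fin l),
    ∀ g ∈ d.GH, ∀ π c σ a, d.Std π c σ a → ρ (g * a) = π := by
  have wd : ∀ g ∈ d.GH, ∀ π c σ a, d.Std π c σ a → ∀ g' ∈ d.GH, ∀ π' c' σ' a', d.Std π' c' σ' a' →
      g * a = g' * a' → π = π' := fun g hg π c σ a s g' hg' π' c' σ' a' s' e => by
    obtain ⟨χ, hχ⟩ := am.ax.mem_T_of_norm (g := a * a'⁻¹) (by
      convert mul_mem (inv_mem hg) hg' using 1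
      rw [eq_inv_mul_iff_mul_eq, ← mul_assoc, e]; group) (mul_mem s.nU (inv_mem s'.nU))
      (mul_mem s.nV (inv_mem s'.nV))
    have := (Std.of_D am.ax χ).mul s'
    rw [hχ, inv_mul_cancel_right, one_mul] at this
    exact (s.uniq am.ax this).1
  choose k hk π c σ a s e using am.steinberg r
  refine ⟨MonoidHom.mk' π fun α β => wd _ (mem_sup_left (hk (α * β))) _ _ _ _ (s (α * β))
    (k α * (a α * k β * (a α)⁻¹)) (mem_sup_left (mul_mem (hk α) (am.norm.conj_mem _ (hk β) _)))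
    _ _ _ _ ((s α).mul (s β)) ?_, fun g hg π' c' σ' a' s' =>
      wd _ (mem_sup_left (hk _)) _ _ _ _ (s _) g hg _ _ _ _ s' (e _).symm⟩
  rw [← e]
  nth_rw 1 [e α, e β]
  group

/-- an element centralising a regular unipotent element normalises `U` -/
theorem norm_of_reg {u α : G} (hu : d.Reg u) (e : α * u = u * α) : α ∈ normalizer (d.U : Set G) := by
  obtain ⟨k, hk, ha⟩ := am.st_U r α
  have := am.ax.reg hu (mem_sup_left hk) (by
    convert (mem_normalizer_iff.1 ha u).1 hu.1 using 1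
    rw [mul_assoc k⁻¹ α, e]; group)
  simpa using mul_mem (am.ax.B_norm this) ha

end Amb

end AD

end Cfsg.Agent.LB
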