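import Cfsg.Agent.LB.Lang
import Cfsg.Agent.LB.St
import Cfsg.Agent.H7.AltLie

/-! Lang's theorem, finite form. -/

set_option autoImplicit false

namespace Cfsg.Agent.LB

open Cfsg.Lie Cfsg.Agent.H9.Chev Subgroup

open Polynomial in
theorem mem_range_of_pow_card {F k : Type*} [Field F] [Fintype F] [Field k] (ι : F →+* k) {x : k}
    (hx : x ^ Fintype.card F = x) : ∃ s, ι s = x := by
  have h1 : Splits (X ^ Fintype.card F - X : F[X]) := by
    rw [splits_iff_card_roots, FiniteField.roots_X_pow_card_sub_X, ← Finset.card_def, Finset.card_univ,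
      FiniteField.X_pow_card_sub_X_natDegree_eq _ Fintype.one_lt_card]
  have := FiniteField.roots_X_pow_card_sub_X F ▸ h1.roots_map ι ▸ Multiset.mem_map (b := x)
  simpa [sub_eq_zero, FiniteField.X_pow_card_sub_X_ne_zero k (Fintype.one_lt_card (α := F)), hx] using this

theorem descent {D : ChevalleyDatum} {P : Pk} (h : Good D P) {F k : Type*} [Field F] [Field k]
    (ι : F →+* k) (τ : k →+* k) (hτ : ∀ t, τ t = t → ∃ s, ι s = t) {y : GL D.Idx k}
    (hy : y ∈ (h.dat k).US Set.univ ⊔ (h.dat k).T) (hf : Matrix.GeneralLinearGroup.map τ y = y) :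
    y ∈ ((h.dat F).US Set.univ ⊔ (h.dat F).T).map (Matrix.GeneralLinearGroup.map ι) := by
  have a := h.ax k
  have hσ := h.map_x τ
  have h1 : (h.dat k).GK τ ≤ ((h.dat F).US Set.univ ⊔ (h.dat F).T).map
      (Matrix.GeneralLinearGroup.map ι) := (closure_le _).2 (by
    rintro _ ⟨r, t, ht, rfl⟩
    obtain ⟨s, rfl⟩ := hτ t ht
    exact ⟨_, mem_sup_left (Dat.x_mem_US (Set.mem_univ r) s), h.map_x ι r s⟩)
  obtain ⟨L, hL⟩ := H7.Alt.cell_GH a hy
  obtain ⟨u, hu, t, ⟨χ, rfl⟩, v, hv, rfl⟩ := a.cell_ldu hL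
  rw [map_mul, a.fix_GK hσ (Dat.nw_mem_GK τ L), mul_left_inj, map_mul, map_mul] at hf
  obtain ⟨e1, e2, e3⟩ := a.ldu (a.map_US hσ hu) hu (a.map_US hσ hv) hv
    (by rw [Dat.Ax.map_D]; exact Dat.D_mem _) (Dat.D_mem χ) hf
  refine mul_mem (mul_mem (mul_mem (h1 (a.mem_GK_of_US hσ (Dat.up_pos _) u hu e1)) ?_)
    (h1 (a.mem_GK_of_US hσ (Dat.up_pos _) v hv e3))) (h1 (Dat.nw_mem_GK τ L))
  rw [← mem_comap]
  rw [Dat.eq_prod_pc χ]
  refine prod_mem fun j _ => ?_
  have hz : τ (χ (Pi.single j 1)) = χ (Pi.single j 1) := by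
    have := congrArg (fun g : GL D.Idx k => g.1 ((h.dat k).e ((h.dat k).sm j))
      ((h.dat k).e ((h.dat k).sm j))) e2
    rw [← a.rt_sm]
    simpa [Dat.D_val, Dat.rt] using this
  generalize χ (Pi.single j 1) = z at hz
  obtain ⟨s, hs⟩ := hτ _ hz
  have h0 : s ≠ 0 := by rintro rfl; exact z.ne_zero (by rw [← hs, map_zero])
  refine ⟨_, mem_sup_right (Dat.D_mem (pc (co j) (Units.mk0 s h0))), ?_⟩
  ext b c
  simp [Dat.D_val, Matrix.diagonal_apply, apply_ite ι, pc_apply, hs]
  rfl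

theorem map_mem {D : ChevalleyDatum} {P : Pk} (h : Good D P) {F k : Type*} [Field F] [Field k]
    (ι : F →+* k) {y : GL D.Idx F} (hy : y ∈ (h.dat F).US Set.univ ⊔ (h.dat F).T) :
    Matrix.GeneralLinearGroup.map ι y ∈ (h.dat k).US Set.univ ⊔ (h.dat k).T := by
  refine (sup_le (Dat.US_le fun r _ t => ?_) ?_ : _ ≤ Subgroup.comap (Matrix.GeneralLinearGroup.map ι)
    ((h.dat k).US Set.univ ⊔ (h.dat k).T)) hy
  · rw [mem_comap, h.map_x]; exact mem_sup_left (Dat.x_mem_US (Set.mem_univ r) _)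
  · rintro _ ⟨χ, rfl⟩
    refine mem_sup_right ⟨(Units.map ι.toMonoidHom).compAddChar χ, ?_⟩
    ext b c
    simp [Dat.D_val, Matrix.diagonal_apply, apply_ite ι]
    rfl

theorem lang_use {D : ChevalleyDatum} {P : Pk} (h : Good D P) {F : Type*} [Field F] [Finite F]
    (r : ℕ) [Fact r.Prime] [CharP F r] {p : ℕ} (hp : p.Prime) {σ : F ≃+* F} (hσ : orderOf σ = p)
    {g : GL D.Idx F} (hg : g ∈ (h.dat F).US Set.univ ⊔ (h.dat F).T)
    (hN : ((List.range p).map fun i =>
      Matrix.GeneralLinearGroup.map ((σ ^ i : F ≃+* F) : F →+* F) g).prod = 1) :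
    ∃ y ∈ (h.dat F).US Set.univ ⊔ (h.dat F).T,
      g = y⁻¹ * Matrix.GeneralLinearGroup.map (σ : F →+* F) y := by
  classical
  haveI := Fintype.ofFinite F
  haveI : Finite (RingAut F) := Finite.of_injective _ (DFunLike.coe_injective (F := F ≃+* F))
  let K := FixedPoints.subfield (zpowers (σ : RingAut F)) F
  have hK : ∀ t, t ∈ K ↔ σ t = t := fun t =>
    ⟨fun ht => ht ⟨σ, mem_zpowers _⟩, fun ht g =>
      (zpowers_le.2 (show (σ : RingAut F) ∈ MulAction.stabilizer (RingAut F) t from ht)) g.2⟩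
  have hr : Module.finrank K F = p := by
    have : Fintype (zpowers (σ : RingAut F)) := Fintype.ofFinite _
    rw [FixedPoints.finrank_eq_card, ← Nat.card_eq_fintype_card (α := zpowers _), Nat.card_zpowers, hσ]
  have hc : Fintype.card F = Fintype.card K ^ p := by rw [Module.card_eq_pow_finrank (K := K), hr]
  obtain ⟨e, he0, he⟩ : ∃ e : ℕ, 0 < e ∧ Fintype.card K = r ^ e :=
    have ⟨e, _, he⟩ := FiniteField.card K r; ⟨e, e.2, he⟩
  let s0 := FiniteField.frobeniusAlgEquivOfAlgebraic K F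
  have h0 : ∀ z, s0 z = z ^ r ^ (e : ℕ) := fun z => by rw [← he]; rfl
  obtain ⟨m, hm⟩ := mem_powers_iff_mem_zpowers.2 (AD.mem_zpowers_of_fix (σ := σ) (τ := s0.toRingEquiv)
    fun z hz => s0.commutes ⟨z, (hK z).2 hz⟩)
  simp only at hm
  have hmp : p.Coprime m := (Nat.Prime.coprime_iff_not_dvd hp).2 fun hd => by
    have h1 := FiniteField.orderOf_frobeniusAlgEquivOfAlgebraic K F
    rw [orderOf_dvd_iff_pow_eq_one.1 (hσ ▸ hd)] at hm
    rw [hr, show FiniteField.frobeniusAlgEquivOfAlgebraic K F = 1 from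
      AlgEquiv.ext fun z => (congrArg (fun f : F ≃+* F => f z) hm).symm, orderOf_one] at h1
    exact hp.one_lt.ne h1
  let θ : GL D.Idx F → GL D.Idx F := fun y => Matrix.GeneralLinearGroup.map (σ : F →+* F) y * g⁻¹
  have t1 : ∀ i y, θ^[i] y = Matrix.GeneralLinearGroup.map ((σ ^ i : F ≃+* F) : F →+* F) y *
      (((List.range i).map fun i =>
        Matrix.GeneralLinearGroup.map ((σ ^ i : F ≃+* F) : F →+* F) g).prod)⁻¹ := fun i => by
    induction i with
    | zero => intro y; ext a b; simp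
    | succ i ih =>
      intro y
      rw [Function.iterate_succ_apply, ih, List.range_succ, List.map_append, List.prod_append, map_mul,
        map_inv, mul_inv_rev, mul_assoc]
      congr 1
      simp
  have t2 : θ^[p] = id := funext fun y => by
    rw [t1, hN, ← hσ, pow_orderOf_eq_one]; ext a b; simp
  have t3 : ∀ i, θ^[i] 1 ∈ (h.dat F).US Set.univ ⊔ (h.dat F).T := fun i => by
    induction i with
    | zero => exact one_mem _
    | succ i ih => rw [Function.iterate_succ_apply']; exact mul_mem (map_mem h _ ih) (inv_mem hg)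
  have t4 : ∀ y, θ^[m] y = Matrix.GeneralLinearGroup.map (s0 : F →+* F) y * θ^[m] 1 := fun y => by
    rw [t1, t1 m 1, map_one, one_mul, hm]; rfl
  let k := AlgebraicClosure F
  let ι := algebraMap F k
  obtain ⟨y, hy, e1⟩ := lang h r he0 (map_mem h ι (inv_mem (t3 m)))
  have t5 : ∀ z, Matrix.GeneralLinearGroup.map (iterateFrobenius k r e)
      (Matrix.GeneralLinearGroup.map ι z) =
      Matrix.GeneralLinearGroup.map ι (Matrix.GeneralLinearGroup.map (s0 : F →+* F) z : GL D.Idx F) :=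
    fun z => by ext a b; simp [iterateFrobenius_def, h0]
  have t6 : ∀ i, y = Matrix.GeneralLinearGroup.map (iterateFrobenius k r (e * i)) y *
      Matrix.GeneralLinearGroup.map ι ((θ^[m])^[i] 1) := fun i => by
    induction i with
    | zero => ext a b; simp
    | succ i ih =>
      rw [Function.iterate_succ_apply', t4, map_mul, ← t5, ← mul_assoc, mul_add, mul_one, add_comm,
        show Matrix.GeneralLinearGroup.map (iterateFrobenius k r (e + e * i)) y =
          Matrix.GeneralLinearGroup.map (iterateFrobenius k r e)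
            (Matrix.GeneralLinearGroup.map (iterateFrobenius k r (e * i)) y) by
          ext a b; simp [iterateFrobenius_add_apply], ← map_mul, ← ih,
        inv_mul_eq_iff_eq_mul.1 e1.symm, map_inv]
      group
  have t7 := t6 p
  rw [← Function.iterate_mul, mul_comm m, Function.iterate_mul, t2, Function.iterate_id, id, map_one,
    mul_one] at t7
  obtain ⟨y0, hy0, rfl⟩ := descent h ι _ (fun t ht => mem_range_of_pow_card ι (by
    rw [hc, he, ← pow_mul]; exact ht)) hy t7.symm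
  have t8 : θ^[m] y0 = y0 := by
    rw [t5, ← map_inv, ← map_mul] at e1
    have e2 : (θ^[m] 1)⁻¹ = y0⁻¹ * Matrix.GeneralLinearGroup.map (s0 : F →+* F) y0 := by
      ext a b
      exact ι.injective (congrArg (fun g : GL D.Idx k => g.1 a b) e1)
    rw [t4, ← inv_inv (θ^[m] 1), e2]; group
  have t9 := Function.IsPeriodicPt.gcd (f := θ) (x := y0) (congrFun t2 y0) t8
  rw [hmp] at t9
  exact ⟨y0, hy0, by rw [mul_inv_eq_iff_eq_mul.1 (t9 : θ y0 = y0)]; group⟩

end Cfsg.Agent.LB
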