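import Cfsg.Agent.LB.Lang1

/-! Lang's theorem for groups of matrices parametrised by an irreducible affine variety. -/

set_option autoImplicit false
set_option linter.unusedSectionVars false

namespace Cfsg.Agent.LB

open Polynomial Matrix
open scoped Pointwise

universe u
variable {k : Type u} [Field k] {I : Type} [Fintype I] [DecidableEq I] {Y Y' : Type*}

/-- composition of functions with a map -/
def pull (φ : Y → Y') : (Y' → k) →ₐ[k] (Y → k) where
  toFun f := f ∘ φ
  map_one' := rfl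
  map_mul' _ _ := rfl
  map_zero' := rfl
  map_add' _ _ := rfl
  commutes' _ := rfl

/-- the same for algebras of functions -/
def pb {S : Subalgebra k (Y → k)} {S' : Subalgebra k (Y' → k)} (φ : Y → Y')
    (h : S' ≤ S.comap (pull φ)) : S' →ₐ[k] S :=
  ((pull φ).comp S'.val).codRestrict S fun f => h f.2

/-- evaluation at a point -/
def evp (S : Subalgebra k (Y → k)) (y : Y) : S →ₐ[k] k := (Pi.evalAlgHom k _ y).comp S.val

/-- the entries of `π` and of its inverse lie in `S` -/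
def Reg (S : Subalgebra k (Y → k)) (π : Y → GL I k) : Prop :=
  ∀ i j, (fun y => (π y).1 i j) ∈ S ∧ (fun y => (π y)⁻¹.1 i j) ∈ S

/-- `Y` is an irreducible affine variety with coordinate ring `S` -/
structure Aff (S : Subalgebra k (Y → k)) : Prop where
  fg : S.FG
  cpl : ∀ χ : S →ₐ[k] k, ∃ y, χ = evp S y
  dom : ∀ f ∈ S, ∀ g ∈ S, (∀ y, f y * g y = 0) → (∀ y, f y = 0) ∨ ∀ y, g y = 0

variable {S : Subalgebra k (Y → k)} {S' : Subalgebra k (Y' → k)} {π ρ : Y → GL I k}

theorem sum_mul_mem {f g : I → Y → k} (hf : ∀ i, f i ∈ S) (hg : ∀ i, g i ∈ S) :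
    (fun y => ∑ i, f i y * g i y) ∈ S := by
  convert sum_mem (S := S) (t := Finset.univ) fun i _ => mul_mem (hf i) (hg i) using 1
  ext y; simp

theorem Reg.mul (h : Reg S π) (h' : Reg S ρ) : Reg S fun y => π y * ρ y := fun i j => by
  simp only [_root_.mul_inv_rev, Units.val_mul, Matrix.mul_apply]
  exact ⟨sum_mul_mem (fun l => (h i l).1) fun l => (h' l j).1,
    sum_mul_mem (fun l => (h' i l).2) fun l => (h l j).2⟩

theorem Reg.inv (h : Reg S π) : Reg S fun y => (π y)⁻¹ := fun i j => by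
  simp only [inv_inv]; exact (h i j).symm

theorem reg_const (S : Subalgebra k (Y → k)) (g : GL I k) : Reg S fun _ => g := fun _ _ =>
  ⟨S.algebraMap_mem _, S.algebraMap_mem _⟩

theorem Reg.frob (h : Reg S π) {φ : k →+* k} {q : ℕ} (hφ : ∀ x, φ x = x ^ q) :
    Reg S fun y => GeneralLinearGroup.map φ (π y) := fun i j => by
  simp only [← map_inv, GeneralLinearGroup.map_apply, hφ]
  exact ⟨pow_mem (h i j).1 q, pow_mem (h i j).2 q⟩

/-- the product of two varieties -/
def prodA (S : Subalgebra k (Y → k)) (S' : Subalgebra k (Y' → k)) : Subalgebra k (Y × Y' → k) :=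
  S.map (pull Prod.fst) ⊔ S'.map (pull Prod.snd)

theorem le_prodA1 : S ≤ (prodA S S').comap (pull Prod.fst) := Subalgebra.map_le.1 le_sup_left
theorem le_prodA2 : S' ≤ (prodA S S').comap (pull Prod.snd) := Subalgebra.map_le.1 le_sup_right

theorem Aff.prod (h : Aff S) (h' : Aff S') : Aff (prodA S S') := by
  refine ⟨(h.fg.map _).sup (h'.fg.map _), fun χ => ?_, fun f hf g hg e => ?_⟩
  · obtain ⟨y, hy⟩ := h.cpl (χ.comp (pb _ le_prodA1))
    obtain ⟨y', hy'⟩ := h'.cpl (χ.comp (pb _ le_prodA2))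
    have : prodA S S' ≤ (AlgHom.equalizer χ (evp _ (y, y'))).map (prodA S S').val :=
      sup_le (Subalgebra.map_le.2 fun f hf => ⟨_, DFunLike.congr_fun hy ⟨f, hf⟩, rfl⟩)
        (Subalgebra.map_le.2 fun f hf => ⟨_, DFunLike.congr_fun hy' ⟨f, hf⟩, rfl⟩)
    refine ⟨(y, y'), AlgHom.ext fun f => ?_⟩
    obtain ⟨f', h1, h2⟩ := this f.2
    exact (Subtype.ext h2 : f' = f) ▸ h1
  · have s1 : ∀ y', prodA S S' ≤ S.comap (pull fun y => (y, y')) := fun y' =>
      sup_le (Subalgebra.map_le.2 fun f hf => hf)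
        (Subalgebra.map_le.2 fun f _ => S.algebraMap_mem (f y'))
    have s2 : ∀ y, prodA S S' ≤ S'.comap (pull fun y' => (y, y')) := fun y =>
      sup_le (Subalgebra.map_le.2 fun f _ => S'.algebraMap_mem (f y))
        (Subalgebra.map_le.2 fun f hf => hf)
    by_contra hc
    push Not at hc
    obtain ⟨⟨⟨a, a'⟩, ha⟩, ⟨b, b'⟩, hb⟩ := hc
    rcases h'.dom _ (s2 a hf) _ (s2 b hg) (fun y' => by
      rcases h.dom _ (s1 y' hf) _ (s1 y' hg) (fun y => e (y, y')) with h1 | h1
      · exact mul_eq_zero_of_left (h1 a) _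
      · exact mul_eq_zero_of_right _ (h1 b)) with h1 | h1
    · exact ha (h1 a')
    · exact hb (h1 b')

/-- the coordinate ring of the complement of the roots of `p` -/
def lin (p : k[X]) : Subalgebra k ({t : k // p.eval t ≠ 0} → k) :=
  Algebra.adjoin k {fun t => t.1, fun t => (p.eval t.1)⁻¹}

theorem val_mem_lin (p : k[X]) : (fun t => t.1) ∈ lin p := Algebra.subset_adjoin (by simp)
theorem inv_mem_lin (p : k[X]) : (fun t => (p.eval t.1)⁻¹) ∈ lin p :=
  Algebra.subset_adjoin (by simp)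

theorem aeval_lin (p f : k[X]) (t : {t : k // p.eval t ≠ 0}) :
    (aeval (⟨_, val_mem_lin p⟩ : lin p) f).1 t = f.eval t.1 :=
  (aeval_algHom_apply (evp (lin p) t) _ f).symm.trans (congrFun (coe_aeval_eq_eval _) f)

theorem eval_mem_lin (p f : k[X]) : (fun t => f.eval t.1) ∈ lin p :=
  funext (aeval_lin p f) ▸ (aeval (⟨_, val_mem_lin p⟩ : lin p) f).2

theorem aff_lin [Infinite k] {p : k[X]} (hp : p ≠ 0) : Aff (lin p) := by
  refine ⟨Subalgebra.fg_def.2 ⟨_, Set.toFinite _, rfl⟩, fun χ => ?_, fun f hf g hg e => ?_⟩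
  · have e : aeval (⟨_, val_mem_lin p⟩ : lin p) p * ⟨_, inv_mem_lin p⟩ = 1 :=
      Subtype.ext (_root_.funext fun t => (congrArg (· * (p.eval t.1)⁻¹) (aeval_lin p p t)).trans
        (mul_inv_cancel₀ t.2))
    have e2 := congrArg χ e
    rw [map_mul, ← aeval_algHom_apply, map_one, coe_aeval_eq_eval] at e2
    refine ⟨⟨_, left_ne_zero_of_mul_eq_one e2⟩, AlgHom.ext_of_eq_adjoin rfl ?_⟩
    rintro _ (rfl | rfl)
    · rfl
    · exact eq_inv_of_mul_eq_one_right e2
  · have h1 : ∀ f ∈ lin p, ∃ (n : ℕ) (P : k[X]), ∀ t, f t * p.eval t.1 ^ n = P.eval t.1 := by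
      intro f hf
      induction hf using Algebra.adjoin_induction with
      | mem x hx =>
        rcases hx with rfl | rfl
        · exact ⟨0, X, fun t => by simp⟩
        · exact ⟨1, 1, fun t => by simp [t.2]⟩
      | algebraMap r => exact ⟨0, C r, fun t => by simp⟩
      | add x y _ _ h1 h2 =>
        obtain ⟨n, P, h1⟩ := h1
        obtain ⟨m, Q, h2⟩ := h2
        exact ⟨n + m, P * p ^ m + Q * p ^ n, fun t => by simp [← h1, ← h2]; ring⟩
      | mul x y _ _ h1 h2 =>
        obtain ⟨n, P, h1⟩ := h1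
        obtain ⟨m, Q, h2⟩ := h2
        exact ⟨n + m, P * Q, fun t => by simp [← h1, ← h2]; ring⟩
    obtain ⟨n, P, h2⟩ := h1 f hf
    obtain ⟨m, Q, h3⟩ := h1 g hg
    have h4 : P * Q * p = 0 := Polynomial.funext fun t => by
      by_cases ht : p.eval t = 0
      · simp [ht]
      · rw [eval_mul, eval_mul, ← h2 ⟨t, ht⟩, ← h3 ⟨t, ht⟩, mul_mul_mul_comm, e]; simp
    rcases mul_eq_zero.1 ((mul_eq_zero.1 h4).resolve_right hp) with rfl | rfl
    · exact Or.inl fun t => (mul_eq_zero.1 ((h2 t).trans eval_zero)).resolve_right (pow_ne_zero _ t.2)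
    · exact Or.inr fun t => (mul_eq_zero.1 ((h3 t).trans eval_zero)).resolve_right (pow_ne_zero _ t.2)

/-- `X` lies in the image of an irreducible variety in `G` -/
def Sm (G : Subgroup (GL I k)) (X : Set (GL I k)) : Prop :=
  ∃ (Y : Type u) (S : Subalgebra k (Y → k)) (π : Y → GL I k), Aff S ∧ Reg S π ∧ (∀ y, π y ∈ G) ∧
    insert 1 X ⊆ Set.range π

variable {G : Subgroup (GL I k)} {X X' : Set (GL I k)}

theorem Sm.mono (h : Sm G X) (h1 : X' ⊆ insert 1 X) : Sm G X' :=
  let ⟨Y, S, π, a, b, c, d⟩ := h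
  ⟨Y, S, π, a, b, c, (Set.insert_subset (Set.mem_insert _ _) h1).trans d⟩

theorem Sm.mul' (h : Sm G X) (h' : Sm G X') : Sm G (insert 1 X * insert 1 X') := by
  obtain ⟨Y, S, π, a, b, c, d⟩ := h
  obtain ⟨Y', S', π', a', b', c', d'⟩ := h'
  refine ⟨Y × Y', prodA S S', fun y => π y.1 * π' y.2, a.prod a', Reg.mul
    (fun i j => ⟨le_prodA1 (b i j).1, le_prodA1 (b i j).2⟩)
    (fun i j => ⟨le_prodA2 (b' i j).1, le_prodA2 (b' i j).2⟩), fun y => mul_mem (c _) (c' _), ?_⟩
  rw [Set.insert_eq_of_mem (Set.mem_mul.2 ⟨1, Set.mem_insert _ _, 1, Set.mem_insert _ _, mul_one 1⟩)]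
  rintro _ ⟨x, hx, x', hx', rfl⟩
  obtain ⟨y, rfl⟩ := d hx
  obtain ⟨y', rfl⟩ := d' hx'
  exact ⟨(y, y'), rfl⟩

theorem Sm.mul (h : Sm G X) (h' : Sm G X') : Sm G (X * X') := (h.mul' h').mono
  ((Set.mul_subset_mul (Set.subset_insert _ _) (Set.subset_insert _ _)).trans
    (Set.subset_insert _ _))

theorem Sm.union (h : Sm G X) (h' : Sm G X') : Sm G (X ∪ X') := (h.mul' h').mono
  (Set.Subset.trans (Set.union_subset
    (fun x hx => Set.mem_mul.2 ⟨x, Set.mem_insert_of_mem _ hx, 1, Set.mem_insert _ _, mul_one x⟩)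
    fun x hx => Set.mem_mul.2 ⟨1, Set.mem_insert _ _, x, Set.mem_insert_of_mem _ hx, one_mul x⟩)
    (Set.subset_insert _ _))

/-- the entries of a matrix and of its inverse -/
def ent (G : Subgroup (GL I k)) : I × I ⊕ I × I → G → k :=
  Sum.elim (fun i g => g.1.1 i.1 i.2) fun i g => g.1⁻¹.1 i.1 i.2

/-- the coordinate ring -/
abbrev crd (G : Subgroup (GL I k)) : Subalgebra k (G → k) := Algebra.adjoin k (Set.range (ent G))

theorem ent_mem (i : I × I ⊕ I × I) : ent G i ∈ crd G := Algebra.subset_adjoin ⟨i, rfl⟩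

theorem Reg.le {π : Y → G} (h : Reg S fun y => (π y).1) : crd G ≤ S.comap (pull π) :=
  Algebra.adjoin_le (by rintro _ ⟨i | i, rfl⟩; exacts [(h _ _).1, (h _ _).2])

theorem reg_crd : Reg (crd G) fun g => g.1 := fun i j =>
  ⟨ent_mem (.inl (i, j)), ent_mem (.inr (i, j))⟩

theorem lang_abs [IsAlgClosed k] (hG : Sm G G) {φ : k →+* k} {q : ℕ} (hq : 2 ≤ q)
    (hφ : ∀ x, φ x = x ^ q) (hF : ∀ g ∈ G, GeneralLinearGroup.map φ g ∈ G) {a : GL I k}
    (ha : a ∈ G) : ∃ g ∈ G, a = g⁻¹ * GeneralLinearGroup.map φ g := by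
  obtain ⟨Y, S, π, hS, hπ, h1, h2⟩ := hG
  obtain ⟨y0, -⟩ := h2 (Set.mem_insert _ _)
  haveI : Nontrivial S := (evp S y0).toRingHom.domain_nontrivial
  haveI : NoZeroDivisors S := ⟨fun {f g} e =>
    (hS.dom _ f.2 _ g.2 fun y => congrFun (congrArg Subtype.val e) y).imp
      (fun h => Subtype.ext (funext h)) fun h => Subtype.ext (funext h)⟩
  haveI : IsDomain S := NoZeroDivisors.to_isDomain _
  haveI := (Subalgebra.fg_iff_finiteType _).1 hS.fg
  haveI : Algebra.FiniteType k (crd G) :=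
    (Subalgebra.fg_iff_finiteType _).1 (Subalgebra.fg_def.2 ⟨_, Set.finite_range _, rfl⟩)
  haveI := Algebra.FiniteType.isNoetherianRing k (crd G)
  let ι : crd G →ₐ[k] S := pb (fun y => ⟨π y, h1 y⟩) (Reg.le hπ)
  have hι : Function.Injective ι := fun f g e => Subtype.ext (funext fun x => by
    obtain ⟨y, hy⟩ := h2 (Set.mem_insert_of_mem _ x.2)
    rw [show x = ⟨π y, h1 y⟩ from Subtype.ext hy.symm]
    exact congrFun (congrArg Subtype.val e) y)
  haveI : IsDomain (crd G) := hι.isDomain ι.toRingHom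
  have key : ∀ b ∈ G, ∃ r : crd G, r ≠ 0 ∧ ∀ x : G, r.1 x ≠ 0 →
      ∃ g ∈ G, g⁻¹ * b * GeneralLinearGroup.map φ g = x := fun b hb => by
    let L : G → G := fun g => ⟨g.1⁻¹ * b * GeneralLinearGroup.map φ g.1,
      mul_mem (mul_mem (inv_mem g.2) hb) (hF _ g.2)⟩
    let ψ : crd G →ₐ[k] crd G :=
      pb L (Reg.le ((reg_crd.inv.mul (reg_const _ b)).mul (reg_crd.frob hφ)))
    let z : I × I ⊕ I × I → crd G := fun i => ⟨_, ent_mem i⟩
    have hψ : ψ.toRingHom.IsIntegral := by
      refine integral_of_pow _ z hq ?_ fun f => ?_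
      · rintro (⟨i, j⟩ | ⟨i, j⟩)
        · refine ⟨Sum.elim (fun l => b⁻¹.1 i l.1 • z (.inl (l.2, j))) 0,
            Subtype.ext (funext fun g => ?_)⟩
          have e : GeneralLinearGroup.map φ g.1 = b⁻¹ * g.1 * (L g).1 := by simp only [L]; group
          have e2 := congrArg (fun m : GL I k => m.1 i j) e
          simp only [GeneralLinearGroup.map_apply, hφ, Units.val_mul, Matrix.mul_apply,
            Finset.sum_mul] at e2
          refine e2.trans ?_
          rw [Finset.sum_comm, Fintype.sum_sum_type, Fintype.sum_prod_type]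
          simp only [Sum.elim_inr, Pi.zero_apply, map_zero, zero_mul, Finset.sum_const_zero,
            add_zero, AddSubmonoidClass.coe_finset_sum, Finset.sum_apply]
          exact Finset.sum_congr rfl fun _ _ => Finset.sum_congr rfl fun _ _ => mul_right_comm _ _ _
        · refine ⟨Sum.elim 0 fun l => b.1 l.2 j • z (.inr (i, l.1)),
            Subtype.ext (funext fun g => ?_)⟩
          have e : GeneralLinearGroup.map φ g.1⁻¹ = (L g).1⁻¹ * g.1⁻¹ * b := by
            simp only [L, map_inv]; group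
          have e2 := congrArg (fun m : GL I k => m.1 i j) e
          simp only [GeneralLinearGroup.map_apply, hφ, Units.val_mul, Matrix.mul_apply,
            Finset.sum_mul] at e2
          refine e2.trans ?_
          rw [Finset.sum_comm, Fintype.sum_sum_type, Fintype.sum_prod_type, Fintype.sum_prod_type]
          simp only [Sum.elim_inl, Pi.zero_apply, map_zero, zero_mul, Finset.sum_const_zero,
            zero_add, AddSubmonoidClass.coe_finset_sum, Finset.sum_apply]
          exact Finset.sum_congr rfl fun _ _ => Finset.sum_congr rfl fun _ _ =>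
            (mul_comm _ _).trans (mul_assoc _ _ _).symm
      · obtain ⟨f, hf⟩ := f
        induction hf using Algebra.adjoin_induction with
        | mem x hx => obtain ⟨i, rfl⟩ := hx; exact Subring.subset_closure (Or.inr ⟨i, rfl⟩)
        | algebraMap r => exact Subring.subset_closure (Or.inl ⟨algebraMap k _ r, ψ.commutes r⟩)
        | add x y _ _ h1 h2 => exact add_mem h1 h2
        | mul x y _ _ h1 h2 => exact mul_mem h1 h2
    obtain ⟨r, hr, h3⟩ := generic_lift (ι.comp ψ) (hι.comp (injective_of_integral hψ))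
    refine ⟨r, hr, fun x hx => ?_⟩
    obtain ⟨χ, hχ⟩ := h3 (evp _ x) hx
    obtain ⟨y, rfl⟩ := hS.cpl χ
    exact ⟨π y, h1 y, Units.ext (Matrix.ext fun i j => hχ (z (.inl (i, j))))⟩
  obtain ⟨r, hr, h3⟩ := key a ha
  obtain ⟨s, hs, h4⟩ := key 1 (one_mem G)
  obtain ⟨x, hx⟩ : ∃ x, (r * s).1 x ≠ 0 := by
    by_contra! e
    exact mul_ne_zero hr hs (Subtype.ext (funext e))
  obtain ⟨g, hg, e1⟩ := h3 x (left_ne_zero_of_mul hx)
  obtain ⟨g', hg', e2⟩ := h4 x (right_ne_zero_of_mul hx)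
  refine ⟨g' * g⁻¹, mul_mem hg' (inv_mem hg), ?_⟩
  rw [map_mul, map_inv, ← mul_assoc, eq_mul_inv_iff_mul_eq, _root_.mul_inv_rev, inv_inv, mul_assoc,
    ← mul_one g'⁻¹, e2, ← e1]
  group

end Cfsg.Agent.LB
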