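import Cfsg.Agent.H9.ChevFix
import Cfsg.Agent.H9.ChevFold
import Cfsg.Agent.H2.PGroup
import Cfsg.Agent.LB.Lang2

/-! Lang's theorem for the Chevalley groups over an algebraically closed field. -/

set_option autoImplicit false

namespace Cfsg.Agent.LB

open Cfsg.Lie Cfsg.Agent.H9.Chev Polynomial
open scoped Pointwise

section
variable {I Φ : Type} [Fintype I] [DecidableEq I] {l : ℕ} {k : Type*} [Field k] [Infinite k]
  {d : Dat I Φ l k} {G : Subgroup (GL I k)}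

theorem sm_one (G : Subgroup (GL I k)) : Sm G {1} :=
  ⟨_, lin 1, fun _ => 1, aff_lin one_ne_zero, reg_const _ _, fun _ => one_mem _, by
    rintro _ (rfl | rfl) <;> exact ⟨⟨0, by simp⟩, rfl⟩⟩

theorem sm_x (h : d.Ax) (hx : ∀ r a b, ∃ p : k[X], ∀ t, (d.x r t).1 a b = p.eval t)
    (hG : d.US Set.univ ≤ G) (r : Φ) : Sm G (Set.range (d.x r)) := by
  refine ⟨_, lin 1, fun t => d.x r t.1, aff_lin one_ne_zero, fun a b => ?_,
    fun t => hG (Dat.x_mem_US (Set.mem_univ _) _), ?_⟩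
  · obtain ⟨p, hp⟩ := hx r a b
    simp only [h.x_inv, hp]
    exact ⟨eval_mem_lin _ p, by simpa using eval_mem_lin (1 : k[X]) (p.comp (-X))⟩
  · rintro _ (rfl | ⟨t, rfl⟩)
    exacts [⟨⟨0, by simp⟩, h.x_zero r⟩, ⟨⟨t, by simp⟩, rfl⟩]

theorem zpow_mem_lin (n : ℤ) : (fun t => t.1 ^ n) ∈ lin (X : k[X]) := by
  rcases n with n | n
  · convert pow_mem (val_mem_lin (X : k[X])) n using 1
    ext t; simp
  · convert pow_mem (inv_mem_lin (X : k[X])) (n + 1) using 1
    ext t; simp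

theorem sm_pc (hG : d.T ≤ G) (f : (Fin l → ℤ) →+ ℤ) : Sm G (Set.range fun a => d.D (pc f a)) := by
  refine ⟨_, lin X, fun t => d.D (pc f (Units.mk0 t.1 (by simpa using t.2))), aff_lin X_ne_zero,
    fun a b => ?_, fun t => hG (Dat.D_mem _), ?_⟩
  · by_cases e : a = b
    · subst e
      exact ⟨by simpa [Dat.D_val, pc_apply] using zpow_mem_lin (f (d.gr a)), by
        simpa [← map_inv, Dat.D_val, pc_apply] using zpow_mem_lin (k := k) (-f (d.gr a))⟩
    · simp only [← map_inv, Dat.D_val, Matrix.diagonal_apply_ne _ e]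
      exact ⟨zero_mem _, zero_mem _⟩
  · rintro _ (rfl | ⟨a, rfl⟩)
    · exact ⟨⟨1, by simp⟩, (congrArg d.D (by ext v; simp [pc_apply])).trans (map_one _)⟩
    · exact ⟨⟨a, by simp⟩, by simp⟩

theorem sm_T (hG : d.T ≤ G) : Sm G d.T := by
  have : ∀ s : Finset (Fin l), Sm G (Set.range fun a : Fin l → kˣ =>
      d.D (∏ j ∈ s, pc (co j) (a j))) := fun s => by
    induction s using Finset.induction_on with
    | empty => exact (sm_one G).mono (by rintro _ ⟨a, rfl⟩; simp)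
    | insert j s hj ih =>
      refine ((sm_pc hG (co j)).mul ih).mono ?_
      rintro _ ⟨a, rfl⟩
      exact Set.mem_insert_of_mem _ (Set.mem_mul.2 ⟨_, ⟨a j, rfl⟩, _, ⟨a, rfl⟩, by
        simp only [Finset.prod_insert hj, map_mul]⟩)
  refine (this Finset.univ).mono ?_
  rintro _ ⟨χ, rfl⟩
  exact Set.mem_insert_of_mem _ ⟨_, congrArg d.D (Dat.eq_prod_pc χ).symm⟩

theorem sm_all [Finite Φ] (h : d.Ax) (hx : ∀ r a b, ∃ p : k[X], ∀ t, (d.x r t).1 a b = p.eval t)
    (hN : (Set.range d.nw).Finite) : Sm (d.US Set.univ ⊔ d.T) (d.US Set.univ ⊔ d.T : Subgroup _) := by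
  have h1 := sm_x h hx (le_sup_left : _ ≤ d.US Set.univ ⊔ d.T)
  have hU : Sm (d.US Set.univ ⊔ d.T) (d.US (d.Pos (ht l))) := by
    refine Dat.Ax.up_ind (P := fun S => Sm (d.US Set.univ ⊔ d.T) (d.US S)) ((sm_one _).mono ?_)
      (fun S r h2 hr _ h3 ih => ((h1 r).mul ih).mono fun u hu => ?_) _ (Dat.up_pos _)
    · exact fun u hu => Or.inl (Subgroup.mem_bot.1 (Dat.US_le (fun _ h => h.elim) hu))
    · obtain ⟨t, u', hu', rfl⟩ := h.peel h3 (h2 r hr).1 hu
      exact Set.mem_insert_of_mem _ (Set.mul_mem_mul ⟨t, rfl⟩ hu')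
  have h2 : ∀ g ∈ d.US Set.univ, Sm (d.US Set.univ ⊔ d.T) {g} := fun g hg =>
    h.US_ind (P := fun g => Sm (d.US Set.univ ⊔ d.T) {g}) (sm_one _) (fun r _ t g _ ih =>
      ((h1 r).mul ih).mono (Set.singleton_subset_iff.2
        (Set.mem_insert_of_mem _ (Set.mul_mem_mul ⟨t, rfl⟩ rfl)))) hg
  have h3 : Sm (d.US Set.univ ⊔ d.T) (Set.range d.nw) :=
    hN.induction_on_subset _ ((sm_one _).mono (Set.empty_subset _)) fun {g _} hg _ _ ih => by
      obtain ⟨L, rfl⟩ := hg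
      exact (h2 _ ((Subgroup.closure_le (K := d.US Set.univ)).2 (by
        rintro _ ⟨r, t, -, rfl⟩; exact Dat.x_mem_US (Set.mem_univ _) _)
        (Dat.nw_mem_GK (RingHom.id k) L))).union ih
  refine (((hU.mul (sm_T le_sup_right)).mul h3).mul hU).mono fun g hg => ?_
  rw [sup_comm] at hg
  obtain ⟨t, ht, u, hu, rfl⟩ := (H2.mem_sup_of_le_normalizer
    (H2.le_normalizer_of_conj_mem fun _ ha _ hx => h.T_conj ha hx)).1 hg
  obtain ⟨L, hL⟩ := h.bruhat hu
  obtain ⟨a, ha, b, hb, c, hc, e⟩ := h.cell_T ht hL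
  exact Set.mem_insert_of_mem _
    (e ▸ Set.mul_mem_mul (Set.mul_mem_mul (Set.mul_mem_mul ha hb) ⟨L, rfl⟩) hc)

end

theorem lang {D : ChevalleyDatum} {P : Pk} (h : Good D P) {k : Type*} [Field k] [IsAlgClosed k]
    (r : ℕ) [Fact r.Prime] [CharP k r] {e : ℕ} (he : 0 < e) {a : GL D.Idx k}
    (ha : a ∈ (h.dat k).US Set.univ ⊔ (h.dat k).T) :
    ∃ g ∈ (h.dat k).US Set.univ ⊔ (h.dat k).T,
      a = g⁻¹ * Matrix.GeneralLinearGroup.map (iterateFrobenius k r e) g := by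
  have hq : 2 ≤ r ^ e := Nat.one_lt_pow he.ne' (Fact.out : r.Prime).one_lt
  have hσ := h.map_x (iterateFrobenius k r e)
  refine lang_abs (sm_all (h.ax k) (fun s a b => ⟨SM D (colD D s) X a b, fun t => ?_⟩) ?_) hq
    (fun _ => rfl) (fun g hg => ?_) ha
  · rw [h.dat_x, xMat_eq, ← eval_X (x := t), ← coe_evalRingHom, ← SM_map, Matrix.map_apply,
      coe_evalRingHom, eval_X]
  · refine Set.Finite.of_finite_image (f := Units.val) (Set.Finite.subset (Set.Finite.pi'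
      fun _ => Set.Finite.pi' fun _ => finite_setOf_isRoot
        (FiniteField.X_pow_card_sub_X_ne_zero k hq)) ?_) Units.val_injective.injOn
    rintro _ ⟨_, ⟨L, rfl⟩, rfl⟩ i j
    have := congrArg (fun m : GL D.Idx k => m.1 i j) ((h.ax k).fix_GK hσ (Dat.nw_mem_GK _ L))
    simpa [sub_eq_zero, iterateFrobenius_def] using this
  · refine (sup_le (fun u hu => ?_) ?_ : _ ≤ ((h.dat k).US Set.univ ⊔ (h.dat k).T).comap
      (Matrix.GeneralLinearGroup.map (iterateFrobenius k r e))) hg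
    · exact Subgroup.mem_sup_left ((h.ax k).map_US hσ hu)
    · rintro _ ⟨χ, rfl⟩
      exact Subgroup.mem_comap.2 (Subgroup.mem_sup_right (by
        rw [Dat.Ax.map_D]; exact Dat.D_mem _))

end Cfsg.Agent.LB
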