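import Mathlib

/-! Commutative algebra for Lang's theorem. -/

set_option autoImplicit false

namespace Cfsg.Agent.LB

open PrimeSpectrum

theorem integral_of_pow {A B σ : Type*} [CommRing A] [CommRing B] [Fintype σ] (f : A →+* B)
    (z : σ → B) {q : ℕ} (hq : 2 ≤ q) (h : ∀ i, ∃ c : σ → A, z i ^ q = ∑ j, f (c j) * z j)
    (ht : ∀ b, b ∈ Subring.closure (Set.range f ∪ Set.range z)) : f.IsIntegral := by
  classical
  letI := f.toAlgebra
  let M := Submodule.span A (Set.range fun β : σ → Fin q => ∏ i, z i ^ (β i : ℕ))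
  have h1 : ∀ n, ∀ α : σ → ℕ, ∑ i, α i = n → ∏ i, z i ^ α i ∈ M := by
    intro n
    induction n using Nat.strong_induction_on with | _ n ih => ?_
    intro α hα
    by_cases h2 : ∀ i, α i < q
    · exact Submodule.subset_span ⟨fun i => ⟨α i, h2 i⟩, rfl⟩
    push Not at h2
    obtain ⟨i, hi⟩ := h2
    obtain ⟨c, hc⟩ := h i
    have e : ∀ (γ : σ → ℕ) j m, ∏ i, z i ^ (γ + Pi.single j m : σ → ℕ) i =
        (∏ i, z i ^ γ i) * z j ^ m := fun γ j m => by
      simp only [Pi.add_apply, pow_add, Finset.prod_mul_distrib]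
      congr 1
      rw [Finset.prod_eq_single j (fun b _ hb => by simp [hb]) (by simp), Pi.single_eq_same]
    have e2 : α = (α - Pi.single i q) + Pi.single i q := by
      ext j; by_cases hj : j = i
      · subst hj; simp [hi]
      · simp [hj]
    rw [e2, e, hc, Finset.mul_sum]
    refine sum_mem fun j _ => ?_
    rw [mul_left_comm, ← pow_one (z j), ← e]
    refine M.smul_mem (c j) (ih _ ?_ _ rfl)
    rw [← hα]
    nth_rw 2 [e2]
    simp only [Pi.add_apply, Finset.sum_add_distrib, Finset.sum_pi_single', Finset.mem_univ,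
      if_true]
    omega
  have h2 : M = ⊤ := eq_top_iff.2 fun b _ => by
    have h3 : b ∈ Subalgebra.toSubmodule (Algebra.adjoin A (Set.range z)) :=
      Algebra.mem_adjoin_iff.2 (ht b)
    rw [Algebra.adjoin_eq_span] at h3
    refine Submodule.span_le.2 (fun x hx => ?_) h3
    obtain ⟨α, rfl⟩ := Submonoid.mem_closure_range_iff_of_fintype.1 hx
    exact h1 _ α rfl
  haveI : Module.Finite A B := ⟨h2 ▸ Submodule.fg_span (Set.finite_range _)⟩
  exact fun b => Algebra.IsIntegral.isIntegral (R := A) b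

theorem injective_of_integral {R : Type*} [CommRing R] [IsDomain R] [IsNoetherianRing R]
    {f : R →+* R} (h : f.IsIntegral) : Function.Injective f := by
  by_contra hf
  let P : ℕ → Ideal R := fun n => (Ideal.comap f)^[n] ⊥
  have e : ∀ n, P (n + 1) = (P n).comap f := fun n => Function.iterate_succ_apply' _ _ _
  have h1 : ∀ n, (P n).IsPrime := fun n => by
    induction n with
    | zero => exact Ideal.isPrime_bot
    | succ n ih => rw [e]; exact ih.comap f
  have h2 : ∀ n, P n < P (n + 1) := fun n => by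
    induction n with
    | zero => exact bot_lt_iff_ne_bot.2 fun h3 => hf ((RingHom.injective_iff_ker_eq_bot f).2 h3)
    | succ n ih =>
      obtain ⟨x, hx, hx'⟩ := SetLike.exists_of_lt ih
      obtain ⟨p, hp, hpx⟩ := h x
      haveI := h1 n
      rw [e (n + 1), e n]
      rw [e n] at hx ih
      refine Ideal.comap_lt_comap_of_root_mem_sdiff ih.le ⟨hx, hx'⟩
        (Polynomial.map_monic_ne_zero hp) (hpx ▸ zero_mem _)
  exact not_strictMono_of_wellFoundedGT P (strictMono_nat_of_lt_succ h2)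

variable {k R S : Type*} [Field k] [IsAlgClosed k] [CommRing R] [CommRing S] [Algebra k R]
  [Algebra k S] [Algebra.FiniteType k S]

theorem exists_point (ι : R →ₐ[k] S) (χ : R →ₐ[k] k) {Q : Ideal S} (hQ : Q ≠ ⊤)
    (h : ∀ x, χ x = 0 → ι x ∈ Q) : ∃ χ' : S →ₐ[k] k, ∀ x, χ' (ι x) = χ x := by
  obtain ⟨M, hM, hQM⟩ := Ideal.exists_le_maximal Q hQ
  letI := Ideal.Quotient.field M
  haveI := finite_of_finite_type_of_isJacobsonRing k (S ⧸ M)
  let e := AlgEquiv.ofBijective (Algebra.ofId k (S ⧸ M))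
    IsAlgClosed.algebraMap_bijective_of_isIntegral
  refine ⟨e.symm.toAlgHom.comp (Ideal.Quotient.mkₐ k M), fun x => e.injective ?_⟩
  have := Ideal.Quotient.eq.2 (map_sub ι _ _ ▸ hQM (h (x - algebraMap k R (χ x)) (by simp)))
  simp only [AlgHom.commutes] at this
  exact (e.apply_symm_apply _).trans this

theorem generic_lift [IsDomain R] [Algebra.FiniteType k R] [Nontrivial S] [NoZeroDivisors S]
    (ι : R →ₐ[k] S) (hι : Function.Injective ι) :
    ∃ r : R, r ≠ 0 ∧ ∀ χ : R →ₐ[k] k, χ r ≠ 0 → ∃ χ' : S →ₐ[k] k, ∀ x, χ' (ι x) = χ x := by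
  haveI := Algebra.FiniteType.isNoetherianRing k R
  have h1 : ι.toRingHom.FiniteType := RingHom.FiniteType.of_comp_finiteType (f := algebraMap k R)
    (by rw [AlgHom.toRingHom_eq_coe, ι.comp_algebraMap]; exact RingHom.finiteType_algebraMap.2 ‹_›)
  obtain ⟨T, hT⟩ := exists_constructibleSetData_iff.2
    (isConstructible_range_comap (RingHom.FinitePresentation.of_finiteType.1 h1))
  have h2 : (⟨⊥, Ideal.isPrime_bot⟩ : PrimeSpectrum R) ∈ T.toSet := hT ▸
    ⟨⟨⊥, Ideal.isPrime_bot⟩, PrimeSpectrum.ext ((RingHom.injective_iff_ker_eq_bot _).1 hι)⟩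
  obtain ⟨C, hC, h3, h4⟩ := Set.mem_iUnion₂.1 h2
  refine ⟨C.f, fun e => h4 (by simp [e]), fun χ hχ => ?_⟩
  obtain ⟨Q, hQ⟩ : (⟨RingHom.ker χ, RingHom.ker_isPrime χ⟩ : PrimeSpectrum R) ∈
      Set.range (comap ι.toRingHom) := hT ▸ Set.mem_iUnion₂.2 ⟨C, hC,
    fun x hx => by rw [show x = 0 from h3 hx]; exact zero_mem _,
    fun e => hχ (e (Set.mem_singleton _))⟩
  refine exists_point ι χ Q.2.ne_top fun x hx => ?_
  have : x ∈ (comap ι.toRingHom Q).asIdeal := hQ ▸ hx
  exact this

end Cfsg.Agent.LB
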