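import Cfsg.Agent.LB.St
import Cfsg.Agent.H6.Galois

/-! Involutions with non-trivial graph part are conjugate to standard ones. -/

set_option autoImplicit false
set_option linter.unusedSectionVars false
set_option linter.unusedVariables false

namespace Cfsg.Agent.LB

open Subgroup Cfsg.Agent.H9.Chev

variable {G : Type*} [Group G] {Φ : Type} {l : ℕ} {F : Type*} [Field F]

namespace AD

variable {d : AD G Φ l F}

namespace MR

/-- the coset `T n_L` -/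
def InN (d : AD G Φ l F) (L : List (Fin l)) (g : G) : Prop := ∃ t ∈ d.T, g = t * d.nw L

/-- conjugate to a standard element -/
def Red (d : AD G Φ l F) (π : Equiv.Perm (Fin l)) (x : G) : Prop :=
  ∃ g ∈ d.GH, ∃ c' σ', d.Std π c' σ' (g * x * g⁻¹)

/-- `ν` swaps the root subgroups of `± α_i` -/
def Sw (d : AD G Φ l F) (i : Fin l) (c : Fˣ) (τ : F ≃+* F) (ν : G) : Prop :=
  ∀ t, ν * d.x (d.sm i) t * ν⁻¹ = d.x (d.neg (d.sm i)) (c * τ t) ∧
    ν * d.x (d.neg (d.sm i)) t * ν⁻¹ = d.x (d.sm i) ((c⁻¹ : Fˣ) * τ t)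

variable {π : Equiv.Perm (Fin l)} {c : Fin l → Fˣ} {σ : Fin l → F ≃+* F} {a ν : G} {L : List (Fin l)}

theorem Red.of_conj {x g : G} (hg : g ∈ d.GH) (h : Red d π (g * x * g⁻¹)) : Red d π x := by
  obtain ⟨g', h1, c', σ', h2⟩ := h
  exact ⟨g' * g, mul_mem h1 hg, c', σ', by convert h2 using 1; group⟩

theorem inN_nil {g : G} : InN d [] g ↔ g ∈ d.T := by simp [InN, nw]

theorem pc_mul (f : (Fin l → ℤ) →+ ℤ) (x y : Fˣ) : pc f (x * y) = pc f x * pc f y := by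
  ext v; simp [pc_apply, mul_zpow]

theorem exists_sq_add_sq [Finite F] (h2 : ringChar F ≠ 2) (c : F) : ∃ s y : F, s ^ 2 + y ^ 2 = c := by
  have := Fintype.ofFinite F
  obtain ⟨s, y, h⟩ := FiniteField.exists_root_sum_quadratic (f := Polynomial.X ^ 2)
    (g := Polynomial.X ^ 2 - Polynomial.C c) (Polynomial.degree_X_pow 2)
    (Polynomial.degree_X_pow_sub_C (by decide) _) (FiniteField.odd_card_of_char_ne_two h2)
  exact ⟨s, y, by simp at h; linear_combination h⟩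

theorem sq_of_nonsq [Finite F] {x y : F} (hx : ¬ IsSquare x) (hy : ¬ IsSquare y) : IsSquare (x * y) := by
  classical
  have := Fintype.ofFinite F
  have h0 : x * y ≠ 0 := mul_ne_zero (by rintro rfl; simp at hx) (by rintro rfl; simp at hy)
  rw [← quadraticChar_one_iff_isSquare h0, map_mul, quadraticChar_neg_one_iff_not_isSquare.2 hx,
    quadraticChar_neg_one_iff_not_isSquare.2 hy]; simp

variable [Finite Φ] (h : d.Ax)
include h

theorem InN.mul {L L' : List (Fin l)} {g g' : G} (h1 : InN d L g) (h2 : InN d L' g') :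
    InN d (L ++ L') (g * g') := by
  obtain ⟨t, ht, rfl⟩ := h1
  obtain ⟨t', ht', rfl⟩ := h2
  exact ⟨_, mul_mem ht (h.nw_T L ht'), by rw [nw_append]; group⟩

omit h in
theorem inN_n (i : Fin l) : InN d [i] (d.n i) := ⟨1, one_mem _, by simp [nw]⟩

theorem inN_n' (i : Fin l) : InN d [i] (d.n i)⁻¹ := ⟨_, D_mem _, by simpa [nw] using h.n_inv i⟩

theorem n_hh_n (i : Fin l) (z : Fˣ) : d.n i * d.hh i z * d.n i = (d.hh i (-z))⁻¹ := by
  have h5 : (pc (d.pr i) z).compAddMonoidHom (d.W i) = (pc (d.pr i) z)⁻¹ := by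
    ext v
    simp only [AddChar.compAddMonoidHom_apply, pc_apply, AddChar.inv_apply', W_apply, map_sub,
      map_zsmul, h.pr_single, smul_eq_mul, ← zpow_neg]
    congr 2; ring
  have : d.n i * d.n i = (d.D (pc (d.pr i) (-1)))⁻¹ := by
    rw [← mul_inv_eq_iff_eq_mul.2 (h.n_inv i)]; simp
  rw [hh, hh, h.n_D, h5, mul_assoc, this, map_inv, ← mul_inv_rev, ← map_mul, ← pc_mul, neg_one_mul]

theorem gauss (i : Fin l) {s b : F} (hs : s ≠ 0) (lam : Fˣ) (e : (1 - s * b) * lam = 1) :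
    ∃ u ∈ d.U, ∃ t, d.x (d.neg (d.sm i)) (-s) * d.x (d.sm i) b =
      u * d.hh i lam * d.x (d.neg (d.sm i)) t := by
  have a1 := h.n_gen i (Units.mk0 s hs)⁻¹
  have a2 := h.n_gen i (-(Units.mk0 s hs * lam))
  have e1 : -((-(Units.mk0 s hs * lam) : Fˣ) : F)⁻¹ = -(-s⁻¹ + b) := by
    have := lam.ne_zero
    simp; field_simp; linear_combination -e
  have e2 : d.hh i lam = d.D (pc (d.pr i) (Units.mk0 s hs)⁻¹) *
      d.D (pc (d.pr i) (-(Units.mk0 s hs * lam))) * d.D (pc (d.pr i) (-1)) := by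
    rw [← map_mul, ← map_mul, ← pc_mul, ← pc_mul, hh]; simp
  rw [e1, ← h.n_x, h.x_add, ← h.x_inv] at a2
  simp only [Units.val_inv_eq_inv_val, Units.val_mk0, inv_inv] at a1
  generalize ((-(Units.mk0 s hs * lam) : Fˣ) : F) = z at a2
  have a4 : d.n i * d.n i = (d.D (pc (d.pr i) (-1)))⁻¹ := by
    rw [← mul_inv_eq_iff_eq_mul.2 (h.n_inv i)]; simp
  have a5 : d.D (pc (d.pr i) (-1)) * d.D (pc (d.pr i) (-1)) = 1 := by
    rw [← map_mul, ← pc_mul, neg_one_mul, neg_neg,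
      show pc (d.pr i) (1 : Fˣ) = 1 from by ext v; simp [pc_apply], map_one]
  obtain ⟨t, ht⟩ : ∃ t, d.x (d.neg (d.sm i)) z * (d.D (pc (d.pr i) (-1)))⁻¹ =
      d.D (pc (d.pr i) (-1)) * d.x (d.neg (d.sm i)) t :=
    ⟨_, by rw [h.D_x, Units.mul_inv_cancel_left, inv_eq_of_mul_eq_one_right a5]⟩
  refine ⟨_, mul_mem (inv_mem (x_mem_US (h.sm_pos i) s⁻¹))
    (h.T_conj (D_mem (pc (d.pr i) (Units.mk0 s hs)⁻¹)) (inv_mem (x_mem_US (h.sm_pos i) z))), t, ?_⟩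
  have a6 := h.n_x i (-z)
  rw [neg_neg, ← h.x_inv] at a6
  rw [← a4, ← a6] at ht
  rw [e2, mul_assoc, mul_assoc _ _ (d.x _ t), ← ht, ← mul_inv_eq_iff_eq_mul.2 a1,
    ← mul_inv_eq_iff_eq_mul.2 a2]
  group

omit h in
theorem Sw.fix {i : Fin l} {c : Fˣ} {τ : F ≃+* F} (h : d.Ax) (hs : Sw d i c τ ν) (h2 : ν * ν = 1) :
    τ c = c ∧ τ * τ = 1 := by
  have a : ∀ t, (c⁻¹ : Fˣ) * τ (c * τ t) = t := fun t => h.x_inj (d.sm i) (by
    rw [← (hs _).2, ← (hs _).1, ← mul_assoc, ← mul_assoc, h2, mul_assoc, ← mul_inv_rev, h2]; simp)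
  have b : τ c = c := by
    have := a 1
    simp only [map_one, mul_one, Units.inv_mul_eq_one] at this
    exact this.symm
  exact ⟨b, RingEquiv.ext fun t => by simpa [b] using a t⟩

variable (s : d.Std π c σ a)
include s

theorem exists_rootMap : ∃ α : Φ → Φ, (∀ ρ t, ∃ t', a * d.x ρ t * a⁻¹ = d.x (α ρ) t') ∧
    (∀ ρ, α ρ ∈ d.Pos (ht l) ↔ ρ ∈ d.Pos (ht l)) := by
  choose α hα using s.root h
  refine ⟨α, hα, fun ρ => ?_⟩
  obtain ⟨t, ht⟩ := hα ρ 1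
  have h0 : t ≠ 0 := by
    rintro rfl
    rw [h.x_zero, mul_inv_eq_one, mul_eq_left, ← h.x_zero ρ] at ht
    exact one_ne_zero (h.x_inj _ ht)
  exact ⟨fun h1 => h.pos_of_mem_U one_ne_zero ((mem_normalizer_iff.1 s.nU _).2 (ht ▸ x_mem_US h1 t)),
    fun h1 => h.pos_of_mem_U h0 (ht ▸ (mem_normalizer_iff.1 s.nU _).1 (x_mem_US h1 1))⟩

omit s in
theorem conj_root {α : Φ → Φ} (hα : ∀ ρ t, ∃ t', a * d.x ρ t * a⁻¹ = d.x (α ρ) t')
    (hν : InN d L (ν * a⁻¹)) (ρ : Φ) (t : F) : ∃ t', ν * d.x ρ t * ν⁻¹ = d.x (d.ww L (α ρ)) t' := by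
  obtain ⟨_, ⟨χ, rfl⟩, e⟩ := hν
  obtain ⟨t', h1⟩ := hα ρ t
  obtain ⟨ε, -, h2⟩ := h.nw_conj L (α ρ)
  refine ⟨χ (d.rt (d.ww L (α ρ))) * (ε * t'), ?_⟩
  rw [mul_inv_eq_iff_eq_mul.1 e]
  calc _ = d.D χ * (d.nw L * (a * d.x ρ t * a⁻¹) * (d.nw L)⁻¹) * (d.D χ)⁻¹ := by group
    _ = _ := by rw [h1, (h2 t').1, mul_inv_cancel_right, h.D_conj]

theorem sw_of (hν : InN d L (ν * a⁻¹)) {i : Fin l} (hi : d.ww L (d.sm (π i)) = d.neg (d.sm i)) :
    ∃ c', Sw d i c' (σ i) ν := by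
  obtain ⟨_, ⟨χ, rfl⟩, e⟩ := hν
  obtain ⟨ε, hε, h2⟩ := h.nw_conj L (d.sm (π i))
  obtain ⟨η, hη, rfl⟩ : ∃ η : Fˣ, (η = 1 ∨ η = -1) ∧ (η : F) = ε := by
    rcases hε with rfl | rfl
    exacts [⟨1, Or.inl rfl, rfl⟩, ⟨-1, Or.inr rfl, by simp⟩]
  rw [hi, h.neg_neg] at h2
  refine ⟨(χ (d.rt (d.sm i)))⁻¹ * η * c i, fun t => ⟨?_, ?_⟩⟩ <;> rw [mul_inv_eq_iff_eq_mul.1 e]
  · calc _ = d.D χ * (d.nw L * (a * d.x (d.sm i) t * a⁻¹) * (d.nw L)⁻¹) * (d.D χ)⁻¹ := by group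
      _ = _ := by
        rw [s.xp, (h2 _).1, mul_inv_cancel_right, h.D_conj, h.rt_neg, AddChar.map_neg_eq_inv]
        simp [mul_assoc]
  · calc _ = d.D χ * (d.nw L * (a * d.x (d.neg (d.sm i)) t * a⁻¹) * (d.nw L)⁻¹) * (d.D χ)⁻¹ := by group
      _ = _ := by
        rw [s.xn, (h2 _).2, mul_inv_cancel_right, h.D_conj]
        congr 1
        rcases hη with rfl | rfl <;> simp <;> ring

omit h in
theorem lemA [Finite G] (am : d.Amb) (r : ℕ) [Fact r.Prime] [CharP F r] (hr : r ≠ 2) (ha : a * a ∈ d.T)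
    (hν : InN d L (ν * a⁻¹)) {u u' : G} (hu : u ∈ d.U) (hu' : u' ∈ d.U)
    (h2 : u * ν * u' * (u * ν * u') = 1) : ν * ν = 1 ∧ (Red d π ν → Red d π (u * ν * u')) := by
  have h := am.ax
  obtain ⟨α, hα, hp⟩ := exists_rootMap h s
  have hw := mul_mem hu' hu
  have h3 : (ν * ν)⁻¹ = u' * u * (ν * (u' * u) * ν⁻¹) := by
    rw [inv_eq_iff_mul_eq_one]
    calc _ = ν * (u⁻¹ * (u * ν * u' * (u * ν * u')) * u) * ν⁻¹ := by group
      _ = 1 := by rw [h2]; group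
  obtain ⟨w₁, b1, w₂, b2, e⟩ := h.split {ρ | d.ww L (α ρ) ∈ d.Pos (ht l)} (up_pos _) _ hw
  have c1 : ν * w₁ * ν⁻¹ ∈ d.U := conj_US (fun ρ hρ t => by
    obtain ⟨t', h1⟩ := conj_root h hα hν ρ t
    rw [h1]; exact x_mem_US (S := d.Pos (ht l)) hρ.2 t') b1
  have c2 : ν * w₂ * ν⁻¹ ∈ d.V := conj_US (fun ρ hρ t => by
    obtain ⟨t', h1⟩ := conj_root h hα hν ρ t
    rw [h1]; exact x_mem_US (h.mem_neg hρ.2) t') b2
  have h4 : (ν * ν)⁻¹ = u' * u * (ν * w₁ * ν⁻¹) * 1 * (ν * w₂ * ν⁻¹) := by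
    rw [h3]; nth_rewrite 2 [e]; group
  obtain ⟨L', t, h5, h6⟩ : ∃ L', InN d L' (ν * ν) := by
    obtain ⟨t, ht, e⟩ := hν
    obtain ⟨t', ht', e'⟩ := s.nw_conj am L
    have := (((InN.mul h (L := L) ⟨t, ht, rfl⟩ (inN_nil.2 (s.T_conj am ht))).mul h
      (L' := L.map π) ⟨t', ht', rfl⟩).mul h (inN_nil.2 ha))
    exact ⟨_, by convert this using 1; rw [mul_inv_eq_iff_eq_mul.1 e, ← e']; group⟩
  have h7 : (ν * ν)⁻¹ ∈ d.T := by
    have h8 := mul_mem h5 (h.nw_rev L')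
    have h9 : d.nw L'.reverse = (ν * ν)⁻¹ * (t * (d.nw L' * d.nw L'.reverse)) := by rw [h6]; group
    have := h.del _ (h.pos_of_ldu (L := L'.reverse) (mul_mem hw c1) h8 (h.T_conj (inv_mem h8) c2)
      (h9.trans (by rw [h4]; group)))
    rwa [h9, mul_mem_cancel_right h8] at this
  have h8 := (h.ldu (one_mem _) (mul_mem hw c1) (one_mem _) c2 h7 (one_mem _) (by simpa using h4)).2.1
  refine ⟨inv_eq_one.1 h8, fun hR => ?_⟩
  rw [h8, eq_comm, mul_eq_one_iff_inv_eq] at h3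
  obtain ⟨k, hk⟩ := h.U_pgroup r ⟨_, hw⟩
  obtain ⟨m, hm⟩ := ((Fact.out : r.Prime).odd_of_ne_two hr).pow (n := k)
  replace hk : (u' * u) ^ (2 * m + 1) = 1 := hm ▸ congrArg Subtype.val hk
  have h9 : ν * (u' * u) ^ (m + 1) * ν⁻¹ = ((u' * u) ^ (m + 1))⁻¹ := by rw [← conj_pow, ← h3, inv_pow]
  refine Red.of_conj (mem_sup_left (US_mono (Set.subset_univ _)
    (mul_mem (inv_mem (pow_mem hw m)) (inv_mem hu)))) ?_
  convert hR using 1
  symm
  have h10 : (u' * u) ^ (m + 1) = ((u' * u) ^ m)⁻¹ :=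
    eq_inv_of_mul_eq_one_left (by rw [← pow_add, ← hk]; congr 1; ring)
  calc ν = ((u' * u) ^ m)⁻¹ * (ν * (u' * u) ^ (m + 1) * ν⁻¹) * ν := by rw [h9, h10]; group
    _ = _ := by rw [pow_succ']; generalize (u' * u) ^ m = z; group

omit s in
theorem std_of_T (s : d.Std π c σ a) (hν : ν * a⁻¹ ∈ d.T) : ∃ c', d.Std π c' σ ν := by
  obtain ⟨χ, e⟩ := hν
  have := (Std.of_D h χ).mul s
  rw [one_mul, e, inv_mul_cancel_right] at this
  exact ⟨_, this⟩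

omit h in
theorem main [Finite G] [Finite F] (am : d.Amb) (r : ℕ) [Fact r.Prime] [CharP F r] (hr : r ≠ 2)
    (hπ : d.SLd π ∨ d.G2d π) (ha : a * a ∈ d.T) (hν : InN d L (ν * a⁻¹)) (h2 : ν * ν = 1) :
    Red d π ν := by
  have h := am.ax
  obtain ⟨α, hα, hp⟩ := exists_rootMap h s
  induction hn : d.cnt L using Nat.strong_induction_on generalizing L ν with
  | _ n ih =>
  subst hn
  replace ih := fun L' ν' h1 => @ih (d.cnt L') h1 ν' L'
  have hT : ∀ {L ν}, InN d L (ν * a⁻¹) → (∀ i, d.ww L (d.sm (π i)) ∈ d.Pos (ht l)) →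
      ∃ c', d.Std π c' σ ν := fun {L ν} ⟨t, h1, e⟩ h0 => std_of_T h s (e ▸ mul_mem h1
        (h.del L (h.pos_of_sm fun p => by simpa using h0 (π.symm p))))
  by_cases h0 : ∀ i, d.ww L (d.sm (π i)) ∈ d.Pos (ht l)
  · obtain ⟨c', h1⟩ := hT hν h0
    exact ⟨1, one_mem _, c', σ, by simpa using h1⟩
  have hαs : ∀ i, α (d.sm i) = d.sm (π i) := fun i => by
    obtain ⟨t, h1⟩ := hα (d.sm i) 1
    exact (h.root_eq_of_x_eq (by simp) ((s.xp i 1).symm.trans h1)).symm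
  by_cases hA : ∃ i, d.ww L (d.sm (π i)) ∉ d.Pos (ht l) ∧ d.ww L (d.sm (π i)) ≠ d.neg (d.sm i)
  · obtain ⟨i, a1, a2⟩ := hA
    obtain ⟨t, a3⟩ := conj_root h hα hν (d.sm i) 1
    obtain ⟨t', a4⟩ := conj_root h hα hν (d.ww L (α (d.sm i))) t
    rw [← a3, ← mul_assoc, ← mul_assoc, h2, mul_assoc, ← mul_inv_rev, h2, one_mul, inv_one,
      mul_one] at a4
    have a5 := h.root_eq_of_x_eq one_ne_zero a4
    rw [hαs] at a5
    have a6 := mt (hp _).1 a1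
    generalize α _ = δ at a5 a6
    refine Red.of_conj (mem_sup_left (h.n_mem_K i)) (ih (i :: (L ++ [π i])) _
      ((h.cnt_cons_le fun ρ hρ e => ?_).trans_lt (h.cnt_lt a1)) ?_ ?_ rfl)
    · rw [ww_append, a5] at e
      have a7 : d.w (π i) ρ = δ := h.ww_inj L e
      refine a6 (a7 ▸ h.w_pos _ _ hρ ?_)
      rintro rfl
      rw [h.w_sm] at a7
      exact a2 (by rw [a5, ← a7, h.ww_neg, h.neg_neg])
    · have := (((inN_n i).mul h hν).mul h (inN_n' h (π i))).mul h (inN_nil.2 (inv_mem (D_mem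
        (pc (d.pr (π i)) (c i)))))
      rw [List.append_nil, mul_assoc, ← mul_inv_rev, ← hh, ← s.n_conj h] at this
      simpa [mul_assoc] using this
    · rw [conj_mul, h2]; simp
  push Not at hA h0
  rcases hπ with hπ | hπ
  swap
  · obtain ⟨f, f1, f2⟩ := hπ.len
    obtain ⟨i, hi⟩ := h0
    have : ∀ ρ, f (d.ww L ρ) = f ρ := fun ρ => by
      induction L with
      | nil => rfl
      | cons p L ih => exact List.rec rfl (fun p L ih => (f1 p _).trans ih) (p :: L)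
    exact absurd ((this _).symm.trans (congrArg f (hA i hi))) (f2 i)
  have hσ := s.sig_eq am hπ.inv
  have red : ∀ ν', InN d L (ν' * a⁻¹) → ν' * ν' = 1 → ∀ i, d.ww L (d.sm (π i)) ∉ d.Pos (ht l) →
      ∀ c', Sw d i c' (σ i) ν' → (∃ y : F, y * σ i y = c') → Red d π ν' := by
    rintro ν' a1 a2 i hi c' a3 ⟨y, hy⟩
    have y0 : y ≠ 0 := by rintro rfl; exact c'.ne_zero (by simpa using hy.symm)
    have a4 : d.x (d.neg (d.sm i)) (-y) * ν' * (d.x (d.neg (d.sm i)) (-y))⁻¹ =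
        (d.x (d.sm i) y⁻¹)⁻¹ * (d.hh i (Units.mk0 y y0)⁻¹ * d.n i * ν') * 1 := by
      have a5 := h.n_gen i (Units.mk0 y y0)⁻¹
      have a6 := (a3 y).2
      have : σ i y ≠ 0 := by simpa using y0
      rw [show ((c'⁻¹ : Fˣ) : F) * σ i y = y⁻¹ by simp [← hy]; field_simp] at a6
      simp only [Units.val_inv_eq_inv_val, Units.val_mk0, inv_inv] at a5
      rw [hh, ← a5, h.x_inv (d.neg _), neg_neg]
      nth_rewrite 3 [← a6]
      group
    have a5 : InN d (i :: L) (d.hh i (Units.mk0 y y0)⁻¹ * d.n i * ν' * a⁻¹) := by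
      simpa [mul_assoc, hh] using ((inN_nil.2 (D_mem _)).mul h (inN_n i)).mul h a1
    obtain ⟨b1, b2⟩ := lemA s am r hr ha a5 (inv_mem (x_mem_US (h.sm_pos i) y⁻¹)) (one_mem _) (by
      rw [← a4, conj_mul, a2]; simp)
    exact Red.of_conj (mem_sup_left (x_mem_K _ _)) (a4 ▸ b2 (ih _ _
      (h.cnt_cons_lt (h.sm_pos _) (hA i hi)) a5 b1 rfl))
  choose cc hcc using fun i hi => sw_of h s hν (hA i hi)
  obtain ⟨i, hi⟩ := h0
  by_cases h1 : σ i = 1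
  swap
  · have : Fact (Nat.Prime 2) := ⟨Nat.prime_two⟩
    obtain ⟨b1, b2⟩ := (hcc i hi).fix h h2
    obtain ⟨y, -, hy⟩ := H6.exists_nrm_eq (orderOf_eq_prime ((pow_two _).trans b2) h1) (cc i hi).ne_zero b1
    exact red ν hν h2 i hi _ (hcc i hi) ⟨y, by simpa [H6.nrm, Finset.prod_range_succ] using hy⟩
  have h3 : ∀ k, σ k = 1 := fun k => (hσ k i).trans h1
  by_contra hR
  have hns : ∀ k hk, ¬ IsSquare (cc k hk : F) := fun k hk ⟨y, hy⟩ =>
    hR (red ν hν h2 k hk _ (hcc k hk) ⟨y, by simp [h3, hy]⟩)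
  have hadj : ∀ j k, d.ww L (d.sm (π j)) ∉ d.Pos (ht l) → d.ww L (d.sm (π k)) ∉ d.Pos (ht l) →
      j ≠ k → d.A j k = 0 := fun j k hj hk hjk => by
    by_contra h4
    replace h4 : d.A j k = -1 := (am.adj j k hjk h4).elim id fun e => (hπ.sym j k).trans e
    obtain ⟨x, y, e⟩ := exists_sq_add_sq (by rwa [ringChar.eq F r]) (cc j hj : F)
    have x0 : x ≠ 0 := by rintro rfl; exact hns j hj ⟨y, by rw [← e]; ring⟩
    have y0 : y ≠ 0 := by rintro rfl; exact hns j hj ⟨x, by rw [← e]; ring⟩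
    obtain ⟨u, hu, t, a1⟩ := gauss h j x0 (b := (cc j hj)⁻¹.1 * x) (cc j hj * (Units.mk0 y y0 ^ 2)⁻¹) (by
      have := (cc j hj).ne_zero
      simp; field_simp; linear_combination -e)
    have a2 := (hcc j hj x).2
    have a3 := (hcc j hj ((cc j hj)⁻¹.1 * t)).1
    rw [h3, RingAut.one_apply] at a2 a3
    rw [Units.mul_inv_cancel_left] at a3
    generalize hl : cc j hj * (Units.mk0 y y0 ^ 2)⁻¹ = lam at a1
    have a4 : d.x (d.neg (d.sm j)) (-x) * ν * (d.x (d.neg (d.sm j)) (-x))⁻¹ =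
        u * (d.hh j lam * ν) * d.x (d.sm j) ((cc j hj)⁻¹.1 * t) := by
      rw [h.x_inv, neg_neg, mul_assoc, mul_inv_eq_iff_eq_mul.1 a2, ← mul_assoc, a1, ← a3]; group
    have a5 : InN d L (d.hh j lam * ν * a⁻¹) := by
      simpa [mul_assoc, hh] using (inN_nil.2 (D_mem _)).mul h hν
    obtain ⟨b1, b2⟩ := lemA s am r hr ha a5 hu (x_mem_US (h.sm_pos j) _) (by
      rw [← a4, conj_mul, h2]; simp)
    obtain ⟨z, hz⟩ := sq_of_nonsq (hns j hj) (hns k hk)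
    refine hR (Red.of_conj (mem_sup_left (x_mem_K _ _)) (a4 ▸ b2 (red _ a5 b1 k hk (lam * cc k hk)
      (fun t => ⟨?_, ?_⟩) ⟨z / y, ?_⟩)))
    · rw [mul_inv_rev, ← mul_assoc, mul_assoc _ ν, mul_assoc _ _ ν⁻¹, (hcc k hk t).1, hh, h.D_conj,
        pc_apply, h.rt_neg, map_neg, h.pr_sm, h4]
      simp [mul_assoc]
    · rw [mul_inv_rev, ← mul_assoc, mul_assoc _ ν, mul_assoc _ _ ν⁻¹, (hcc k hk t).2, hh, h.D_conj,
        pc_apply, h.pr_sm, h4]
      congr 1; simp; ring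
    · simp [h3, ← hl]; field_simp; linear_combination -hz
  have hw : ∀ j k, d.A j k = 0 → d.w j (d.sm k) = d.sm k := fun j k e =>
    h.rt_inj (by rw [h.rt_w, W_apply, h.pr_sm, e]; simp)
  have key : ∀ S : Finset (Fin l), (∀ k ∈ S, d.ww L (d.sm (π k)) ∉ d.Pos (ht l)) → ∃ L', ∀ k,
      (k ∈ S → d.ww L' (d.sm (π k)) = d.sm k) ∧
      (k ∉ S → d.ww L (d.sm (π k)) ∉ d.Pos (ht l) → d.ww L' (d.sm (π k)) = d.neg (d.sm k)) ∧
      (d.ww L (d.sm (π k)) ∈ d.Pos (ht l) → d.ww L' (d.sm (π k)) ∈ d.Pos (ht l)) := fun S => by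
    induction S using Finset.induction_on with
    | empty => exact fun _ => ⟨L, fun k => ⟨by simp, fun _ => hA k, id⟩⟩
    | insert j S hj ih =>
      intro hS
      obtain ⟨L', a1⟩ := ih fun k hk => hS k (Finset.mem_insert_of_mem hk)
      have a2 := hS j (Finset.mem_insert_self _ _)
      have a3 := (a1 j).2.1 hj a2
      refine ⟨j :: L', fun k => ⟨fun hk => ?_, fun hk a4 => ?_, fun a4 => ?_⟩⟩
      · rcases Finset.mem_insert.1 hk with rfl | hk'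
        · rw [ww_cons, a3, h.w_neg, h.w_sm, h.neg_neg]
        · rw [ww_cons, (a1 k).1 hk', hw _ _ (hadj j k a2 (hS k hk) (by rintro rfl; exact hj hk'))]
      · rw [Finset.mem_insert, not_or] at hk
        rw [ww_cons, (a1 k).2.1 hk.2 a4, h.w_neg, hw _ _ (hadj j k a2 a4 (Ne.symm hk.1))]
      · refine h.w_pos _ _ ((a1 k).2.2 a4) fun e => h.sm_ne_neg (π k) (π j) (h.ww_inj L' ?_)
        exact e.trans (by rw [h.ww_neg, a3, h.neg_neg])
  have hfix : ∀ k, d.ww L (d.sm (π k)) ∉ d.Pos (ht l) → π k = k := fun k hk => by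
    classical
    obtain ⟨L', a1⟩ := key (Finset.univ.filter fun k => d.ww L (d.sm (π k)) ∉ d.Pos (ht l)) (by simp)
    have a2 := h.del L' (h.pos_of_sm fun p => by
      obtain ⟨p, rfl⟩ := π.surjective p
      by_cases a2 : d.ww L (d.sm (π p)) ∈ d.Pos (ht l)
      · exact (a1 p).2.2 a2
      · rw [(a1 p).1 (by simpa using a2)]; exact h.sm_pos p)
    exact h.sm_inj ((h.ww_eq_of_nw (L' := []) a2 (by simp [nw]) _).symm.trans ((a1 k).1 (by simpa using hk)))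
  have hi' := hfix i hi
  obtain ⟨k, a1, a2⟩ := hπ.fixn i hi'
  have a3 := hπ.fix2 i k hi' a1 a2.symm
  obtain ⟨c', a4⟩ := hT (L := i :: L) (ν := (d.n i)⁻¹ * ν)
    (by simpa [mul_assoc] using (inN_n' h i).mul h hν) fun p => by
      rw [ww_cons]
      by_cases a4 : d.ww L (d.sm (π p)) ∈ d.Pos (ht l)
      · refine h.w_pos _ _ a4 fun e => h.sm_ne_neg (π p) (π i) (h.ww_inj L ?_)
        exact e.trans (by rw [h.ww_neg, hA i hi, h.neg_neg])
      · obtain rfl : p = i := by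
          by_contra a5
          have := hadj p i a4 hi a5
          rw [hπ.fix2 p i (hfix p a4) hi' a5] at this
          omega
        rw [hA p hi, h.w_neg, h.w_sm, h.neg_neg]; exact h.sm_pos p
  obtain ⟨b, rfl⟩ : ∃ b, ν = d.n i * b := ⟨(d.n i)⁻¹ * ν, by simp⟩
  rw [inv_mul_cancel_left] at a4
  have a5 : b * b = d.hh i (-c' i) := by
    have := a4.n_conj h i
    rw [hi'] at this
    rw [← inv_inv (d.hh _ _), ← n_hh_n h, mul_assoc, ← this, eq_inv_iff_mul_eq_one,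
      mul_eq_one_comm, ← h2]
    group
  have a6 : b * (b * d.x (d.sm k) 1 * b⁻¹) * b⁻¹ = b * b * d.x (d.sm k) 1 * (b * b)⁻¹ := by group
  rw [a4.xp, a1, a4.xp, a1, a5, hh, h.D_conj, pc_apply, h.pr_sm, a3] at a6
  have a7 := (hcc i hi 1).1
  rw [mul_inv_rev, ← mul_assoc, mul_assoc _ b, mul_assoc _ _ b⁻¹, a4.xp, hi', h.n_x] at a7
  have a8 := h.x_inj _ a6
  have a9 := h.x_inj _ a7
  refine hns i hi ⟨(c' k : F)⁻¹, ?_⟩
  simp [h3] at a8 a9
  rw [← mul_inv, a8, ← a9]; simp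

end MR

theorem mono_red [Finite G] [Finite Φ] [Finite F] (am : d.Amb) (r : ℕ) [Fact r.Prime] [CharP F r]
    (hr : r ≠ 2) {π : Equiv.Perm (Fin l)} (hπ : d.SLd π ∨ d.G2d π) {c : Fin l → Fˣ}
    {σ : Fin l → F ≃+* F} {a k : G} (s : d.Std π c σ a) (hk : k ∈ d.GH) (h2 : (k * a) ^ 2 = 1) :
    ∃ g ∈ d.GH, ∃ c' σ', d.Std π c' σ' (g * (k * a) * g⁻¹) := by
  have h := am.ax
  have := am.GH_normal r
  have ha : a * a ∈ d.T := (s.mul s).mem_T h (by
    have h3 : a * a = (k * (a * k * a⁻¹))⁻¹ := eq_inv_of_mul_eq_one_right (by rw [← h2, pow_two]; group)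
    exact h3 ▸ inv_mem (mul_mem hk (this.conj_mem _ hk a)))
  obtain ⟨L, u, hu, t, ht, u', hu', rfl⟩ := h.cell_GH hk
  have e : u * t * d.nw L * u' * a = u * (t * d.nw L * a) * (a⁻¹ * u' * a) := by group
  have h3 : MR.InN d L (t * d.nw L * a * a⁻¹) := ⟨t, ht, by group⟩
  rw [pow_two, e] at h2
  obtain ⟨b1, b2⟩ := MR.lemA s am r hr ha h3 hu
    (by simpa using (mem_normalizer_iff.1 (inv_mem s.nU) u').1 hu') h2
  exact e ▸ b2 (MR.main s am r hr hπ ha h3 b1)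

end AD

end Cfsg.Agent.LB
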