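import Cfsg.Agent.LB.FC
import Cfsg.Agent.LB.MR
import Cfsg.Agent.LB.GS
import Cfsg.Agent.LB.GG

/-! The abstract local balance criterion. -/

set_option autoImplicit false
set_option linter.unusedSectionVars false
set_option linter.unusedVariables false

namespace Cfsg.Agent.LB

open Subgroup Cfsg.Agent.H9.Chev

variable {G : Type*} [Group G] {Φ : Type} {l : ℕ} {F : Type*} [Field F]

namespace AD

variable {d : AD G Φ l F}

theorem map_conj_cent (hK : d.K.Normal) (β g : G) :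
    (d.K ⊓ centralizer {β}).map (MulAut.conj g).toMonoidHom = d.K ⊓ centralizer {g * β * g⁻¹} := by
  ext y
  simp only [mem_map, mem_inf, mem_centralizer_singleton_iff, MulEquiv.coe_toMonoidHom,
    MulAut.conj_apply]
  constructor
  · rintro ⟨z, ⟨h1, h2⟩, rfl⟩
    refine ⟨hK.conj_mem z h1 g, ?_⟩
    calc _ = g * (z * β) * g⁻¹ := by group
      _ = _ := by rw [h2]; group
  · rintro ⟨h1, h2⟩
    refine ⟨g⁻¹ * y * g⁻¹⁻¹, ⟨hK.conj_mem y h1 _, ?_⟩, by group⟩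
    calc _ = g⁻¹ * (y * (g * β * g⁻¹)) * g := by group
      _ = _ := by rw [h2]; group

theorem main [Finite G] [Finite Φ] [Finite F] (am : d.Amb) (r : ℕ) [Fact r.Prime] [CharP F r]
    {p : ℕ} (hp : p.Prime) (hpr : p ≠ r)
    (hL : ∀ σ f g, d.IsFld σ f → g ∈ d.GH → σ ≠ 1 → (g * f) ^ p = 1 →
      ∃ y ∈ d.GH, y * (g * f) * y⁻¹ = f)
    {β : G} (ho : orderOf β = p) (hn : β ∉ d.GH) {N : Subgroup G} (hN : d.NH p β N) (h0 : N ≠ ⊥)
    (hty : ∀ π c σ k a, k ∈ d.K → β = k * a → d.Std π c σ a → π ≠ 1 → d.Graph π →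
      d.BFd π ∨ d.G2d π ∨ d.SLd π ∨ ∃ α τ f, d.IsFld τ f ∧ α * β * α⁻¹ = f) :
    (∃ g ∈ d.GH, ∃ τ f, d.IsFld τ f ∧ β = g * f) ∧
      p.Coprime (Nat.card ↥(d.K ⊓ centralizer {β})) := by
  obtain ⟨k, hk, π, c, σ, a, s, e⟩ := am.steinberg r β
  have hb : β ^ p = 1 := ho ▸ pow_orderOf_eq_one β
  have h1 : ∀ g : G, N.map (MulAut.conj g).toMonoidHom ≠ ⊥ := fun g e' =>
    h0 ((map_eq_bot_iff_of_injective _ (MulAut.conj g).injective).1 e')
  by_cases hπ : π = 1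
  · subst hπ
    obtain ⟨t, ht, τ, f, hf, rfl, -⟩ := s.eq_T_fld am
    have hg : k * t ∈ d.GH := mul_mem (mem_sup_left hk) (mem_sup_right ht)
    rw [← mul_assoc] at e
    refine ⟨⟨_, hg, τ, f, hf, e⟩, (Nat.Prime.coprime_iff_not_dvd hp).2 fun hd => ?_⟩
    obtain ⟨y, -, hy⟩ := hL τ f _ hf hg (by
      rintro rfl; exact hn (by rwa [e, hf.eq_one am, mul_one])) (e ▸ hb)
    rw [← e] at hy
    refine h1 y (field_case am r hp hpr hf ?_ (hy ▸ hN.conj am.norm y) ?_)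
    · rw [← hy, ← ho]; exact (MulAut.conj y).orderOf_eq β
    · rwa [← hy, ← map_conj_cent am.norm, card_map_of_injective (MulAut.conj y).injective]
  exfalso
  obtain ⟨ρ, hρ⟩ := am.rho r
  have h2 : ρ β = π := e ▸ hρ k (mem_sup_left hk) _ _ _ _ s
  have h3 : π * π = 1 → p = 2 := fun h3 => by
    have h4 : orderOf π = 2 := orderOf_eq_prime (by rwa [sq]) hπ
    exact ((Nat.prime_dvd_prime_iff_eq Nat.prime_two hp).1
      (h4 ▸ orderOf_dvd_of_pow_eq_one (by rw [← h2, ← map_pow, hb, map_one]))).symm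
  have h4 : d.SLd π ∨ d.G2d π → False := fun h4 => by
    obtain rfl := h3 (h4.elim (·.sq) (·.sq))
    obtain ⟨g, -, c', σ', s'⟩ := mono_red am r hpr.symm h4 s (mem_sup_left hk) (e ▸ hb)
    rw [← e] at s'
    have h5 : (g * β * g⁻¹) ^ 2 = 1 := by rw [conj_pow, hb]; simp
    rcases h4 with h4 | h4
    · exact h1 g (graph_sl am r hpr.symm h4 s' h5 (hN.conj am.norm g))
    · exact h1 g (graph_g2 am r hpr.symm h4 s' h5 (hN.conj am.norm g))
  rcases hty π c σ k a hk e s hπ (s.graph am.ax) with ⟨h5, i, j, h6, h7⟩ | h5 | h5 | ⟨α, τ, f, hf, h5⟩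
  · obtain rfl := h3 h5
    have := s.rel am.ax i j (-1)
    rw [h6, h7] at this
    refine hpr ((Nat.prime_dvd_prime_iff_eq Fact.out Nat.prime_two).1
      ((CharP.cast_eq_zero_iff F r 2).1 ?_)).symm
    simp [zpow_neg] at this
    push_cast
    linear_combination -this
  · exact h4 (Or.inr h5)
  · exact h4 (Or.inl h5)
  · have := hρ 1 (one_mem _) _ _ _ _ (Std.of_fld am.ax hf)
    rw [one_mul, ← h5, map_mul, map_mul, map_inv, h2] at this
    exact hπ (by simpa using this)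

theorem main2 [Finite G] [Finite Φ] [Finite F] (am : d.Amb) {p : ℕ}
    (hL : ∀ σ f g, d.IsFld σ f → g ∈ d.GH → σ ≠ 1 → (g * f) ^ p = 1 →
      ∃ y ∈ d.GH, y * (g * f) * y⁻¹ = f)
    {β : G} (ho : orderOf β = p) (hn : β ∉ d.GH)
    (h1 : ∃ g ∈ d.GH, ∃ τ f, d.IsFld τ f ∧ β = g * f) : d.K ⊓ centralizer {β} ≠ ⊥ := by
  obtain ⟨g, hg, τ, f, hf, e⟩ := h1
  obtain ⟨y, -, hy⟩ := hL τ f _ hf hg (by
    rintro rfl; exact hn (by rwa [e, hf.eq_one am, mul_one])) (by rw [← e, ← ho, pow_orderOf_eq_one])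
  intro h0
  obtain ⟨i, -, -⟩ := am.rk
  have h2 : d.x (d.sm i) 1 ∈ d.K ⊓ centralizer {y * β * y⁻¹} := by
    refine ⟨x_mem_K _ _, mem_centralizer_singleton_iff.2 ?_⟩
    rw [e, hy, ← mul_inv_eq_iff_eq_mul.1 (by simpa using hf (d.sm i) 1)]
  rw [← map_conj_cent am.norm, h0, Subgroup.map_bot, mem_bot, ← am.ax.x_zero (d.sm i)] at h2
  exact one_ne_zero (am.ax.x_inj _ h2)

end AD

end Cfsg.Agent.LB
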