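import Cfsg.Agent.H9.ChevDat
import Cfsg.Prelude.Def_ChevB2

set_option autoImplicit false
set_option maxRecDepth 100000

namespace Cfsg.Agent.H9.Chev

open Cfsg.Lie Cfsg.Agent.H4

def pkB2 : Pk where
  wd := 24
  mask := 16777215
  T := [869729095973394197142789835228462605741850624, 87384796393822298868001248703884926583869192638455349248, 108846468567050615777781097596018383754543124656007675904, 1984766322669225459596678926272178098496602112, 139568939557416166654899741330090491904, 2720690914259361891653449378977067806178373655, 156848903504960964235327994002722295849, 28991924094369792]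
  C := 3720472641020907755621126757922606054227614745313742774579016241250438
  K := 4124871841134878082064628081768308525163973569002771404707384172478583
  G := 76587778424823332548931756808770527197623033863892232004018509844554073056947490703540360
  ng := 283686952306183
  sm := [5, 4]
  W := [289921455100330243, 505817143170892288]
  H := [255, 90]
  E := [255, 90]
  Bz := 3693512694259600589817582055933249172843133932926846870787014743031943
  rk := 72339069031481858
  via := 16781328
  cm := [(0, [[(1, 1, 1, 1), (3, -1, 2, 1)], [(3, -2, 1, 1)], [], [], [(6, 1, 1, 1), (7, -1, 2, 1)], [], [(7, -2, 1, 1)], []]), (1, [[], [(2, 1, 1, 1), (0, -1, 1, 2)], [], [], [], [(6, -1, 1, 1), (7, 1, 1, 2)], [], []])]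

theorem tabB2 : allLt 8 (pkB2.cTab chevB2) = true := by decide +kernel
theorem addB2 : allLt 8 (pkB2.cAdd 2 8) = true := by decide +kernel
theorem grB2 : allLt 8 (pkB2.cGr 2 8) = true := by decide +kernel
theorem rootB2 : allLt 8 (pkB2.cRoot 2 8) = true := by decide +kernel
theorem smB2 : allLt 2 (pkB2.cSm 2 8) = true := by decide +kernel
theorem conjB2 : allLt 2 (fun p => allLt 8 (pkB2.cConj 2 8 p)) = true := by decide +kernel
theorem commB2 : allL pkB2.cm (fun e => allLt 8 (pkB2.cComm 2 8 e.1 e.2)) = true := by
  decide +kernel

theorem goodB2 : Good chevB2 pkB2 :=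
  ⟨allLt_iff.1 tabB2, allLt_iff.1 addB2, allLt_iff.1 grB2, allLt_iff.1 rootB2, allLt_iff.1 smB2,
    fun p hp => allLt_iff.1 (allLt_iff.1 conjB2 p hp), fun e he => allLt_iff.1 (allL_iff.1 commB2 e he)⟩

end Cfsg.Agent.H9.Chev
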