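import Cfsg.Agent.LB.St
import Cfsg.Agent.H9.ChevFold

/-! Transfer of the matrix datum to the automorphism group. -/

set_option autoImplicit false
set_option linter.unusedSectionVars false
set_option linter.unusedVariables false

namespace Cfsg.Agent.LB

open Subgroup Cfsg.Agent.H9.Chev

section toAD

variable {I Φ : Type} [Fintype I] [DecidableEq I] {l : ℕ} {F : Type*} [Field F]

/-- a matrix datum as an abstract datum -/
def toAD (d : Dat I Φ l F) : AD (GL I F) Φ l F := ⟨d.x, d.D, d.n, d.rt, d.neg, d.sm, d.w, d.A⟩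

theorem toAD_ax {d : Dat I Φ l F} (h : d.Ax) (hpos : ∀ r ∈ d.Pos (ht l), ∀ i, 0 ≤ d.rt r i) :
    (toAD d).Ax := by
  refine ⟨h.x_add, h.rt_neg, h.rt_sm, h.rt_inj, h.ht_ne, hpos, h.D_x, h.n_D, h.n_gen, h.n_conj,
    h.rt_w, h.A_self, h.w_pos, fun P h1 h2 => ?_, h.comm, fun f r hr S hS hr' t ht => ?_, h.ldu,
    h.root_eq_of_x_eq⟩
  · obtain ⟨P0, hP, -⟩ := h.reach
    exact hP P (fun p _ => h1 p) h2
  · obtain ⟨c, hc⟩ := h.tau_peel (f := f) (r := r) hr
    have h1 := hc S hS hr' _ ht 0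
    have h2 := hc S hS hr' 1 (one_mem _) t
    rw [h.x_zero, one_mul] at h1
    rw [mul_one] at h2
    exact h2.symm.trans h1

end toAD

variable {G G' : Type*} [Group G] [Group G'] {Φ : Type} {l : ℕ} {F : Type*} [Field F]

namespace AD

/-- push a datum along a homomorphism -/
def map (d : AD G Φ l F) (f : G →* G') : AD G' Φ l F :=
  ⟨fun r t => f (d.x r t), f.comp d.D, fun p => f (d.n p), d.rt, d.neg, d.sm, d.w, d.A⟩

variable {d : AD G Φ l F} {f : G →* G'}

theorem map_US (S : Set Φ) : (d.map f).US S = (d.US S).map f := by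
  rw [US, US, MonoidHom.map_closure]
  congr 1
  ext g
  exact ⟨fun ⟨r, hr, t, e⟩ => ⟨_, ⟨r, hr, t, rfl⟩, e.symm⟩,
    fun ⟨_, ⟨r, hr, t, e⟩, e'⟩ => ⟨r, hr, t, by rw [← e', e]; rfl⟩⟩

theorem map_T : (d.map f).T = d.T.map f := MonoidHom.range_comp f d.D

theorem map_GH : (d.map f).GH = d.GH.map f := by
  rw [GH, GH, Subgroup.map_sup, K, map_US, map_T]

theorem Ax.map (h : d.Ax) (hf : Function.Injective f) : (d.map f).Ax := by
  refine ⟨fun r t u => (congrArg f (h.x_add r t u)).trans (map_mul f _ _), h.rt_neg, h.rt_sm,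
    h.rt_inj, h.ht_ne, h.hpos, fun χ r t => ?_, fun p χ => ?_, fun p a => ?_, fun p r => ?_,
    h.rt_w, h.A_self, h.w_pos, h.reach, fun r s h1 h2 t u => ?_, fun g r hr S hS hr' t ht => ?_,
    ?_, fun h0 e => h.root_eq_of_x_eq h0 (hf e)⟩
  · exact (map_mul f _ _).symm.trans ((congrArg f (h.D_x χ r t)).trans (map_mul f _ _))
  · exact (map_mul f _ _).symm.trans ((congrArg f (h.n_D p χ)).trans (map_mul f _ _))
  · have := congrArg f (h.n_gen p a)
    rwa [map_mul, map_mul, map_mul] at this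
  · obtain ⟨ε, hε, h1⟩ := h.n_conj p r
    exact ⟨ε, hε, fun t =>
      ⟨(map_mul f _ _).symm.trans ((congrArg f (h1 t).1).trans (map_mul f _ _)),
       (map_mul f _ _).symm.trans ((congrArg f (h1 t).2).trans (map_mul f _ _))⟩⟩
  · have := mem_map_of_mem f (h.comm r s h1 h2 t u)
    rw [map_mul, map_mul, map_mul, map_inv, map_inv] at this
    rw [map_US]
    exact this
  · rw [map_US] at ht
    exact h.uniq g r hr S hS hr' t ((mem_map_iff_mem hf).1 ht)
  · intro u u' v v' t t' hu hu' hv hv' h1 h2 e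
    rw [map_US] at hu hu' hv hv'
    rw [map_T] at h1 h2
    obtain ⟨u, hu, rfl⟩ := hu
    obtain ⟨u', hu', rfl⟩ := hu'
    obtain ⟨v, hv, rfl⟩ := hv
    obtain ⟨v', hv', rfl⟩ := hv'
    obtain ⟨t, h1, rfl⟩ := h1
    obtain ⟨t', h2, rfl⟩ := h2
    obtain ⟨rfl, rfl, rfl⟩ := h.ldu hu hu' hv hv' h1 h2 (hf (by simpa only [map_mul] using e))
    exact ⟨rfl, rfl, rfl⟩

theorem Ax.of_map (h : (d.map f).Ax) (hf : Function.Injective f) : d.Ax := by
  refine ⟨fun r t u => hf ((h.x_add r t u).trans (map_mul f _ _).symm), h.rt_neg, h.rt_sm,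
    h.rt_inj, h.ht_ne, h.hpos, fun χ r t => hf ?_, fun p χ => hf ?_, fun p a => hf ?_,
    fun p r => ?_, h.rt_w, h.A_self, h.w_pos, h.reach, fun r s h1 h2 t u => ?_,
    fun g r hr S hS hr' t ht => ?_, ?_, fun h0 e => h.root_eq_of_x_eq h0 (congrArg f e)⟩
  · exact (map_mul f _ _).trans ((h.D_x χ r t).trans (map_mul f _ _).symm)
  · exact (map_mul f _ _).trans ((h.n_D p χ).trans (map_mul f _ _).symm)
  · rw [map_mul, map_mul, map_mul]
    exact h.n_gen p a
  · obtain ⟨ε, hε, h1⟩ := h.n_conj p r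
    exact ⟨ε, hε, fun t =>
      ⟨hf ((map_mul f _ _).trans ((h1 t).1.trans (map_mul f _ _).symm)),
       hf ((map_mul f _ _).trans ((h1 t).2.trans (map_mul f _ _).symm))⟩⟩
  · have := h.comm r s h1 h2 t u
    rw [map_US] at this
    refine (mem_map_iff_mem hf).1 ?_
    rw [map_mul, map_mul, map_mul, map_inv, map_inv]
    exact this
  · refine h.uniq g r hr S hS hr' t ?_
    rw [map_US]
    exact mem_map_of_mem f ht
  · intro u u' v v' t t' hu hu' hv hv' h1 h2 e
    obtain ⟨e1, e2, e3⟩ := h.ldu (u := f u) (u' := f u') (v := f v) (v' := f v') (t := f t)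
      (t' := f t') (by rw [map_US]; exact mem_map_of_mem f hu)
      (by rw [map_US]; exact mem_map_of_mem f hu') (by rw [map_US]; exact mem_map_of_mem f hv)
      (by rw [map_US]; exact mem_map_of_mem f hv') (by rw [map_T]; exact mem_map_of_mem f h1)
      (by rw [map_T]; exact mem_map_of_mem f h2) (by simpa only [map_mul] using congrArg f e)
    exact ⟨hf e1, hf e2, hf e3⟩

theorem x_mem_GH (d : AD G Φ l F) (r : Φ) (t : F) : d.x r t ∈ d.GH :=
  mem_sup_left (x_mem_US (Set.mem_univ r) t)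

variable [Finite Φ]

/-- restriction to the inner-diagonal group -/
def res (h : d.Ax) : AD d.GH Φ l F :=
  ⟨fun r t => ⟨d.x r t, d.x_mem_GH r t⟩, d.D.codRestrict _ fun χ => mem_sup_right (D_mem χ),
    fun p => ⟨d.n p, mem_sup_left (h.n_mem_K p)⟩, d.rt, d.neg, d.sm, d.w, d.A⟩

theorem res_map (h : d.Ax) : (res h).map d.GH.subtype = d := rfl

theorem res_ax (h : d.Ax) : (res h).Ax := Ax.of_map (f := d.GH.subtype) h d.GH.subtype_injective

theorem mem_res_US (h : d.Ax) {S : Set Φ} {g : d.GH} : g ∈ (res h).US S ↔ g.1 ∈ d.US S := by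
  have e := map_US (d := res h) (f := d.GH.subtype) S
  rw [res_map] at e
  exact (mem_map_iff_mem d.GH.subtype_injective).symm.trans (SetLike.ext_iff.1 e g.1).symm

theorem res_GH (h : d.Ax) (g : d.GH) : g ∈ (res h).GH := by
  obtain ⟨k, hk, _, ⟨χ, rfl⟩, e⟩ := h.mem_GH.1 g.2
  have h1 : (⟨k, mem_sup_left hk⟩ : d.GH) ∈ (res h).K := (mem_res_US h).2 hk
  have h2 : g = ⟨k, mem_sup_left hk⟩ * (res h).D χ := Subtype.ext e
  rw [h2]
  exact mul_mem_sup h1 (D_mem χ)

theorem GH_le_norm (h : d.Ax) : d.GH ≤ normalizer (d.K : Set G) := by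
  refine sup_le le_normalizer fun t ht => ?_
  rw [mem_normalizer_iff]
  refine fun k => ⟨h.T_conj ht, fun hk => ?_⟩
  have := h.T_conj (inv_mem ht) hk
  rwa [show t⁻¹ * (t * k * t⁻¹) * t⁻¹⁻¹ = k by group] at this

end AD

/-- the action of the inner-diagonal group on `K` -/
def iota [Finite Φ] {d : AD G Φ l F} (h : d.Ax) {K : Subgroup G} (e : K = d.K) :
    d.GH →* MulAut K :=
  K.normalizerMonoidHom.comp (inclusion (e ▸ AD.GH_le_norm h))

section iota

variable [Finite Φ] {d : AD G Φ l F} (h : d.Ax) {K : Subgroup G} (e : K = d.K)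

theorem iota_apply (g : d.GH) (k : K) : (iota h e g k : G) = g * k * (g : G)⁻¹ := rfl

theorem iota_inj : Function.Injective (iota h e) := by
  refine (injective_iff_map_eq_one _).2 fun g hg => Subtype.ext (h.cent_GH g.2 fun k hk => ?_)
  have := iota_apply h e g ⟨k, e ▸ hk⟩
  rw [hg, eq_mul_inv_iff_mul_eq] at this
  exact this.symm

theorem iota_conj (k : K) : iota h e ⟨k, mem_sup_left (e ▸ k.2)⟩ = MulAut.conj k := by
  ext x; rfl

include h e in
theorem conj_inj : Function.Injective (MulAut.conj : K →* MulAut K) := fun a b hab => by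
  rw [← iota_conj h e, ← iota_conj h e] at hab
  exact Subtype.ext (congrArg Subtype.val (iota_inj h e hab) :)

/-- the datum in the automorphism group -/
def aut : AD (MulAut K) Φ l F := (AD.res h).map (iota h e)

theorem aut_ax : (aut h e).Ax := (AD.res_ax h).map (iota_inj h e)

theorem aut_x (r : Φ) (t : F) :
    (aut h e).x r t = MulAut.conj ⟨d.x r t, e ▸ AD.x_mem_US (Set.mem_univ r) t⟩ :=
  iota_conj h e ⟨d.x r t, _⟩

theorem mem_aut_GH {α : MulAut K} : α ∈ (aut h e).GH ↔ ∃ g, iota h e g = α := by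
  rw [aut, AD.map_GH]
  exact ⟨fun ⟨g, _, hg⟩ => ⟨g, hg⟩, fun ⟨g, hg⟩ => ⟨g, AD.res_GH h g, hg⟩⟩

theorem conj_mem_aut_US {S : Set Φ} {k : K} : MulAut.conj k ∈ (aut h e).US S ↔ k.1 ∈ d.US S := by
  rw [aut, AD.map_US, ← iota_conj h e, mem_map_iff_mem (iota_inj h e), AD.mem_res_US]

theorem mem_aut_K {α : MulAut K} : α ∈ (aut h e).K ↔ ∃ k : K, MulAut.conj k = α := by
  refine ⟨fun hα => ?_, fun ⟨k, hk⟩ => hk ▸ (conj_mem_aut_US h e).2 (e ▸ k.2)⟩
  rw [aut, AD.K, AD.map_US] at hα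
  obtain ⟨g, hg, rfl⟩ := hα
  exact ⟨⟨g, e ▸ (AD.mem_res_US h).1 hg⟩, (iota_conj h e _).symm⟩

theorem conj_conj (α : MulAut K) (k : K) : α * MulAut.conj k * α⁻¹ = MulAut.conj (α k) := by
  ext x; simp

theorem aut_norm : (aut h e).K.Normal := ⟨fun a ha α => by
  obtain ⟨k, rfl⟩ := (mem_aut_K h e).1 ha
  exact (mem_aut_K h e).2 ⟨_, (conj_conj α k).symm⟩⟩

include h e in
theorem comm_conj_iff {α : MulAut K} {k : K} :
    α * MulAut.conj k = MulAut.conj k * α ↔ α k = k := by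
  rw [← mul_inv_eq_iff_eq_mul, conj_conj, (conj_inj h e).eq_iff]

theorem aut_cent (α : MulAut K) (hα : ∀ k ∈ (aut h e).K, α * k = k * α) : α = 1 :=
  MulEquiv.ext fun k => (comm_conj_iff h e).1 (hα _ ((mem_aut_K h e).2 ⟨k, rfl⟩))

theorem card_fix (β : MulAut K) : Nat.card ↥((aut h e).K ⊓ centralizer {β}) =
    Nat.card ↥(MonoidHom.eqLocus β.toMonoidHom (MonoidHom.id K)) := by
  rw [← card_map_of_injective (conj_inj h e)]
  congr 3
  ext α
  rw [mem_inf, mem_aut_K, mem_centralizer_singleton_iff]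
  exact ⟨fun ⟨⟨k, hk⟩, h1⟩ => ⟨k, (comm_conj_iff h e).1 (hk ▸ h1.symm), hk⟩,
    fun ⟨k, h1, hk⟩ => ⟨⟨k, hk⟩, hk ▸ ((comm_conj_iff h e).2 h1).symm⟩⟩

end iota

end Cfsg.Agent.LB
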