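import Cfsg.Agent.LB.Tr1
import Cfsg.Agent.LB.Main
import Cfsg.Agent.LB.LU
import Cfsg.Agent.L.Core
import Cfsg.Prelude.Def_StandardType

/-! Translation of the local balance criterion to the Chevalley groups of the statement. -/

set_option autoImplicit false
set_option linter.unusedSectionVars false
set_option linter.unusedVariables false

namespace Cfsg.Agent.LB

open Subgroup Cfsg.Lie Cfsg.Agent.H9.Chev

/-- the combinatorial facts which are checked type by type -/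
structure Cmb (D : ChevalleyDatum) (P : Pk) : Prop where
  hpos : ∀ r < D.nroots, 0 < P.ht D.rank (D.rank + r) → ∀ i < D.rank, 0 ≤ P.gr (D.rank + r) i
  offd : ∀ i k : Fin D.rank, i ≠ k → P.A i k ≤ 0
  symz : ∀ i k : Fin D.rank, P.A i k = 0 → P.A k i = 0
  adj : ∀ i k : Fin D.rank, i ≠ k → P.A i k ≠ 0 → P.A i k = -1 ∨ P.A k i = -1
  conn : ∃ dep : Fin D.rank → ℕ, ∃ o, ∀ i, i = o ∨ ∃ k, dep k < dep i ∧ P.A i k ≠ 0
  rk : ∃ i k : Fin D.rank, P.A i k = -1
  c1 : ∀ r < D.nroots, ∀ s k, D.chainRoot r s 1 = some k →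
    ∀ i < D.rank, P.gr (D.rank + k) i = P.gr (D.rank + r) i + P.gr (D.rank + s) i
  c2 : ∀ r < D.nroots, 0 < P.ht D.rank (D.rank + r) → (∃ i < D.rank, P.s i = r) ∨
    ∃ i < D.rank, ∃ s < D.nroots, D.chainRoot (P.s i) s 1 = some r

variable {D : ChevalleyDatum} {P : Pk} (h : Good D P) (c : Cmb D P) (F : Type*) [Field F]

theorem ht_rt (r : Fin D.nroots) : ht D.rank ((h.dat F).rt r) = P.ht D.rank (D.rank + r) :=
  (sumI_eq D.rank (P.gr (D.rank + r))).symm

include c in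
theorem ax0 : (toAD (h.dat F)).Ax :=
  toAD_ax (h.ax F) fun r hr i => c.hpos r r.2 (ht_rt h F r ▸ hr) i i.2

theorem geq : D.group F = (toAD (h.dat F)).K := h.group_eq F

/-- the datum in the automorphism group of the Chevalley group -/
noncomputable def dA : AD (MulAut (D.group F)) (Fin D.nroots) D.rank F :=
  aut (ax0 h c F) (geq h F)

variable {F}

theorem map_memGH (σ : F →+* F) {g : GL D.Idx F} (hg : g ∈ (toAD (h.dat F)).GH) :
    Matrix.GeneralLinearGroup.map σ g ∈ (toAD (h.dat F)).GH := by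
  refine (show (toAD (h.dat F)).GH ≤ (toAD (h.dat F)).GH.comap (Matrix.GeneralLinearGroup.map σ)
    from sup_le (fun k hk => mem_sup_left ((h.ax F).map_US (h.map_x σ) hk)) ?_) hg
  rintro _ ⟨χ, rfl⟩
  exact mem_sup_right ⟨_, (Dat.Ax.map_D (d := h.dat F) (σ := σ) χ).symm⟩

theorem isFld_iff {σ : F ≃+* F} {f : MulAut (D.group F)} :
    (dA h c F).IsFld σ f ↔ IsEntrywiseFieldAutOnOf (D.group F) σ f := by
  have key : ∀ r t, f * (dA h c F).x r t * f⁻¹ = (dA h c F).x r (σ t) ↔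
      (f ⟨_, h.x_mem F r t⟩).1 = (h.dat F).x r (σ t) := fun r t => by
    rw [dA, aut_x, aut_x, conj_conj, (conj_inj (ax0 h c F) (geq h F)).eq_iff, Subtype.ext_iff]
    rfl
  constructor
  · intro hf k
    refine congrArg Units.val (DFunLike.congr_fun (h.hom_ext ((D.group F).subtype.comp f.toMonoidHom)
      ((Matrix.GeneralLinearGroup.map (σ : F →+* F)).comp (D.group F).subtype) fun r t => ?_) k)
    exact ((key r t).1 (hf r t)).trans (h.map_x (σ : F →+* F) r t).symm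
  · intro hf r t
    exact (key r t).2 ((Units.ext (hf _)).trans (h.map_x (σ : F →+* F) r t))

include h in
theorem exists_fld (σ : F ≃+* F) : ∃ f, IsEntrywiseFieldAutOnOf (D.group F) σ f := by
  have hm : ∀ (τ : F →+* F) (k : D.group F), Matrix.GeneralLinearGroup.map τ k.1 ∈ D.group F :=
    fun τ k => (h.group_eq F).ge ((h.ax F).map_US (h.map_x τ) ((h.group_eq F).le k.2))
  refine ⟨⟨⟨fun k => ⟨_, hm σ k⟩, fun k => ⟨_, hm σ.symm k⟩, fun k => ?_, fun k => ?_⟩,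
    fun a b => Subtype.ext (map_mul _ a.1 b.1)⟩, fun k => rfl⟩
  · ext a b; exact σ.symm_apply_apply _
  · ext a b; exact σ.apply_symm_apply _

theorem amb : (dA h c F).Amb := by
  refine ⟨aut_ax _ _, aut_norm _ _, aut_cent _ _,
    fun σ => (exists_fld h σ).imp fun f hf => (isFld_iff h c).2 hf, c.offd, c.symz, c.adj,
    fun Q j hj hQ => ?_, c.rk⟩
  obtain ⟨dep, o, ho⟩ := c.conn
  have h1 : ∀ n i, dep i = n → (Q i ↔ Q o) := fun n => by
    induction n using Nat.strong_induction_on with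
    | _ n ih =>
      intro i hi
      rcases ho i with rfl | ⟨k, h2, h3⟩
      · rfl
      · exact Iff.trans ⟨hQ k i fun e => h3 (c.symz k i e), hQ i k h3⟩ (ih _ (hi ▸ h2) k rfl)
  exact fun i => (h1 _ i rfl).2 ((h1 _ j rfl).1 hj)

theorem charDiag_eq {χ : ℕ → Fˣ} {ψ : AddChar (Fin D.rank → ℤ) Fˣ}
    (e : ∀ r : Fin D.nroots, χ r = ψ ((h.dat F).rt r)) : D.charDiag F χ = ((h.dat F).D ψ).1 := by
  rw [Dat.D_val, ChevalleyDatum.charDiag]
  congr 1
  funext a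
  rcases a with i | r
  · have := (h.ax F).gr_hh i
    change (h.dat F).gr (Sum.inl i) = 0 at this
    simp [this]
  · exact congrArg Units.val (e r)

include c in
theorem exists_char {χ : ℕ → Fˣ} (hχ : D.IsRootCharacter χ) :
    ∃ ψ : AddChar (Fin D.rank → ℤ) Fˣ, ∀ r : Fin D.nroots, χ r = ψ ((h.dat F).rt r) := by
  let ψ : AddChar (Fin D.rank → ℤ) Fˣ := ∏ j, pc (co j) (χ (P.s j))
  have hs : ∀ i, ψ (Pi.single i 1) = χ (P.s i) := fun i => by
    rw [AddChar.prod_apply, Finset.prod_eq_single i] <;>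
      simp +contextual [pc_apply, co, Pi.single_apply]
  have ax := h.ax F
  have h1 : ∀ n : ℕ, ∀ r : Fin D.nroots, ht D.rank ((h.dat F).rt r) = n + 1 →
      χ r = ψ ((h.dat F).rt r) := fun n => by
    induction n using Nat.strong_induction_on with
    | _ n ih =>
      intro r hr
      rcases c.c2 r r.2 (by rw [← ht_rt h F, hr]; omega) with ⟨i, hi, e⟩ | ⟨i, hi, s, hs', e⟩
      · obtain rfl : r = (h.dat F).sm ⟨i, hi⟩ := Fin.ext e.symm
        rw [ax.rt_sm, hs]; rfl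
      · have e1 : (h.dat F).rt r = (h.dat F).rt ((h.dat F).sm ⟨i, hi⟩) + (h.dat F).rt ⟨s, hs'⟩ :=
          funext fun j => c.c1 _ (h.sm' hi).1 s r e j j.2
        have e2 := congrArg (ht D.rank) e1
        rw [map_add, ax.ht_sm, hr] at e2
        have e3 := ax.ht_ne ⟨s, hs'⟩
        rw [hχ.2 _ s r (h.sm' hi).1 hs' e, e1, AddChar.map_add_eq_mul, ax.rt_sm, hs,
          ← ih (n - 1) (by omega) ⟨s, hs'⟩ (by omega)]
  have h2 : ∀ r ∈ (h.dat F).Pos (ht D.rank), χ r.1 = ψ ((h.dat F).rt r) := fun r hr =>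
    h1 (ht D.rank ((h.dat F).rt r) - 1).toNat r (by
      have : 0 < ht D.rank ((h.dat F).rt r) := hr
      omega)
  refine ⟨ψ, fun r => ?_⟩
  by_cases hr : r ∈ (h.dat F).Pos (ht D.rank)
  · exact h2 r hr
  · have h3 := h2 _ (ax.neg_pos hr)
    rw [ax.rt_neg, AddChar.map_neg_eq_inv, h.dat_neg, h.neg_eq r.2] at h3
    exact inv_injective ((hχ.1 r r.2).symm.trans h3)

theorem innDiag_iff {β : MulAut (D.group F)} :
    D.IsInnerDiagonalAutOn (D.group F) β ↔ β ∈ (dA h c F).GH := by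
  have key : ∀ (g : GL D.Idx F) (χ : ℕ → Fˣ) (ψ : AddChar (Fin D.rank → ℤ) Fˣ),
      (∀ r : Fin D.nroots, χ r = ψ ((h.dat F).rt r)) → ∀ t : GL D.Idx F,
      g.1 * D.charDiag F χ * t.1 * D.charDiag F (fun r => (χ r)⁻¹) * (g⁻¹).1 =
        (g * (h.dat F).D ψ * t * (g * (h.dat F).D ψ)⁻¹).1 := fun g χ ψ e t => by
    rw [charDiag_eq h e, charDiag_eq h (ψ := ψ⁻¹) fun r => by rw [e, AddChar.inv_apply'], map_inv,
      mul_inv_rev]
    simp only [Units.val_mul, mul_assoc]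
  rw [dA, mem_aut_GH]
  constructor
  · rintro ⟨g, hg, χ, hχ, e⟩
    obtain ⟨ψ, hψ⟩ := exists_char h c hχ
    refine ⟨⟨g * (h.dat F).D ψ, mul_mem_sup ((h.group_eq F).le hg) (Dat.D_mem ψ)⟩, ?_⟩
    ext1 t
    exact Subtype.ext (Units.ext ((e t).trans (key g χ ψ hψ t)).symm)
  · rintro ⟨g, rfl⟩
    obtain ⟨k, hk, _, ⟨ψ, rfl⟩, e⟩ := (ax0 h c F).mem_GH.1 g.2
    refine ⟨k, (h.group_eq F).ge hk, fun r => ψ fun i => P.gr (D.rank + r) i,
      ⟨fun r hr => ?_, fun r s k hr hs e => ?_⟩, fun t => ?_⟩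
    · rw [← AddChar.map_neg_eq_inv, ChevalleyDatum.neg, ← h.neg_eq hr]
      exact congrArg ψ (funext fun i => (h.root' hr).2.2.1 i i.2)
    · rw [← AddChar.map_add_eq_mul]
      exact congrArg ψ (funext fun i => c.c1 r hr s k e i i.2)
    · rw [key k _ ψ (fun r => rfl) t, iota_apply, e]; rfl

theorem fld_iota {σ : F ≃+* F} {f : MulAut (D.group F)} (hf : (dA h c F).IsFld σ f)
    (g : (toAD (h.dat F)).GH) : f * iota (ax0 h c F) (geq h F) g =
      iota (ax0 h c F) (geq h F) ⟨_, map_memGH h (σ : F →+* F) g.2⟩ * f := by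
  have e : ∀ k, (f k).1 = Matrix.GeneralLinearGroup.map (σ : F →+* F) k.1 := fun k =>
    Units.ext ((isFld_iff h c).1 hf k)
  ext1 k
  refine Subtype.ext ?_
  rw [MulAut.mul_apply, MulAut.mul_apply, iota_apply, e, e, iota_apply, map_mul, map_mul, map_inv]

theorem langA [Finite F] (r : ℕ) [Fact r.Prime] [CharP F r] {p : ℕ} (hp : p.Prime) (σ : F ≃+* F)
    (f g : MulAut (D.group F)) (hf : (dA h c F).IsFld σ f) (hg : g ∈ (dA h c F).GH) (h1 : σ ≠ 1)
    (e : (g * f) ^ p = 1) : ∃ y ∈ (dA h c F).GH, y * (g * f) * y⁻¹ = f := by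
  haveI := Fact.mk hp
  obtain ⟨g, rfl⟩ := (mem_aut_GH _ _).1 hg
  set ι := iota (ax0 h c F) (geq h F)
  have h2 : ∀ n, ∃ a : (toAD (h.dat F)).GH, (ι g * f) ^ n = ι a * f ^ n ∧ a.1 =
      ((List.range n).map fun i =>
        Matrix.GeneralLinearGroup.map ((σ ^ i : F ≃+* F) : F →+* F) g.1).prod := fun n => by
    induction n with
    | zero => exact ⟨1, by simp, by simp⟩
    | succ n ih =>
      obtain ⟨a, e1, e2⟩ := ih
      refine ⟨a * ⟨_, map_memGH h ((σ ^ n : F ≃+* F) : F →+* F) g.2⟩, ?_, ?_⟩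
      · rw [pow_succ, e1, map_mul, mul_assoc, ← mul_assoc (f ^ n), fld_iota h c (hf.pow n),
          pow_succ]
        simp only [mul_assoc, ι]
      · rw [List.range_succ, List.map_append, List.prod_append, ← e2]
        simp
  obtain ⟨a, e1, e2⟩ := h2 p
  rw [e] at e1
  have h3 : σ ^ p = 1 := (hf.pow p).of_mem_GH (amb h c) (by
    rw [eq_inv_of_mul_eq_one_right e1.symm]
    exact inv_mem ((mem_aut_GH _ _).2 ⟨a, rfl⟩))
  have h4 : f ^ p = 1 := AD.IsFld.eq_one (amb h c) (h3 ▸ hf.pow p)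
  rw [h4, mul_one, ← map_one ι] at e1
  rw [← iota_inj _ _ e1] at e2
  obtain ⟨y, hy, e3⟩ := lang_use h r hp (orderOf_eq_prime h3 h1) g.2 e2.symm
  refine ⟨ι ⟨y, hy⟩, (mem_aut_GH _ _).2 ⟨_, rfl⟩, ?_⟩
  rw [mul_inv_eq_iff_eq_mul, fld_iota h c hf, ← mul_assoc, ← map_mul]
  congr 2
  exact Subtype.ext (by simp [e3])

theorem crit [Fintype F] (r : ℕ) [Fact r.Prime] [CharP F r] (𝒢 : Subgroup (MulAut (D.group F)))
    (hinn : ∀ k : D.group F, MulAut.conj k ∈ 𝒢) (p : ℕ) [hp : Fact p.Prime] (hpr : p ≠ r)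
    (β : MulAut (D.group F)) (hord : orderOf β = p)
    (hnot : ¬ D.IsInnerDiagonalAutOn (D.group F) β)
    (hty : pPrimeCore p ↥(𝒢 ⊓ centralizer {β}) ≠ ⊥ → ∀ π c' σ k a, k ∈ (dA h c F).K → β = k * a →
      (dA h c F).Std π c' σ a → π ≠ 1 → (dA h c F).Graph π → (dA h c F).BFd π ∨ (dA h c F).G2d π ∨
        (dA h c F).SLd π ∨ ∃ α τ f, (dA h c F).IsFld τ f ∧ α * β * α⁻¹ = f) :
    pPrimeCore p ↥(𝒢 ⊓ centralizer {β}) ≠ ⊥ ↔
      ((∃ γ φ : MulAut (D.group F), D.IsInnerDiagonalAutOn (D.group F) γ ∧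
        IsEntrywiseFieldAutOn (D.group F) φ ∧ β = φ.trans γ) ∧
        Nat.Coprime p (Nat.card ↥(MonoidHom.eqLocus β.toMonoidHom (MonoidHom.id (D.group F))))) := by
  haveI : Finite (MulAut (D.group F)) :=
    Finite.of_injective _ (DFunLike.coe_injective (F := MulAut (D.group F)))
  rw [innDiag_iff h c] at hnot
  have hK : (dA h c F).K ⊓ centralizer {β} ≤ 𝒢 ⊓ centralizer {β} := inf_le_inf_right _ fun k hk => by
    obtain ⟨k, rfl⟩ := (mem_aut_K _ _).1 hk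
    exact hinn k
  rw [← card_fix (ax0 h c F) (geq h F)]
  constructor
  · intro h0
    have hN : (dA h c F).NH p β ((pPrimeCore p ↥(𝒢 ⊓ centralizer {β})).map (Subgroup.subtype _)) := by
      refine ⟨?_, ?_, ?_⟩
      · rintro _ ⟨a, -, rfl⟩
        exact mem_centralizer_singleton_iff.1 a.2.2
      · rintro k hk e _ ⟨a, ha, rfl⟩
        exact ⟨_, Normal.conj_mem inferInstance a ha
          ⟨k, hK ⟨hk, mem_centralizer_singleton_iff.2 e⟩⟩, rfl⟩
      · rw [card_map_of_injective (subtype_injective _)]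
        exact L.pPrimeCore_coprime p
    obtain ⟨⟨g, hg, τ, f, hf, e⟩, h2⟩ := AD.main (amb h c) r hp.out hpr (langA h c r hp.out) hord hnot
      hN (fun e => h0 ((map_eq_bot_iff_of_injective _ (subtype_injective _)).1 e)) (hty h0)
    exact ⟨⟨g, f, (innDiag_iff h c).2 hg, ⟨τ, (isFld_iff h c).1 hf⟩, e⟩, h2⟩
  · rintro ⟨⟨γ, φ, h1, ⟨τ, h2⟩, e⟩, h3⟩ h0
    refine AD.main2 (amb h c) (langA h c r hp.out) hord hnot
      ⟨γ, (innDiag_iff h c).1 h1, τ, φ, (isFld_iff h c).2 h2, e⟩ ?_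
    have h4 : ((dA h c F).K ⊓ centralizer {β}).subgroupOf (𝒢 ⊓ centralizer {β}) ≤
        pPrimeCore p ↥(𝒢 ⊓ centralizer {β}) := le_sSup ⟨⟨fun a ha g =>
      ⟨(amb h c).norm.conj_mem _ ha.1 _, (g * a * g⁻¹).2.2⟩⟩, by
        rw [Nat.card_congr (subgroupOfEquivOfLe hK).toEquiv]; exact h3.symm⟩
    rw [h0, le_bot_iff, subgroupOf_eq_bot, disjoint_iff, inf_eq_left.2 hK] at h4
    exact h4

end Cfsg.Agent.LB
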