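import Cfsg.Agent.LB.Tr2

/-! Boolean checks for the combinatorial facts. -/

set_option autoImplicit false
set_option linter.unusedSectionVars false
set_option linter.unusedVariables false

namespace Cfsg.Agent.LB

open Subgroup Cfsg.Lie Cfsg.Agent.H9.Chev Cfsg.Agent.H4

noncomputable def cPos (P : Pk) (l n : ℕ) : Bool :=
  allLt n fun r => bimp (posI (P.ht l (Nat.add l r)))
    (allLt l fun i => bnot (posI (Int.neg (P.gr (Nat.add l r) i))))

noncomputable def cC1 (D : ChevalleyDatum) (P : Pk) (l n : ℕ) : Bool :=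
  allLt n fun r => allL (D.chain.getD r #[]).toList fun e => allL (e.2.toList.take 1) fun q =>
    allLt l fun i => eqI (P.gr (Nat.add l q.1) i)
      (Int.add (P.gr (Nat.add l r) i) (P.gr (Nat.add l e.1) i))

noncomputable def cC2 (D : ChevalleyDatum) (P : Pk) (l n : ℕ) : Bool :=
  allLt n fun r => bimp (posI (P.ht l (Nat.add l r))) (bor (anyLt l fun i => Nat.beq (P.s i) r)
    (anyLt l fun i => anyL (D.chain.getD (P.s i) #[]).toList fun e =>
      band (anyL (e.2.toList.take 1) fun q => Nat.beq q.1 r)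
        (band (Nat.blt e.1 n) (decide (D.chainRoot (P.s i) e.1 1 = some r)))))

variable {D : ChevalleyDatum} {P : Pk}

theorem hpos_of (h : cPos P D.rank D.nroots = true) : ∀ r < D.nroots,
    0 < P.ht D.rank (D.rank + r) → ∀ i < D.rank, 0 ≤ P.gr (D.rank + r) i := by
  intro r hr h0 i hi
  simp only [cPos, allLt_iff, bimp_iff, posI_iff, bnot_iff] at h
  have : ¬ 0 < -P.gr (D.rank + r) i := h r hr h0 i hi
  omega

theorem c1_of (h : cC1 D P D.rank D.nroots = true) : ∀ r < D.nroots, ∀ s k,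
    D.chainRoot r s 1 = some k →
    ∀ i < D.rank, P.gr (D.rank + k) i = P.gr (D.rank + r) i + P.gr (D.rank + s) i := by
  intro r hr s k e i hi
  simp only [cC1, allLt_iff, allL_iff, eqI_iff] at h
  unfold ChevalleyDatum.chainRoot ChevalleyDatum.chainEntry at e
  split at e
  · simp at e
  · rename_i a ha
    have h1 := List.mem_of_find?_eq_some ha
    have h2 : a.1 = s := by simpa using List.find?_some ha
    obtain ⟨q, h3, rfl⟩ := Option.map_eq_some_iff.1 e
    rw [← h2]
    refine h r hr a h1 q ?_ i hi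
    generalize a.2.toList = L at h3
    cases L with
    | nil => simp at h3
    | cons x L => simpa [eq_comm] using h3

theorem c2_of (h : cC2 D P D.rank D.nroots = true) : ∀ r < D.nroots,
    0 < P.ht D.rank (D.rank + r) → (∃ i < D.rank, P.s i = r) ∨
    ∃ i < D.rank, ∃ s < D.nroots, D.chainRoot (P.s i) s 1 = some r := by
  intro r hr h0
  simp only [cC2, allLt_iff, bimp_iff, posI_iff, bor_eq, Bool.or_eq_true, anyLt_iff, anyL_iff,
    band_eq, Bool.and_eq_true, Nat.beq_eq, Nat.blt_eq, decide_eq_true_eq] at h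
  refine (h r hr h0).imp_right fun ⟨i, hi, e, _, _, h1, h2⟩ => ⟨i, hi, e.1, h1, h2⟩

/-- the combinatorial part of the datum -/
noncomputable def cmb (h : Good D P) : AD Unit (Fin D.nroots) D.rank ℚ :=
  ⟨fun _ _ => 1, 1, fun _ => 1, (h.dat ℚ).rt, (h.dat ℚ).neg, (h.dat ℚ).sm, (h.dat ℚ).w, (h.dat ℚ).A⟩

variable (h : Good D P) (c : Cmb D P) (F : Type*) [Field F] {π : Equiv.Perm (Fin D.rank)}

theorem graph_cmb (s : (dA h c F).Graph π) : (cmb h).Graph π := s

theorem bfd_cmb (s : (cmb h).BFd π) : (dA h c F).BFd π := s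

theorem g2d_cmb (s : (cmb h).G2d π) : (dA h c F).G2d π := ⟨s.sq, s.nf, s.two, s.len⟩

theorem sld_cmb (s : (cmb h).SLd π) : (dA h c F).SLd π :=
  ⟨s.sq, s.sym, s.inv, s.orth, s.fix2, s.fixn, s.fixe, s.bnd, s.frame, s.span, s.cen⟩

end Cfsg.Agent.LB
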