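import Cfsg.Agent.LB.Tr3
import Cfsg.Agent.LB.PkB2
import Cfsg.Agent.H9.ChevG2
import Cfsg.Agent.H9.ChevD4
import Cfsg.Agent.H9.ChevF4

/-! Combinatorial checks for the types of rank at most four. -/

set_option autoImplicit false
set_option maxRecDepth 100000

namespace Cfsg.Agent.LB

open Subgroup Cfsg.Lie Cfsg.Agent.H9.Chev Cfsg.Agent.H4

theorem cmbG2 : Cmb chevG2 pkG2 :=
  ⟨hpos_of (by decide +kernel), by decide +kernel, by decide +kernel, by decide +kernel,
    ⟨fun i => i, ⟨0, by decide⟩, by decide +kernel⟩, by decide +kernel, c1_of (by decide +kernel),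
    c2_of (by decide +kernel)⟩

theorem cmbB2 : Cmb chevB2 pkB2 :=
  ⟨hpos_of (by decide +kernel), by decide +kernel, by decide +kernel, by decide +kernel,
    ⟨fun i => i, ⟨0, by decide⟩, by decide +kernel⟩, by decide +kernel, c1_of (by decide +kernel),
    c2_of (by decide +kernel)⟩

theorem cmbD4 : Cmb chevD4 pkD4 :=
  ⟨hpos_of (by decide +kernel), by decide +kernel, by decide +kernel, by decide +kernel,
    ⟨fun i => i, ⟨0, by decide⟩, by decide +kernel⟩, by decide +kernel, c1_of (by decide +kernel),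
    c2_of (by decide +kernel)⟩

theorem cmbF4 : Cmb chevF4 pkF4 :=
  ⟨hpos_of (by decide +kernel), by decide +kernel, by decide +kernel, by decide +kernel,
    ⟨fun i => i, ⟨0, by decide⟩, by decide +kernel⟩, by decide +kernel, c1_of (by decide +kernel),
    c2_of (by decide +kernel)⟩

noncomputable def cG2 : AD Unit (Fin 12) 2 ℚ := cmb goodG2
noncomputable def cB2 : AD Unit (Fin 8) 2 ℚ := cmb goodB2
noncomputable def cD4 : AD Unit (Fin 24) 4 ℚ := cmb goodD4
noncomputable def cF4 : AD Unit (Fin 48) 4 ℚ := cmb goodF4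

theorem tyG2 (π : Equiv.Perm (Fin 2)) (h : π ≠ 1) : cG2.G2d π := by
  obtain rfl : π = Equiv.swap 0 1 := by revert π; decide
  refine ⟨by decide, by decide, by decide,
    fun r => cG2.rt r 0 * cG2.rt r 0 - 3 * cG2.rt r 0 * cG2.rt r 1 + 3 * cG2.rt r 1 * cG2.rt r 1,
    ?_, ?_⟩ <;> decide +kernel

theorem tyB2 (π : Equiv.Perm (Fin 2)) (h : π ≠ 1) : cB2.BFd π := by
  obtain rfl : π = Equiv.swap 0 1 := by revert π; decide
  exact ⟨by decide, 1, 0, by decide +kernel, by decide +kernel⟩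

theorem tyF4 (π : Equiv.Perm (Fin 4)) (h : π ≠ 1) (g : cF4.Graph π) : cF4.BFd π := by
  obtain rfl : π = Equiv.swap 0 3 * Equiv.swap 1 2 := by
    unfold AD.Graph at g
    revert π; decide +kernel
  exact ⟨by decide, 2, 1, by decide +kernel, by decide +kernel⟩

theorem tyD4 (π : Equiv.Perm (Fin 4)) (h : π ≠ 1) (h0 : π 0 = 0) (g : cD4.Graph π) :
    cD4.SLd π := by
  obtain rfl : π = Equiv.swap 2 3 := by
    unfold AD.Graph at g
    revert π; decide +kernel
  have n : ∀ γ γ' : Fin 24, 0 < ht 4 (cD4.rt γ) ∧ (∀ i, cD4.rt γ' (Equiv.swap 2 3 i) = cD4.rt γ i) ∧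
      cD4.Bf (cD4.rt γ) (cD4.rt γ') = 0 → cD4.NF (Equiv.swap 2 3) γ :=
    fun γ γ' h => ⟨h.1, γ', h.2⟩
  refine ⟨by decide, by decide +kernel, by decide +kernel, by decide +kernel, by decide +kernel,
    by decide, by decide, by decide +kernel, fun j hj => ?_, fun a => ?_, ?_⟩
  · refine ⟨if j = 0 then 23 else 17, ?_⟩
    revert j; decide +kernel
  · fin_cases a
    · refine ⟨20, n 20 21 ?_, .inr ⟨15, n 15 16 ?_, ?_⟩⟩ <;> decide +kernel
    · refine ⟨15, n 15 16 ?_, .inr ⟨12, n 12 13 ?_, ?_⟩⟩ <;> decide +kernel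
    · refine ⟨13, n 13 12 ?_, .inl ?_⟩ <;> decide +kernel
    · refine ⟨12, n 12 13 ?_, .inl ?_⟩ <;> decide +kernel
  · unfold AD.Graph
    decide +kernel

end Cfsg.Agent.LB
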