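import Cfsg.Agent.LB.Tr3
import Cfsg.Agent.H6.PkE6
import Cfsg.Agent.H6.PkE7
import Cfsg.Agent.S2662

/-! Combinatorial checks for the types `E`. -/

set_option autoImplicit false
set_option maxRecDepth 100000
set_option synthInstance.maxSize 100000
set_option synthInstance.maxHeartbeats 400000

namespace Cfsg.Agent.LB

open Subgroup Cfsg.Lie Cfsg.Agent.H9.Chev Cfsg.Agent.H4 Cfsg.Agent.H6A Cfsg.Agent.S2662

theorem cmbE6 : Cmb chevE6 pkE6 :=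
  ⟨hpos_of (by decide +kernel), by decide +kernel, by decide +kernel, by decide +kernel,
    ⟨fun i => if i.1 = 1 then 9 else i, ⟨0, by decide⟩, by decide +kernel⟩, by decide +kernel,
    c1_of (by decide +kernel), c2_of (by decide +kernel)⟩

theorem cmbE7 : Cmb chevE7 pkE7 :=
  ⟨hpos_of (by decide +kernel), by decide +kernel, by decide +kernel, by decide +kernel,
    ⟨fun i => if i.1 = 1 then 9 else i, ⟨0, by decide +kernel⟩, by decide +kernel⟩, by decide +kernel,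
    c1_of (by decide +kernel), c2_of (by decide +kernel)⟩

theorem cmbE8 : Cmb chevE8 pkE8 :=
  ⟨hpos_of (by decide +kernel), by decide +kernel, by decide +kernel, by decide +kernel,
    ⟨fun i => if i.1 = 1 then 9 else i, ⟨0, by decide +kernel⟩, by decide +kernel⟩, by decide +kernel,
    c1_of (by decide +kernel), c2_of (by decide +kernel)⟩

noncomputable def cE6 : AD Unit (Fin 72) 6 ℚ := cmb goodE6
noncomputable def cE7 : AD Unit (Fin 126) 7 ℚ := cmb goodE7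
noncomputable def cE8 : AD Unit (Fin 240) 8 ℚ := cmb goodE8

/-- adjacency in the diagram -/
def Ad {n l : ℕ} (d : AD Unit (Fin n) l ℚ) (i k : Fin l) : Prop := i ≠ k ∧ d.A i k ≠ 0

noncomputable instance {n l : ℕ} (d : AD Unit (Fin n) l ℚ) (i k : Fin l) : Decidable (Ad d i k) :=
  inferInstanceAs (Decidable (_ ∧ _))

theorem Ad.map {n l : ℕ} {d : AD Unit (Fin n) l ℚ} {π : Equiv.Perm (Fin l)} (g : d.Graph π)
    (i k : Fin l) (h : Ad d i k) : Ad d (π i) (π k) :=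
  ⟨π.injective.ne h.1, fun e => h.2 ((g i k).1 e)⟩

theorem grE6 (π : Equiv.Perm (Fin 6)) (g : cE6.Graph π) :
    π = 1 ∨ π = Equiv.swap 0 5 * Equiv.swap 2 4 := by
  have key : ∀ a0 a2, Ad cE6 a0 a2 → ∀ a3, Ad cE6 a2 a3 → a3 ≠ a0 → ∀ a1, Ad cE6 a1 a3 → a1 ≠ a2 →
      ∀ a4, Ad cE6 a3 a4 → a4 ≠ a2 → a4 ≠ a1 → ∀ a5, Ad cE6 a4 a5 → a5 ≠ a3 →
      (a0 = 0 ∧ a1 = 1 ∧ a2 = 2 ∧ a3 = 3 ∧ a4 = 4 ∧ a5 = 5) ∨
      (a0 = 5 ∧ a1 = 1 ∧ a2 = 4 ∧ a3 = 3 ∧ a4 = 2 ∧ a5 = 0) := by decide +kernel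
  have ne : ∀ i k : Fin 6, i ≠ k → π i ≠ π k := fun i k h => π.injective.ne h
  refine (key (π 0) (π 2) (Ad.map g _ _ ?_) (π 3) (Ad.map g _ _ ?_) (ne _ _ ?_) (π 1)
    (Ad.map g _ _ ?_) (ne _ _ ?_) (π 4) (Ad.map g _ _ ?_) (ne _ _ ?_) (ne _ _ ?_) (π 5)
    (Ad.map g _ _ ?_) (ne _ _ ?_)).imp (fun h => ?_) fun h => ?_
  rotate_right 2
  · obtain ⟨h0, h1, h2, h3, h4, h5⟩ := h
    ext1 i; fin_cases i <;> assumption
  · obtain ⟨h0, h1, h2, h3, h4, h5⟩ := h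
    ext1 i; fin_cases i <;> assumption
  all_goals decide +kernel

theorem grE7 (π : Equiv.Perm (Fin 7)) (g : cE7.Graph π) : π = 1 := by
  have key : ∀ a0 a2, Ad cE7 a0 a2 → ∀ a3, Ad cE7 a2 a3 → a3 ≠ a0 → ∀ a1, Ad cE7 a1 a3 → a1 ≠ a2 →
      ∀ a4, Ad cE7 a3 a4 → a4 ≠ a2 → a4 ≠ a1 → ∀ a5, Ad cE7 a4 a5 → a5 ≠ a3 →
      ∀ a6, Ad cE7 a5 a6 → a6 ≠ a4 →
      a0 = 0 ∧ a1 = 1 ∧ a2 = 2 ∧ a3 = 3 ∧ a4 = 4 ∧ a5 = 5 ∧ a6 = 6 := by decide +kernel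
  have ne : ∀ i k : Fin 7, i ≠ k → π i ≠ π k := fun i k h => π.injective.ne h
  refine (fun h => ?_ : _ → _) (key (π 0) (π 2) (Ad.map g _ _ ?_) (π 3) (Ad.map g _ _ ?_) (ne _ _ ?_)
    (π 1) (Ad.map g _ _ ?_) (ne _ _ ?_) (π 4) (Ad.map g _ _ ?_) (ne _ _ ?_) (ne _ _ ?_) (π 5)
    (Ad.map g _ _ ?_) (ne _ _ ?_) (π 6) (Ad.map g _ _ ?_) (ne _ _ ?_))
  · obtain ⟨h0, h1, h2, h3, h4, h5, h6⟩ := h
    ext1 i; fin_cases i <;> assumption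
  all_goals decide +kernel

theorem grE8 (π : Equiv.Perm (Fin 8)) (g : cE8.Graph π) : π = 1 := by
  have key : ∀ a0 a2, Ad cE8 a0 a2 → ∀ a3, Ad cE8 a2 a3 → a3 ≠ a0 → ∀ a1, Ad cE8 a1 a3 → a1 ≠ a2 →
      ∀ a4, Ad cE8 a3 a4 → a4 ≠ a2 → a4 ≠ a1 → ∀ a5, Ad cE8 a4 a5 → a5 ≠ a3 →
      ∀ a6, Ad cE8 a5 a6 → a6 ≠ a4 → ∀ a7, Ad cE8 a6 a7 → a7 ≠ a5 →
      a0 = 0 ∧ a1 = 1 ∧ a2 = 2 ∧ a3 = 3 ∧ a4 = 4 ∧ a5 = 5 ∧ a6 = 6 ∧ a7 = 7 := by decide +kernel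
  have ne : ∀ i k : Fin 8, i ≠ k → π i ≠ π k := fun i k h => π.injective.ne h
  refine (fun h => ?_ : _ → _) (key (π 0) (π 2) (Ad.map g _ _ ?_) (π 3) (Ad.map g _ _ ?_) (ne _ _ ?_)
    (π 1) (Ad.map g _ _ ?_) (ne _ _ ?_) (π 4) (Ad.map g _ _ ?_) (ne _ _ ?_) (ne _ _ ?_) (π 5)
    (Ad.map g _ _ ?_) (ne _ _ ?_) (π 6) (Ad.map g _ _ ?_) (ne _ _ ?_) (π 7) (Ad.map g _ _ ?_)
    (ne _ _ ?_))
  · obtain ⟨h0, h1, h2, h3, h4, h5, h6, h7⟩ := h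
    ext1 i; fin_cases i <;> assumption
  all_goals decide +kernel

theorem tyE6 (π : Equiv.Perm (Fin 6)) (h : π ≠ 1) (g : cE6.Graph π) : cE6.SLd π := by
  obtain rfl := (grE6 π g).resolve_left h
  have n : ∀ γ γ' : Fin 72, 0 < ht 6 (cE6.rt γ) ∧
      (∀ i, cE6.rt γ' ((Equiv.swap 0 5 * Equiv.swap 2 4 : Equiv.Perm (Fin 6)) i) = cE6.rt γ i) ∧
      cE6.Bf (cE6.rt γ) (cE6.rt γ') = 0 → cE6.NF (Equiv.swap 0 5 * Equiv.swap 2 4) γ :=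
    fun γ γ' h => ⟨h.1, γ', h.2⟩
  refine ⟨by decide, by decide +kernel, by decide +kernel, by decide +kernel, by decide +kernel,
    by decide, by decide, by decide +kernel, fun j hj => ?_, fun a => ?_, fun π' g' _ => ?_⟩
  · refine ⟨0, ?_⟩
    revert j; decide +kernel
  · fin_cases a
    · refine ⟨56, n 56 36 ?_, .inl ?_⟩ <;> decide +kernel
    · refine ⟨48, n 48 50 ?_, .inr ⟨40, n 40 43 ?_, ?_⟩⟩ <;> decide +kernel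
    · refine ⟨42, n 42 37 ?_, .inl ?_⟩ <;> decide +kernel
    · refine ⟨40, n 40 43 ?_, .inr ⟨37, n 37 42 ?_, ?_⟩⟩ <;> decide +kernel
    · refine ⟨37, n 37 42 ?_, .inl ?_⟩ <;> decide +kernel
    · refine ⟨36, n 36 56 ?_, .inl ?_⟩ <;> decide +kernel
  · rcases grE6 π' g' with rfl | rfl <;> decide

end Cfsg.Agent.LB
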